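import Cfsg.Agent.H42.FvDefs

/-! Project FV, piece SEMIB: the stabiliser of the line of the semisimple part. -/

set_option autoImplicit false

namespace Cfsg.Agent.H81.FvSemiB

open Equiv Cfsg.Lie H37 H40 H34 H29 Module H50.E83 Cfsg.Agent.H42.Fv
open scoped Matrix

/-- the stabiliser of a line -/
noncomputable def ln (w : V) (hw : w ≠ 0) : Subgroup G0 where
  carrier := {m | ∃ c : K, act (ι m) w = c • w}
  one_mem' := ⟨1, by rw [map_one, map_one, one_smul]; rfl⟩
  mul_mem' := by
    rintro a b ⟨c, hc⟩ ⟨d, hd⟩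
    exact ⟨d * c, by rw [map_mul, act_mul, hd, map_smul, hc, smul_smul]⟩
  inv_mem' := by
    rintro a ⟨c, hc⟩
    have e := act_inv_act (ι a) w
    rw [hc, map_smul] at e
    have c0 : c ≠ 0 := fun z => hw (by rw [← e, z, zero_smul])
    exact ⟨c⁻¹, by rw [map_inv, eq_inv_smul_iff₀ c0, e]⟩

theorem supp_cp (y : V) : Supp ∅ (cp y) := fun _ h => h rfl

theorem cp_smul (c : K) (y : V) : cp (c • y) = c • cp y := by
  funext i
  rcases i with i | i
  · rfl
  · exact (mul_zero c).symm

theorem semiB (cen : CenStmt) (fx : FixHStmt) (li : LineStmt) : SemiBStmt := by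
  intro H hH g₀ y nf c0 st
  have w0 : act g₀ (cp y) ≠ 0 := fun z => c0 (by rw [← act_inv_act g₀ (cp y), z, map_zero])
  have le : H ≤ ln _ w0 := fun m hm => by
    obtain ⟨c, hc⟩ := st m hm
    have e : act (g₀⁻¹ * ι m * g₀) y = c • y := by
      rw [act_mul, act_mul, hc, map_smul, act_inv_act]
    have nf' : NFm (c • y) := fun r hr => by
      have := nf r fun z => hr (by rw [Pi.smul_apply, z, smul_zero])
      refine ⟨this.1, ?_⟩
      show al r (c • y) = 0
      rw [al_smul, show al r y = 0 from this.2, mul_zero]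
    obtain ⟨u, hu, n, -, u', hu', q, hn⟩ := cen _ y _ nf nf' e
    have a1 : act u' (cp y) = cp y :=
      (fx _ (supp_cp y)).1 u' (P8.U_mono (fun r hr => hr.2) hu')
    have a2 : act u (cp (c • y)) = cp (c • y) :=
      (fx _ (supp_cp (c • y))).1 u (P8.U_mono (fun r hr => hr.2) hu)
    have a3 : act (g₀⁻¹ * ι m * g₀) (cp y) = c • cp y := by
      rw [q, act_mul, act_mul, a1, hn, a2, cp_smul]
    refine ⟨c, ?_⟩
    rw [← map_smul, ← a3, act_mul, act_mul, act_act_inv]
  have ne : ln _ w0 ≠ ⊤ := fun e => by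
    obtain ⟨m, hm⟩ := li _ w0
    obtain ⟨c, hc⟩ : m ∈ ln _ w0 := e ▸ Subgroup.mem_top m
    exact hm c hc
  have eq : H = ln _ w0 := by
    by_contra n
    exact ne (hH.2 _ (lt_of_le_of_ne le n))
  intro m
  rw [eq]
  rfl

theorem eqns : True := by
  have := @ln.eq_1; trivial

end Cfsg.Agent.H81.FvSemiB
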