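import Cfsg.Agent.H53.AhDefs
import Cfsg.Agent.H9.InvCount

/-!
Groups whose conjugacy classes have distinct sizes: the class equation and its numerical
consequences (pieces SUM, C2, NUM, C4a of project AH).
-/

set_option autoImplicit false

namespace Cfsg.Agent.H81.Ah

open Cfsg.Agent.H53.AH Subgroup Finset

universe u

/-! ### numerics -/

theorem geo2 (k : ℕ) : ∑ i ∈ range k, (1 : ℚ) / 2 ^ i < 2 := by
  have : ∑ i ∈ range k, (1 : ℚ) / 2 ^ i = 2 - 2 / 2 ^ k := by
    induction k with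
    | zero => simp
    | succ k ih => rw [sum_range_succ, ih]; field_simp; ring
  rw [this]
  have : (0 : ℚ) < 2 / 2 ^ k := by positivity
  linarith

theorem geo3 (k : ℕ) : ∑ i ∈ range k, (1 : ℚ) / 3 ^ i < 3 / 2 := by
  have : ∑ i ∈ range k, (1 : ℚ) / 3 ^ i = 3 / 2 - 3 / 2 / 3 ^ k := by
    induction k with
    | zero => simp
    | succ k ih => rw [sum_range_succ, ih]; field_simp; ring
  rw [this]
  have : (0 : ℚ) < 3 / 2 / 3 ^ k := by positivity
  linarith

theorem sum_le_of {ι : Type} [DecidableEq ι] (T : Finset ℕ) (s : Finset ι) (f : ι → ℕ)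
    (h : ∀ n ∈ T, ∃ i ∈ s, n = f i) : ∑ n ∈ T, (1 : ℚ) / n ≤ ∑ i ∈ s, (1 : ℚ) / f i :=
  (sum_le_sum_of_subset_of_nonneg (fun n hn => by
    obtain ⟨i, hi, rfl⟩ := h n hn
    exact mem_image_of_mem f hi) fun _ _ _ => by positivity).trans
    (sum_image_le_of_nonneg fun _ _ => by positivity)

theorem sum_geo (c r : ℕ) (T : Finset ℕ) (h : ∀ n ∈ T, ∃ i, n = c * r ^ i) :
    ∃ k, ∑ n ∈ T, (1 : ℚ) / n ≤ 1 / c * ∑ i ∈ range k, (1 : ℚ) / r ^ i := by
  choose! f hf using h
  refine ⟨T.sup f + 1, (sum_le_of T (range (T.sup f + 1)) (fun i => c * r ^ i) fun n hn =>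
    ⟨f n, mem_range.2 (Nat.lt_succ_of_le (le_sup hn)), hf n hn⟩).trans_eq ?_⟩
  rw [mul_sum]
  refine sum_congr rfl fun i _ => ?_
  push_cast
  rw [one_div_mul_one_div]

theorem sum_three (c : ℕ) (hc : 0 < c) (T : Finset ℕ) (h : ∀ n ∈ T, ∃ i, n = c * 3 ^ i) :
    ∑ n ∈ T, (1 : ℚ) / n < 3 / (2 * c) := by
  obtain ⟨k, hk⟩ := sum_geo c 3 T h
  have := mul_lt_mul_of_pos_left (geo3 k) (show (0 : ℚ) < 1 / c by positivity)
  refine (hk.trans_lt (by exact_mod_cast this)).trans_eq ?_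
  field_simp

theorem sum_two (c : ℕ) (hc : 0 < c) (T : Finset ℕ) (h : ∀ n ∈ T, ∃ i, n = c * 2 ^ i) :
    ∑ n ∈ T, (1 : ℚ) / n < 2 / c := by
  obtain ⟨k, hk⟩ := sum_geo c 2 T h
  have := mul_lt_mul_of_pos_left (geo2 k) (show (0 : ℚ) < 1 / c by positivity)
  refine (hk.trans_lt (by exact_mod_cast this)).trans_eq ?_
  field_simp

theorem sum_smooth (T : Finset ℕ) (h : ∀ n ∈ T, ∃ a b, n = 2 ^ a * 3 ^ b) :
    ∑ n ∈ T, (1 : ℚ) / n < 3 := by
  choose! f g hf using h
  obtain ⟨k, hk⟩ : ∃ k, ∀ n ∈ T, f n < k ∧ g n < k :=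
    ⟨T.sup f + T.sup g + 1, fun n hn => by
      have := le_sup (f := f) hn
      have := le_sup (f := g) hn
      omega⟩
  refine (sum_le_of T (range k ×ˢ range k) (fun i => 2 ^ i.1 * 3 ^ i.2) fun n hn =>
    ⟨(f n, g n), by simpa using hk n hn, hf n hn⟩).trans_lt ?_
  have e : ∑ i ∈ range k ×ˢ range k, (1 : ℚ) / ((2 ^ i.1 * 3 ^ i.2 : ℕ) : ℚ) =
      (∑ i ∈ range k, (1 : ℚ) / 2 ^ i) * ∑ i ∈ range k, (1 : ℚ) / 3 ^ i := by
    rw [sum_mul_sum, sum_product]
    refine sum_congr rfl fun i _ => sum_congr rfl fun j _ => ?_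
    push_cast
    rw [one_div_mul_one_div]
  rw [e]
  have h2 := geo2 k
  have h3 := geo3 k
  have h4 : (0 : ℚ) ≤ ∑ i ∈ range k, (1 : ℚ) / 2 ^ i := by positivity
  have h5 : (0 : ℚ) ≤ ∑ i ∈ range k, (1 : ℚ) / 3 ^ i := by positivity
  nlinarith

theorem T23.ex {n : ℕ} (h : T23 n) (h0 : n ≠ 0) : ∃ a b, n = 2 ^ a * 3 ^ b := by
  obtain ⟨a, m, hm, rfl⟩ := Nat.exists_eq_two_pow_mul_odd h0
  refine ⟨a, _, congrArg _ (Nat.eq_prime_pow_of_unique_prime_dvd hm.pos.ne' fun {d} hd e => ?_)⟩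
  refine (h d hd (e.mul_left _)).resolve_left ?_
  rintro rfl
  exact (Nat.not_even_iff_odd.2 hm) (even_iff_two_dvd.2 e)

theorem T23.dvd {n m : ℕ} (h : T23 n) (e : m ∣ n) : T23 m := fun q hq hd => h q hq (hd.trans e)

/-! ### centralizers -/

variable {G : Type u} [Group G] [Finite G]

omit [Finite G] in
theorem cc_dvd (x : G) : cc x ∣ Nat.card G := card_subgroup_dvd_card _

omit [Finite G] in
theorem cc_one : cc (1 : G) = Nat.card G := by
  have : centralizer ({1} : Set G) = ⊤ := by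
    rw [eq_top_iff]; intro g _; simp [mem_centralizer_singleton_iff]
  rw [cc, this, card_top]

omit [Finite G] in
theorem self_mem (x : G) : x ∈ centralizer ({x} : Set G) := mem_centralizer_singleton_iff.2 rfl

theorem ord_dvd (x : G) : orderOf x ∣ cc x := orderOf_dvd_natCard _ (self_mem x)

theorem cc_conj {x y : G} (h : IsConj x y) : cc x = cc y := by
  have h1 := H9.card_isConj_mul_card_centralizer x
  have h2 := H9.card_isConj_mul_card_centralizer y
  have e : Nat.card {z : G // IsConj x z} = Nat.card {z : G // IsConj y z} :=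
    Nat.card_congr (Equiv.subtypeEquivRight fun z => ⟨h.symm.trans, h.trans⟩)
  haveI : Nonempty {z : G // IsConj y z} := ⟨⟨y, IsConj.refl y⟩⟩
  rw [e, ← h2] at h1
  exact Nat.eq_of_mul_eq_mul_left Nat.card_pos h1

theorem eq_one (h : Ah G) {x : G} (e : cc x = Nat.card G) : x = 1 :=
  isConj_one_left.1 (h x 1 (e.trans cc_one.symm))

theorem cc_smooth (h : T23 (Nat.card G)) (x : G) : ∃ a b, cc x = 2 ^ a * 3 ^ b :=
  T23.ex (T23.dvd h (cc_dvd x)) Nat.card_pos.ne'

/-- an element with a centralizer of prime order -/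
theorem cent_eq (h : Ah G) {x : G} {p : ℕ} (hp : p.Prime) (e : cc x = p) :
    orderOf x = p ∧ centralizer {x} = zpowers x := by
  have h1 : x ≠ 1 := by
    rintro rfl
    rw [cc_one] at e
    haveI : Nontrivial G := Finite.one_lt_card_iff_nontrivial.1 (e ▸ hp.one_lt)
    obtain ⟨y, hy⟩ := exists_ne (1 : G)
    rcases (Nat.dvd_prime hp).1 (e ▸ cc_dvd y) with h2 | h2
    · exact hy (orderOf_eq_one_iff.1 (Nat.dvd_one.1 (h2 ▸ ord_dvd y)))
    · exact hy (eq_one h (h2.trans e.symm))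
  have h2 : orderOf x = p :=
    ((Nat.dvd_prime hp).1 (e ▸ ord_dvd x)).resolve_left (mt orderOf_eq_one_iff.1 h1)
  refine ⟨h2, (eq_of_le_of_card_ge (zpowers_le.2 (self_mem x)) ?_).symm⟩
  rw [Nat.card_zpowers, h2]
  exact e.le

theorem sum : SumStmt.{u} := by
  intro G _ _ h S hS
  classical
  haveI := Fintype.ofFinite G
  refine ⟨S.toFinset.image cc, fun n => by simp, ?_⟩
  rw [Nat.card_eq_card_toFinset, card_eq_sum_card_image cc, mul_sum, Nat.cast_sum]
  refine sum_congr rfl fun n hn => ?_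
  obtain ⟨x, hx, rfl⟩ := mem_image.1 hn
  have e : #{y ∈ S.toFinset | cc y = cc x} = Nat.card {y : G // IsConj x y} := by
    rw [Nat.subtype_card]
    intro y
    simp only [mem_filter, Set.mem_toFinset] at hx ⊢
    refine ⟨fun hy => h x y hy.2.symm, fun hy => ⟨?_, (cc_conj hy).symm⟩⟩
    obtain ⟨g, rfl⟩ := isConj_iff.1 hy
    exact hS x hx g
  have : (cc x : ℚ) ≠ 0 := Nat.cast_ne_zero.2 Nat.card_pos.ne'
  rw [e, ← H9.card_isConj_mul_card_centralizer x]
  push_cast
  field_simp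

theorem c4a : C4aStmt.{u} := by
  intro G _ _ h h23 h2 L hL hi hy
  classical
  obtain ⟨T, hT, e⟩ := sum G h (L : Set G)ᶜ fun x hx g hg =>
    hx (by simpa [mul_assoc] using hL.conj_mem _ hg g⁻¹)
  have e1 := L.index_mul_card
  have e2 : Nat.card L + Nat.card ((L : Set G)ᶜ : Set G) = Nat.card G := by
    rw [← Set.ncard_add_ncard_compl (L : Set G)]; rfl
  have h0 : (0 : ℚ) < Nat.card L := by exact_mod_cast Nat.card_pos
  have e3 : ∑ n ∈ T, (1 : ℚ) / n = 3 / 4 := by
    rw [hi] at e1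
    have e4 : Nat.card ((L : Set G)ᶜ : Set G) = 3 * Nat.card L := by omega
    rw [e4, ← e1] at e
    push_cast at e
    refine mul_left_cancel₀ h0.ne' ?_
    linarith
  have s1 := sum_three 4 (by norm_num) (T.filter fun n => ∃ i, n = 4 * 3 ^ i)
    fun n hn => (mem_filter.1 hn).2
  have s2 := sum_three 6 (by norm_num) (T.filter fun n => ¬ ∃ i, n = 4 * 3 ^ i) fun n hn => by
    obtain ⟨h1, h3⟩ := mem_filter.1 hn
    obtain ⟨x, hx, rfl⟩ := (hT n).1 h1
    obtain ⟨a, b, e⟩ := cc_smooth h23 x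
    have h4 := hy x hx
    have h5 := h2 x
    rw [e] at h3 h4 h5 ⊢
    rcases a with _ | _ | _ | a
    · exact absurd (Nat.Prime.dvd_of_dvd_pow Nat.prime_two (by simpa using h4.1)) (by norm_num)
    · rcases b with _ | b
      · simp at h5
      · exact ⟨b, by ring⟩
    · exact absurd ⟨b, by norm_num⟩ h3
    · exact absurd ⟨2 ^ a * 3 ^ b, by ring⟩ h4.2
  rw [← sum_filter_add_sum_filter_not T fun n => ∃ i, n = 4 * 3 ^ i] at e3
  push_cast at s1 s2
  linarith

theorem three (h : Ah G) {x : G} (e : cc x = 3) {y : G} (hy : 3 ∣ cc y) : y = 1 ∨ cc y = 3 := by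
  haveI : Fact (Nat.Prime 3) := ⟨Nat.prime_three⟩
  obtain ⟨h1, h2⟩ := cent_eq h Nat.prime_three e
  have gen : ∀ z ∈ zpowers x, z ≠ 1 → x ∈ zpowers z := fun z hz h0 => by
    have h3 : orderOf z = 3 := ((Nat.dvd_prime Nat.prime_three).1
      (h1 ▸ orderOf_dvd_of_mem_zpowers hz)).resolve_left (mt orderOf_eq_one_iff.1 h0)
    rw [eq_of_le_of_card_ge (zpowers_le.2 hz) (by simp [Nat.card_zpowers, h1, h3])]
    exact mem_zpowers x
  have com : ∀ z ∈ zpowers x, z ≠ 1 → ∀ g, Commute g z → g ∈ zpowers x := fun z hz h0 g hg => by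
    obtain ⟨k, hk⟩ := gen z hz h0
    rw [← h2, mem_centralizer_singleton_iff, ← hk]
    exact hg.zpow_right k
  have hx : IsPGroup 3 (zpowers x) := .of_card (n := 1) (by simp [Nat.card_zpowers, h1])
  obtain ⟨Q, hQ⟩ := hx.exists_le_sylow
  have x1 : x ≠ 1 := by rintro rfl; simp at h1
  haveI : Nontrivial Q := ⟨⟨⟨x, hQ (mem_zpowers x)⟩, 1, fun e => x1 (congrArg Subtype.val e)⟩⟩
  haveI := Q.isPGroup'.center_nontrivial
  obtain ⟨⟨z, hz⟩, z1⟩ := exists_ne (1 : center Q)
  have z0 : (z : G) ≠ 1 := fun e => z1 (Subtype.ext (Subtype.ext e))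
  have zc : ∀ g ∈ Q, Commute g z := fun g hg =>
    congrArg Subtype.val (mem_center_iff.1 hz ⟨g, hg⟩)
  have zx : (z : G) ∈ zpowers x := com x (mem_zpowers x) x1 _ (zc x (hQ (mem_zpowers x))).symm
  obtain ⟨⟨w, hw⟩, w3⟩ := exists_prime_orderOf_dvd_card' 3 hy
  rw [orderOf_mk] at w3
  have hw' : IsPGroup 3 (zpowers w) := .of_card (n := 1) (by simp [Nat.card_zpowers, w3])
  obtain ⟨R, hR⟩ := hw'.exists_le_sylow
  obtain ⟨g, rfl⟩ := MulAction.exists_smul_eq G R Q
  have h3 : g * w * g⁻¹ ∈ zpowers x := com z zx z0 _ (zc _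
    (smul_mem_pointwise_smul w (MulAut.conj g) R.1 (hR (mem_zpowers w))))
  have h4 : g * w * g⁻¹ ≠ 1 := fun e => by
    have : w = 1 := by simpa using e
    simp [this] at w3
  have h5 : g * y * g⁻¹ ∈ zpowers x := com _ h3 h4 _
    ((show Commute y w from (mem_centralizer_singleton_iff.1 hw).symm).map (MulAut.conj g))
  by_cases y1 : y = 1
  · exact .inl y1
  right
  have h6 : centralizer {g * y * g⁻¹} = zpowers x := by
    refine le_antisymm (fun a ha => com _ h5 (by simpa using y1) a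
      (mem_centralizer_singleton_iff.1 ha)) (zpowers_le.2 ?_)
    obtain ⟨k, hk⟩ := h5
    rw [mem_centralizer_singleton_iff, ← hk]
    exact (Commute.refl x).zpow_right k
  rw [cc_conj (isConj_iff.2 ⟨g, rfl⟩ : IsConj y (g * y * g⁻¹)), cc, h6, Nat.card_zpowers, h1]

theorem num : NumStmt.{u} := by
  intro G _ _ _ h h23
  classical
  by_contra hc
  simp only [not_or, not_exists] at hc
  obtain ⟨T, hT, e⟩ := sum G h Set.univ fun _ _ _ => trivial
  have h0 : (0 : ℚ) < Nat.card G := by exact_mod_cast Nat.card_pos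
  have e1 : ∑ n ∈ T, (1 : ℚ) / n = 1 := by
    rw [Nat.card_univ] at e
    exact mul_left_cancel₀ h0.ne' (by rw [← e, mul_one])
  have n1 : ∀ x : G, cc x ≠ 1 := fun x e => by
    have : x = 1 := orderOf_eq_one_iff.1 (Nat.dvd_one.1 (e ▸ ord_dvd x))
    rw [this, cc_one] at e
    exact Finite.one_lt_card.ne' e
  by_cases h3 : ∃ x : G, cc x = 3
  · obtain ⟨x, hx⟩ := h3
    have g3 : (3 : ℚ) ≤ Nat.card G := by exact_mod_cast Nat.le_of_dvd Nat.card_pos (hx ▸ cc_dvd x)
    have s1 := sum_two 8 (by norm_num) (T.filter fun n => ¬ 3 ∣ n) fun n hn => by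
      obtain ⟨h1, h3⟩ := mem_filter.1 hn
      obtain ⟨y, -, rfl⟩ := (hT n).1 h1
      obtain ⟨a, b, e⟩ := cc_smooth h23 y
      have h4 := n1 y
      have h5 := hc.1 y
      have h6 := hc.2 y
      rw [e] at h3 h4 h5 h6 ⊢
      rcases b with _ | b
      · rcases a with _ | _ | _ | a
        · simp at h4
        · simp at h5
        · simp at h6
        · exact ⟨a, by ring⟩
      · exact absurd ⟨2 ^ a * 3 ^ b, by ring⟩ h3
    have s2 := sum_le_of (T.filter fun n => 3 ∣ n) (univ : Finset Bool)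
      (fun b => if b then 3 else Nat.card G) fun n hn => by
        obtain ⟨h1, h3⟩ := mem_filter.1 hn
        obtain ⟨y, -, rfl⟩ := (hT n).1 h1
        rcases three h hx h3 with rfl | h4
        exacts [⟨false, mem_univ _, cc_one⟩, ⟨true, mem_univ _, h4⟩]
    rw [← sum_filter_add_sum_filter_not T fun n => 3 ∣ n] at e1
    simp only [Fintype.sum_bool, if_true, Bool.false_eq_true, if_false] at s2
    have := one_div_le_one_div_of_le (by norm_num) g3
    push_cast at s1 s2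
    linarith
  · have d : Disjoint T {1, 2, 3, 4} := disjoint_left.2 fun n hn h4 => by
      obtain ⟨y, -, rfl⟩ := (hT n).1 hn
      simp only [mem_insert, mem_singleton] at h4
      rcases h4 with h4 | h4 | h4 | h4
      exacts [n1 y h4, hc.1 y h4, h3 ⟨y, h4⟩, hc.2 y h4]
    have s1 := sum_smooth (T ∪ {1, 2, 3, 4}) fun n hn => by
      rcases mem_union.1 hn with h1 | h4
      · obtain ⟨y, -, rfl⟩ := (hT n).1 h1
        exact cc_smooth h23 y
      · simp only [mem_insert, mem_singleton] at h4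
        rcases h4 with rfl | rfl | rfl | rfl
        exacts [⟨0, 0, rfl⟩, ⟨1, 0, rfl⟩, ⟨0, 1, rfl⟩, ⟨2, 0, rfl⟩]
    rw [sum_union d, e1] at s1
    norm_num at s1

theorem c2 : C2Stmt.{u} := by
  intro G _ _ h x hx
  classical
  have inv : ∀ y : G, cc y = 2 → y ≠ 1 ∧ y * y = 1 ∧ ∀ g, Commute g y → g = 1 ∨ g = y := fun y hy => by
    obtain ⟨h1, h2⟩ := cent_eq h Nat.prime_two hy
    refine ⟨by rintro rfl; simp at h1, by rw [← pow_two, ← h1, pow_orderOf_eq_one], fun g hg => ?_⟩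
    have : g ∈ zpowers y := h2 ▸ mem_centralizer_singleton_iff.2 hg
    rw [mem_zpowers_iff_mem_range_orderOf, h1] at this
    obtain ⟨i, hi, rfl⟩ := mem_image.1 this
    rw [mem_range] at hi
    interval_cases i <;> simp
  let X : Set G := {y | cc y = 2}
  have X1 : (1 : G) ∉ X := fun e => (inv 1 e).1 rfl
  have cX : Nat.card X * 2 = Nat.card G := by
    rw [← hx, ← H9.card_isConj_mul_card_centralizer x]
    congr 1
    exact Nat.card_congr (Equiv.subtypeEquivRight fun y =>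
      ⟨fun hy => h x y (hx.trans (Eq.symm hy)), fun hy => (cc_conj hy).symm.trans hx⟩)
  have cA : Xᶜ.ncard = X.ncard := by
    have := Set.ncard_add_ncard_compl X
    rw [← cX] at this
    change _ = X.ncard * 2 at this
    omega
  have mul1 : ∀ y ∈ X, ∀ z ∈ X, y * z ∉ X := fun y hy z hz e => by
    have h1 := (inv y hy).2.1
    have h2 := (inv z hz).2.1
    have h3 := (inv _ e).2.1
    have : Commute z y := by
      calc z * y = y * y * (z * y) * (z * z) := by rw [h1, h2]; group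
        _ = y * (y * z * (y * z)) * z := by group
        _ = y * z := by rw [h3, mul_one]
    rcases (inv y hy).2.2 z this with rfl | rfl
    · exact X1 hz
    · exact X1 (h1 ▸ e)
  have mul2 : ∀ y ∈ X, ∀ a, a ∉ X → y * a ∈ X := fun y hy a ha => by
    have : (fun z => y * z) '' X = Xᶜ := Set.eq_of_subset_of_ncard_le
      (by rintro _ ⟨z, hz, rfl⟩; exact mul1 y hy z hz)
      (by rw [cA, Set.ncard_image_of_injective _ (mul_right_injective y)])
    obtain ⟨z, hz, rfl⟩ : a ∈ (fun z => y * z) '' X := this ▸ ha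
    rwa [← mul_assoc, (inv y hy).2.1, one_mul]
  have mul3 : ∀ a, a ∉ X → ∀ b, b ∉ X → a * b ∉ X := fun a ha b hb e =>
    mul1 x hx _ e (mul_assoc x a b ▸ mul2 _ (mul2 x hx a ha) b hb)
  have iv : ∀ y ∈ X, ∀ a, a ∉ X → y * a * y⁻¹ = a⁻¹ := fun y hy a ha => by
    rw [inv_eq_of_mul_eq_one_right (inv y hy).2.1, eq_inv_iff_mul_eq_one, mul_assoc]
    exact (inv _ (mul2 y hy a ha)).2.1
  have com : ∀ a, a ∉ X → ∀ b, b ∉ X → Commute a b := fun a ha b hb => by
    have h3 := iv x hx _ (mul3 a ha b hb)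
    rw [show x * (a * b) * x⁻¹ = x * a * x⁻¹ * (x * b * x⁻¹) by group, iv x hx a ha, iv x hx b hb,
      ← mul_inv_rev, inv_inj] at h3
    exact h3.symm
  have ca : ∀ a, a ∉ X → a ≠ 1 → cc a = Xᶜ.ncard := fun a ha h1 => by
    have : (centralizer {a} : Set G) = Xᶜ := Set.ext fun g => ⟨fun hg hX => by
      rcases (inv g hX).2.2 a (mem_centralizer_singleton_iff.1 hg).symm with rfl | rfl
      exacts [h1 rfl, ha hX], fun hg => mem_centralizer_singleton_iff.2 (com g hg a ha)⟩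
    rw [← this]; rfl
  obtain ⟨a, ha, a1⟩ : ∃ a, a ∉ X ∧ a ≠ 1 := by
    by_contra hc
    have : Xᶜ = {1} := Set.ext fun g => ⟨fun hg => by_contra fun e => hc ⟨g, hg, e⟩,
      by rintro rfl; exact X1⟩
    rw [this, Set.ncard_singleton] at cA
    change X.ncard * 2 = _ at cX
    exact (inv x hx).1 (eq_one h (by omega))
  have ax : ¬ Commute a x := fun e => by
    rcases (inv x hx).2.2 a e with rfl | rfl
    exacts [a1 rfl, ha hx]
  have ai : a⁻¹ ∉ X := fun e => ha (by
    have : a = a⁻¹ := eq_inv_of_mul_eq_one_left (by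
      simpa [mul_inv_eq_iff_eq_mul, inv_eq_iff_mul_eq_one] using (inv _ e).2.1)
    rwa [this])
  have eA : Xᶜ = {1, a, a⁻¹} := by
    refine Set.ext fun b => ⟨fun hb => ?_, ?_⟩
    · by_cases b1 : b = 1
      · exact .inl b1
      obtain ⟨g, rfl⟩ := isConj_iff.1 (h a b ((ca a ha a1).trans (ca b hb b1).symm))
      by_cases hg : g ∈ X
      · exact .inr (.inr (iv g hg a ha))
      · exact .inr (.inl (by rw [(com g hg a ha).eq, mul_inv_cancel_right]))
    · rintro (rfl | rfl | rfl)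
      exacts [X1, ha, ai]
  have c6 : Nat.card G = 6 := by
    have h2 : a ≠ a⁻¹ := fun e => ax (by
      have := iv x hx a ha
      rw [← e, mul_inv_eq_iff_eq_mul] at this
      exact this.symm)
    rw [eA, Set.ncard_eq_three.2 ⟨1, a, a⁻¹, a1.symm, (inv_ne_one.2 a1).symm, h2, rfl⟩] at cA
    change X.ncard * 2 = _ at cX
    omega
  obtain ⟨o2, hC⟩ := cent_eq h Nat.prime_two hx
  have hi : Nat.card (G ⧸ zpowers x) = 3 := by
    have := (zpowers x).index_mul_card
    rw [Nat.card_zpowers, o2, c6] at this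
    change (zpowers x).index = 3
    omega
  have hm : ∀ g ∈ zpowers x, g = 1 ∨ g = x := fun g hg =>
    (inv x hx).2.2 g (mem_centralizer_singleton_iff.1 (hC ▸ hg))
  have hcore : (zpowers x).normalCore = ⊥ := by
    rw [eq_bot_iff]
    intro u hu
    rcases hm u (normalCore_le _ hu) with rfl | rfl
    · exact one_mem _
    rcases hm _ (hu a) with e | e
    · exact absurd (by simpa using e) (inv u hx).1
    · exact absurd (mul_inv_eq_iff_eq_mul.1 e) ax
  have hinj : Function.Injective (MulAction.toPermHom G (G ⧸ zpowers x)) := by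
    rw [← MonoidHom.ker_eq_bot_iff, ← normalCore_eq_ker, hcore]
  have hbij : Function.Bijective (MulAction.toPermHom G (G ⧸ zpowers x)) := by
    refine (Nat.bijective_iff_injective_and_card _).mpr ⟨hinj, ?_⟩
    rw [Nat.card_perm, hi, c6]; rfl
  exact ⟨(MulEquiv.ofBijective _ hbij).trans (Finite.equivFinOfCardEq hi).permCongrHom⟩

end Cfsg.Agent.H81.Ah
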