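import Mathlib
import Cfsg.Agent.H81.AutSylow
import Cfsg.Agent.H4.Coprime

/-! Ambient forms of Glauberman's automorphism theorem. -/

set_option autoImplicit false

namespace Cfsg.Agent.H81

open Subgroup Cfsg.Agent.H85
open scoped commutatorElement

variable {G : Type*} [Group G]

/-- `K ⊴ G`, `O(K) = 1`, the 2-group `C` centralizes a Sylow 2-subgroup of `K`: then `[C,C]`
centralizes `K`. -/
theorem commutator_le_centralizer_of_pgroup [Finite G] {K S C : Subgroup G} [K.Normal]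
    (hO : pPrimeCore 2 K = ⊥) (hS : IsSyl 2 S K) (hC : C ≤ centralizer (S : Set G))
    (hCp : IsPGroup 2 C) : ⁅C, C⁆ ≤ centralizer (K : Set G) := by
  haveI : Fact (Nat.Prime 2) := ⟨Nat.prime_two⟩
  let f : G →* MulAut K := MulAut.conjNormal
  have hodd := odd_card_commutator_of_fix_sylow hO hS.toSylow (C.map f) (by
    rintro _ ⟨c, hc, rfl⟩ s hs
    rw [IsSyl.coe_toSylow, mem_subgroupOf] at hs
    refine Subtype.ext ?_
    show c * s * c⁻¹ = s
    rw [← hC hc s hs, mul_inv_cancel_right])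
  have hp : IsPGroup 2 (commutator (C.map f)) := (hCp.map f).to_subgroup _
  obtain ⟨k, hk⟩ := hp.exists_card_eq
  have hbot : commutator (C.map f) = ⊥ := by
    rcases k with _ | k
    · exact card_eq_one.mp hk
    · exact absurd (hk ▸ dvd_pow_self 2 (Nat.succ_ne_zero k)) hodd
  rw [commutator_le]
  intro a ha b hb k hk
  have h1 : ⁅(⟨f a, mem_map_of_mem f ha⟩ : C.map f), ⟨f b, mem_map_of_mem f hb⟩⁆ ∈ commutator (C.map f) :=
    commutator_mem_commutator (mem_top _) (mem_top _)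
  rw [hbot, mem_bot] at h1
  have h2 : f ⁅a, b⁆ = 1 := by
    rw [map_commutatorElement]; exact congrArg Subtype.val h1
  have h3 : ((f ⁅a, b⁆ ⟨k, hk⟩ : K) : G) = k := by rw [h2]; rfl
  have h4 : ⁅a, b⁆ * k * ⁅a, b⁆⁻¹ = k := h3
  rw [mul_inv_eq_iff_eq_mul] at h4
  exact h4.symm

/-- The image of `N` modulo `O_{p'}(N)` has trivial `p'`-core. -/
theorem pPrimeCore_map_eq_bot [Finite G] {p : ℕ} {G' : Type*} [Group G'] (f : G →* G') {N : Subgroup G}
    (hker : (Nat.card (f.ker ⊓ N : Subgroup G)).Coprime p)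
    (hle : (pPrimeCore p N).map N.subtype ≤ f.ker) : pPrimeCore p (N.map f) = ⊥ := by
  have h1 : (f.subgroupMap N).ker = (f.ker ⊓ N).subgroupOf N := by
    ext x
    rw [MonoidHom.mem_ker, mem_subgroupOf, Subtype.ext_iff]
    exact ⟨fun h => ⟨h, x.2⟩, fun h => h.1⟩
  rw [← H3.map_pPrimeCore_eq (f.subgroupMap_surjective N) (by
    rw [h1, H4.card_subgroupOf_of_le inf_le_right]; exact hker), Subgroup.map_eq_bot_iff, h1]
  intro x hx
  exact ⟨hle (mem_map_of_mem _ hx), x.2⟩

end Cfsg.Agent.H81
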