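import Cfsg.Agent.H9.C3Defs
import Cfsg.Agent.H9.BaerSuzuki
import Cfsg.Agent.H3.Primitive

/-!
No involution of `N(T) / T` induces a transvection on the elementary abelian group `T` of order 16.
-/

set_option autoImplicit false

namespace Cfsg.Agent.H81.C3Free

open Subgroup Cfsg.Agent.H62 Cfsg.Agent.H9.C3

universe u

variable {G : Type u} [Group G] [Finite G]

/-- an element of odd prime order inverted modulo `T` -/
theorem exists_inverted {T : Subgroup G} (h : TDat T) {t : G} (ht : t ∈ Nm T) (htT : t ∉ T)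
    (ht2 : t * t ∈ T) : ∃ y ∈ Nm T, (orderOf y).Prime ∧ orderOf y ≠ 2 ∧ t * y * t⁻¹ * y ∈ T := by
  let N := Nm T
  let K : Subgroup N := T.subgroupOf N
  have hK : K.Normal := normal_in_normalizer
  let φ : N →* N ⧸ K := QuotientGroup.mk' K
  have one : ∀ x : N, φ x = 1 ↔ (x : G) ∈ T := fun x => by
    rw [QuotientGroup.mk'_apply, QuotientGroup.eq_one_iff]; rfl
  have hO : φ ⟨t, ht⟩ ∉ Cfsg.pCore 2 (N ⧸ K) := by
    intro hm
    let R : Subgroup G := ((Cfsg.pCore 2 (N ⧸ K)).comap φ).map N.subtype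
    have hn : ((Cfsg.pCore 2 (N ⧸ K)).comap φ).Normal := inferInstance
    have hR : R ≤ T := by
      refine h.max R (fun a ha => ⟨⟨a, le_normalizer ha⟩, ?_, rfl⟩) (map_subtype_le _) ?_ ?_
      · change φ _ ∈ Cfsg.pCore 2 (N ⧸ K)
        rw [(one _).2 ha]
        exact one_mem _
      · refine IsPGroup.map ?_ _
        refine (H3.pCore_isPGroup 2 (N ⧸ K)).comap_of_ker_isPGroup φ ?_
        rw [QuotientGroup.ker_mk']
        exact h.ea.isPGroup.of_equiv (subgroupOfEquivOfLe le_normalizer).symm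
      · intro n hn'
        refine mem_normalizer_fintype (S := (R : Set G)) ?_
        rintro _ ⟨r, hr, rfl⟩
        exact ⟨_, hn.conj_mem r hr ⟨n, hn'⟩, rfl⟩
    exact htT (hR ⟨_, hm, rfl⟩)
  obtain ⟨a, ha1, hao, hai⟩ := H9.exists_odd_inverted_of_not_mem_pCore
    (t := φ ⟨t, ht⟩) (by rw [← map_mul]; exact (one _).2 ht2) hO
  obtain ⟨y, rfl⟩ := QuotientGroup.mk'_surjective K a
  obtain ⟨n, hn⟩ := H9.exists_pow_two_pow_odd y
  have h1 : y ^ 2 ^ n ≠ 1 := by
    intro e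
    have h2 : orderOf (φ y) ∣ 2 ^ n := orderOf_dvd_of_pow_eq_one (by rw [← map_pow, e, map_one])
    exact ha1 (orderOf_eq_one_iff.1 (Nat.Coprime.eq_one_of_dvd
      ((Nat.coprime_two_right.2 hao).pow_right n) h2))
  obtain ⟨p, hp, hd⟩ := Nat.exists_prime_and_dvd (mt orderOf_eq_one_iff.1 h1)
  have ho : orderOf ((y ^ 2 ^ n) ^ (orderOf (y ^ 2 ^ n) / p)) = p :=
    orderOf_pow_orderOf_div (orderOf_pos _).ne' hd
  rw [← pow_mul] at ho
  set m := 2 ^ n * (orderOf (y ^ 2 ^ n) / p)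
  refine ⟨(y ^ m : N), (y ^ m).2, ?_, ?_, ?_⟩
  · rw [orderOf_coe, ho]; exact hp
  · rw [orderOf_coe, ho]
    rintro rfl
    exact (Nat.not_even_iff_odd.2 hn) (even_iff_two_dvd.2 hd)
  · have : φ (⟨t, ht⟩ * y ^ m * ⟨t, ht⟩⁻¹ * y ^ m) = 1 := by
      rw [map_mul, map_mul, map_mul, map_inv, map_pow, ← conj_pow]
      change (φ ⟨t, ht⟩ * φ y * (φ ⟨t, ht⟩)⁻¹) ^ m * φ y ^ m = 1
      rw [hai, inv_pow, inv_mul_cancel]
    exact (one _).1 this

theorem free : FreeStmt.{u} := by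
  intro G _ _ k T h
  refine ⟨h.ea, h.card, h.cen, fun t ht htT ht2 => ?_⟩
  by_contra hc
  have h8 : 8 ≤ Nat.card (T ⊓ C1 t : Subgroup G) := by
    have hd : Nat.card (T ⊓ C1 t : Subgroup G) ∣ 16 := h.card ▸ card_dvd_of_le inf_le_left
    have hl := Nat.le_of_dvd (by norm_num) hd
    generalize Nat.card (T ⊓ C1 t : Subgroup G) = c at hd hl hc
    interval_cases c <;> omega
  obtain ⟨y, hy, hp, hp2, hτ⟩ := exists_inverted h ht htT ht2
  have nT : ∀ g ∈ Nm T, ∀ a ∈ T, g * a * g⁻¹ ∈ T := fun g hg a ha =>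
    (mem_normalizer_iff.1 hg a).1 ha
  have hodd : Odd (orderOf y) := hp.odd_of_ne_two hp2
  have hyT : y ∉ T := fun hm => hp2 ((Nat.prime_dvd_prime_iff_eq hp Nat.prime_two).1
    (orderOf_dvd_of_pow_eq_one (by rw [pow_two]; exact h.ea y hm)))
  have h8' : 8 ≤ Nat.card (T ⊓ C1 (y * t * y⁻¹) : Subgroup G) := by
    refine h8.trans (Nat.card_le_card_of_injective
      (fun a => ⟨y * a * y⁻¹, nT y hy a a.2.1, mem_centralizer_singleton_iff.2 ?_⟩) ?_)
    · have := mem_centralizer_singleton_iff.1 a.2.2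
      calc y * a * y⁻¹ * (y * t * y⁻¹) = y * (a * t) * y⁻¹ := by group
        _ = y * (t * a) * y⁻¹ := by rw [this]
        _ = _ := by group
    · intro a b e
      have := congrArg Subtype.val e
      exact Subtype.ext (mul_left_cancel (mul_right_cancel this))
  set D : Subgroup G := (T ⊓ C1 t) ⊓ (T ⊓ C1 (y * t * y⁻¹)) with hD
  have hD4 : 4 ≤ Nat.card D := by
    have := card_mul_card_le (H := T ⊓ C1 t) (K := T ⊓ C1 (y * t * y⁻¹)) (L := T) inf_le_left
      inf_le_left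
    rw [h.card, ← hD] at this
    have h64 := Nat.mul_le_mul h8 h8'
    omega
  have hDy : ∀ d ∈ D, d * y = y * d := by
    intro d hd
    have c1 : Commute d t := mem_centralizer_singleton_iff.1 hd.1.2
    have c2 : Commute d (y * t * y⁻¹) := mem_centralizer_singleton_iff.1 hd.2.2
    have c3 : Commute d (t * y * t⁻¹ * y) := h.ea.comm hd.1.1 hτ
    have c4 := (c2.mul_right c1.inv_right).mul_right c3
    have e : y * t * y⁻¹ * t⁻¹ * (t * y * t⁻¹ * y) = y * y := by group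
    rw [e, ← pow_two] at c4
    obtain ⟨m, hm⟩ := hodd
    have e2 : (y ^ 2) ^ (m + 1) = y := by
      rw [← pow_mul, show 2 * (m + 1) = orderOf y + 1 by omega, pow_succ, pow_orderOf_eq_one,
        one_mul]
    have c5 := c4.pow_right (m + 1)
    rwa [e2] at c5
  have h3 : orderOf y = 3 := by
    have : Fact (orderOf y).Prime := ⟨hp⟩
    have hm := H3.card_modEq_card_inf_centralizer (q := orderOf y) (Q := zpowers y) (L := T)
      (IsPGroup.of_card (n := 1) (by rw [Nat.card_zpowers, pow_one])) ((zpowers_le).2 hy)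
    set E : Subgroup G := T ⊓ centralizer (zpowers y : Set G) with hE
    have hDE : D ≤ E := fun d hd => ⟨hd.1.1, by
      rintro _ ⟨n, rfl⟩
      exact ((show Commute d y from hDy d hd).zpow_right n).symm⟩
    have h4 : 4 ≤ Nat.card E := hD4.trans (card_le_of_le hDE)
    have hd : Nat.card E ∣ 16 := h.card ▸ card_dvd_of_le inf_le_left
    have hne : Nat.card E ≠ 16 := fun e => by
      have hET : E = T := eq_of_le_of_card_ge inf_le_left (by rw [e, h.card])
      refine hyT (h.cen fun a ha => ?_)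
      exact ((hET.ge ha).2 y (mem_zpowers y)).symm
    have hl := Nat.le_of_dvd (by norm_num) hd
    rw [h.card] at hm
    have hdv := (Nat.modEq_iff_dvd' hl).1 hm.symm
    have h48 : Nat.card E = 4 ∨ Nat.card E = 8 := by
      generalize Nat.card E = c at hd hl hne h4
      interval_cases c <;> omega
    rcases h48 with e | e <;> rw [e] at hdv
    · have : orderOf y ∣ 2 ^ 2 * 3 := hdv
      rcases (Nat.Prime.dvd_mul hp).1 this with h1 | h1
      · exact absurd ((Nat.prime_dvd_prime_iff_eq hp Nat.prime_two).1 (hp.dvd_of_dvd_pow h1)) hp2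
      · exact (Nat.prime_dvd_prime_iff_eq hp Nat.prime_three).1 h1
    · have : orderOf y ∣ 2 ^ 3 := hdv
      exact absurd ((Nat.prime_dvd_prime_iff_eq hp Nat.prime_two).1 (hp.dvd_of_dvd_pow this)) hp2
  have hDV : D ≤ VV y := fun d hd => (k.mem y h3 d).2 ⟨h.ea d hd.1.1, hDy d hd⟩
  have hV : Nat.card (VV y) = 4 := by
    rcases k.card y h3 with e | e
    · have := hD4.trans (card_le_of_le hDV)
      rw [e, card_bot] at this
      omega
    · exact e
  have hDV' : D = VV y := eq_of_le_of_card_ge hDV (by rw [hV]; exact hD4)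
  have hy3 : y * y * y = 1 := by rw [← pow_three', ← h3, pow_orderOf_eq_one]
  obtain ⟨τ, hτe⟩ : ∃ τ, τ = t * y * t⁻¹ * y := ⟨_, rfl⟩
  rw [← hτe] at hτ
  have hty : t * y * t⁻¹ = τ * y⁻¹ := by rw [hτe, mul_inv_cancel_right]
  have hτ3 : τ * y⁻¹ * (τ * y⁻¹) * (τ * y⁻¹) = 1 := by
    rw [← hty]
    calc _ = t * (y * y * y) * t⁻¹ := by group
      _ = 1 := by rw [hy3]; group
  have hτi : τ⁻¹ = τ := h.ea.inv hτ
  have hτ3' : τ * y * τ * y * τ * y = 1 := by
    have h1 : y * τ⁻¹ * (y * τ⁻¹) * (y * τ⁻¹) = 1 := by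
      rw [← inv_eq_one, ← hτ3]; group
    rw [hτi] at h1
    calc _ = y⁻¹ * (y * τ * (y * τ) * (y * τ)) * y := by group
      _ = 1 := by rw [h1]; group
  have hw : y⁻¹ * τ * y ∈ T := by simpa using nT _ (inv_mem hy) τ hτ
  have hinv : y⁻¹ * τ * y * t * y * (y⁻¹ * τ * y * t)⁻¹ = y⁻¹ := by
    have hyy : y⁻¹ * y⁻¹ = y := by
      rw [← mul_inv_rev, inv_eq_iff_mul_eq_one, hy3]
    calc _ = y⁻¹ * τ * y * (t * y * t⁻¹) * y⁻¹ * τ⁻¹ * y := by group
      _ = y⁻¹ * τ * y * τ * (y⁻¹ * y⁻¹) * τ * y := by rw [hty, hτi]; group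
      _ = y⁻¹ * (τ * y * τ * y * τ * y) := by rw [hyy]; group
      _ = y⁻¹ := by rw [hτ3', mul_one]
  obtain ⟨v, hv, hne⟩ := k.inv y _ h3 hinv (fun e => by rw [e, card_bot] at hV; omega)
  rw [← hDV'] at hv
  have c1 : Commute v t := mem_centralizer_singleton_iff.1 hv.1.2
  have c2 : Commute v (y⁻¹ * τ * y) := h.ea.comm hv.1.1 hw
  exact hne (c2.mul_right c1).symm

end Cfsg.Agent.H81.C3Free
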