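import Cfsg.Agent.H99.E72Defs

/-! Project E72, piece COUNT: a small maximal subgroup stabilises no subspace of dimension two. -/

set_option autoImplicit false

namespace Cfsg.Agent.H81.E72Count

open Cfsg.Agent.H99.E72 Module Subgroup

variable {Γ : Type} [Group Γ]

/-- the stabiliser of a subspace -/
def stab [Finite Γ] (ρ : Γ →* EV) (U : Submodule (ZMod 2) V) : Subgroup Γ where
  carrier := {g | ∀ u ∈ U, ρ g u ∈ U}
  one_mem' := fun u hu => by rw [map_one]; exact hu
  mul_mem' := fun {a b} ha hb u hu => by rw [map_mul]; exact ha _ (hb u hu)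
  inv_mem' := fun {a} ha => by
    have k : ∀ n : ℕ, ∀ u ∈ U, ρ (a ^ n) u ∈ U := fun n => by
      induction n with
      | zero => intro u hu; rw [pow_zero, map_one]; exact hu
      | succ n ih => intro u hu; rw [pow_succ, map_mul]; exact ih _ (ha u hu)
    have e : a⁻¹ = a ^ (orderOf a - 1) := by
      refine inv_eq_of_mul_eq_one_left ?_
      rw [← pow_succ, Nat.sub_add_cancel (orderOf_pos a), pow_orderOf_eq_one]
    rw [e]
    exact k _

/-- the action on pairs of vectors -/
@[reducible] def act (ρ : Γ →* EV) : MulAction Γ (V × V) where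
  smul g p := (ρ g p.1, ρ g p.2)
  one_smul p := by
    show (ρ 1 p.1, ρ 1 p.2) = p
    rw [map_one]; rfl
  mul_smul a b p := by
    show (ρ (a * b) p.1, ρ (a * b) p.2) = (ρ a (ρ b p.1), ρ a (ρ b p.2))
    rw [map_mul]; rfl

theorem card_VV : Nat.card (V × V) = 2 ^ 112 := by
  rw [Nat.card_prod, Nat.card_fun, Nat.card_zmod, Nat.card_fin, ← pow_add]

theorem count : CountStmt := by
  intro Γ _ _ ρ irr H hH hc v₁ v₂ h1 hU
  set U := Submodule.span (ZMod 2) {v₁, v₂} with hUd
  have m1 : v₁ ∈ U := Submodule.subset_span (Or.inl rfl)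
  have m2 : v₂ ∈ U := Submodule.subset_span (Or.inr rfl)
  have le : H ≤ stab ρ U := fun g hg => hU g hg
  have ne : stab ρ U ≠ ⊤ := fun e => by
    rcases irr U (fun g => show g ∈ stab ρ U from e ▸ mem_top g) with k | k
    · rw [k] at m1
      exact h1 m1
    · classical
      have a : finrank (ZMod 2) U ≤ 2 := by
        have := finrank_span_finset_le_card (R := ZMod 2) ({v₁, v₂} : Finset V)
        rw [Set.finrank, Finset.coe_insert, Finset.coe_singleton] at this
        exact this.trans Finset.card_le_two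
      rw [k, finrank_top, Module.finrank_fin_fun] at a
      omega
  have eq : H = stab ρ U := by
    by_contra n
    exact ne (hH.2 _ (lt_of_le_of_ne le n))
  letI := act ρ
  have kl : MulAction.stabilizer Γ ((v₁, v₂) : V × V) ≤ H := fun g hg => by
    rw [eq]
    have e : (ρ g v₁, ρ g v₂) = (v₁, v₂) := hg
    intro u hu
    obtain ⟨a, b, rfl⟩ := Submodule.mem_span_pair.1 hu
    rw [map_add, map_smul, map_smul, (Prod.mk.inj e).1, (Prod.mk.inj e).2]
    exact hu
  have i1 : (MulAction.stabilizer Γ ((v₁, v₂) : V × V)).index ≤ 2 ^ 112 := by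
    rw [MulAction.index_stabilizer, ← card_VV]
    exact Set.ncard_le_card _
  have i2 : H.index ≤ 2 ^ 112 :=
    (Nat.le_of_dvd (Nat.pos_of_ne_zero index_ne_zero_of_finite) (index_dvd_of_le kl)).trans i1
  rw [← H.card_mul_index] at hc
  exact absurd (Nat.mul_le_mul_left _ i2) (not_le.2 hc)

theorem eqns : True := by
  have := @stab.eq_1; have := @act.eq_1; trivial

end Cfsg.Agent.H81.E72Count
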