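import Cfsg.Agent.H50.E72Defs

/-! Project E72, pieces SUM27 and END27: fixed vectors of `L₂(27)`. -/

set_option autoImplicit false

namespace Cfsg.Agent.H81.E72Sum

open Cfsg.Agent.H50.E72 Module Multiplicative
open scoped Matrix

universe u

section Gen

variable {Γ : Type u} [Group Γ] {x : Multiplicative E3 →* Γ} {y t : Γ}

theorem swap (h : C27 x y t) (k : ℕ) : ∀ e, ∃ e', y ^ k * x e = x e' * y ^ k := by
  induction k with
  | zero => exact fun e => ⟨e, by rw [pow_zero, one_mul, mul_one]⟩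
  | succ k ih =>
    intro e
    obtain ⟨e', he⟩ := ih (ofAdd (m27 (toAdd e)))
    refine ⟨e', ?_⟩
    have := h.yx (toAdd e)
    rw [ofAdd_toAdd] at this
    rw [pow_succ, mul_assoc, ← mul_assoc (x e'), ← he, ← this]
    group

/-- the Borel subgroup -/
def B (h : C27 x y t) : Subgroup Γ where
  carrier := {g | ∃ e, ∃ k : ℕ, g = x e * y ^ k}
  one_mem' := ⟨1, 0, by rw [map_one, pow_zero, mul_one]⟩
  mul_mem' := by
    rintro _ _ ⟨e, k, rfl⟩ ⟨e', k', rfl⟩
    obtain ⟨f, hf⟩ := swap h k e'
    exact ⟨e * f, k + k', by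
      rw [map_mul, pow_add, mul_assoc (x e), ← mul_assoc (y ^ k), hf]; simp only [mul_assoc]⟩
  inv_mem' := by
    rintro _ ⟨e, k, rfl⟩
    obtain ⟨f, hf⟩ := swap h (12 * k) e⁻¹
    refine ⟨f, 12 * k, ?_⟩
    rw [← hf, mul_inv_rev, map_inv]
    congr 1
    refine inv_eq_of_mul_eq_one_right ?_
    rw [← pow_add, show k + 12 * k = 13 * k by ring, pow_mul, h.y13, one_pow]

theorem x_mem (h : C27 x y t) (e : Multiplicative E3) : x e ∈ B h :=
  ⟨e, 0, by rw [pow_zero, mul_one]⟩

theorem t_nmem (h : C27 x y t) : t ∉ B h := fun ⟨e, k, a⟩ => h.nt e k a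

/-- coset representatives -/
def rep (x : Multiplicative E3 →* Γ) (t : Γ) : Option (Multiplicative E3) → Γ
  | none => 1
  | some e => x e * t

theorem exists_rep (h : C27 x y t) (g : Γ) : ∃ i, ∃ b ∈ B h, g = rep x t i * b := by
  rcases h.bru g with ⟨e, k, a⟩ | ⟨e, e', k, a⟩
  · exact ⟨none, g, ⟨e, k, a⟩, (one_mul g).symm⟩
  · exact ⟨some e, _, ⟨e', k, rfl⟩, by rw [a, mul_assoc]; rfl⟩

theorem rep_inj (h : C27 x y t) {i j : Option (Multiplicative E3)} {b : Γ} (hb : b ∈ B h)
    (e : rep x t i = rep x t j * b) : i = j := by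
  rcases i with _ | i <;> rcases j with _ | j
  · rfl
  · refine absurd ?_ (t_nmem h)
    have e' : 1 = x j * t * b := e
    have := mul_mem (mul_mem (inv_mem (x_mem h j)) (one_mem _)) (inv_mem hb)
    rwa [e', show (x j)⁻¹ * (x j * t * b) * b⁻¹ = t by group] at this
  · refine absurd ?_ (t_nmem h)
    have e' : x i * t = 1 * b := e
    have := mul_mem (inv_mem (x_mem h i)) hb
    rwa [← one_mul b, ← e', inv_mul_cancel_left] at this
  · obtain ⟨f, k, rfl⟩ := hb
    exact congrArg some (h.uni i j f k (by rw [mul_assoc _ (x f)]; exact e))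

variable {V : Type} [AddCommGroup V] [Module K V]

theorem fix_B (h : C27 x y t) (ρ : Γ →* Module.End K V) {v : V} (h1 : ∀ e, ρ (x e) v = v)
    (h2 : ρ y v = v) {b : Γ} (hb : b ∈ B h) : ρ b v = v := by
  obtain ⟨e, k, rfl⟩ := hb
  have : ρ (y ^ k) v = v := by
    induction k with
    | zero => rw [pow_zero, map_one]; rfl
    | succ k ih => rw [pow_succ, map_mul, Module.End.mul_apply, h2, ih]
  rw [map_mul, Module.End.mul_apply, this, h1]

theorem sum_fix (h : C27 x y t) (ρ : Γ →* Module.End K V) {v : V} (h1 : ∀ e, ρ (x e) v = v)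
    (h2 : ρ y v = v) (g : Γ) : ρ g (∑ i, ρ (rep x t i) v) = ∑ i, ρ (rep x t i) v := by
  choose σ b hb e using fun i => exists_rep h (g * rep x t i)
  have inj : Function.Injective σ := fun i j a => rep_inj h (mul_mem (inv_mem (hb j)) (hb i)) (by
    calc rep x t i = g⁻¹ * (g * rep x t i) := by group
      _ = g⁻¹ * (rep x t (σ j) * b j) * ((b j)⁻¹ * b i) := by rw [e i, a]; group
      _ = _ := by rw [← e j]; group)
  rw [map_sum, ← Equiv.sum_comp (Equiv.ofBijective σ (Finite.injective_iff_bijective.1 inj))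
    fun i => ρ (rep x t i) v]
  refine Finset.sum_congr rfl fun i _ => ?_
  rw [← Module.End.mul_apply, ← map_mul, e i, map_mul, Module.End.mul_apply, fix_B h ρ h1 h2 (hb i)]
  rfl

end Gen

theorem mem_U {π : G0 →* M56 (ZMod 2)} {Γ : Type u} [Group Γ] {φ : Γ →* G0}
    {x : Multiplicative E3 →* Γ} {v : Fin 56 → K} (hv : v ∈ Fix π (Set.range (φ.comp x))) (e) :
    ((act π).comp φ) (x e) v = v := (mem_Fix π).1 hv _ ⟨e, rfl⟩

theorem sum27 : Sum27Stmt.{u} := by
  intro π Γ _ φ x y t h hy nf v hv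
  have k := sum_fix h ((act π).comp φ) (mem_U hv) (hy v hv)
  have z : ∑ i, ((act π).comp φ) (rep x t i) v = 0 := by
    by_contra n
    exact nf ⟨_, n, by rintro _ ⟨g, rfl⟩; exact k g⟩
  rw [Fintype.sum_option] at z
  have z' : ((act π).comp φ) 1 v + ∑ e, act π (φ (x e * t)) v = 0 := z
  rw [map_one, Module.End.one_apply] at z'
  rw [eq_neg_of_add_eq_zero_right z']
  exact funext fun a => CharTwo.neg_eq (v a)

/-- the invariant form -/
noncomputable def be (u w : Fin 56 → K) : K := u ⬝ᵥ (J56 K *ᵥ w)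

theorem be_inv {π : G0 →* M56 (ZMod 2)} (hπ : Good π) (g : G0) (u w : Fin 56 → K) :
    be (act π g u) (act π g w) = be u w := by
  have e := congrArg (fun A : M56 (ZMod 2) => A.map (algebraMap (ZMod 2) K)) (hπ.form g)
  have j : (J56 (ZMod 2)).map (algebraMap (ZMod 2) K) = J56 K := by
    ext a b
    simp only [J56, Matrix.map_apply, Matrix.of_apply]
    split_ifs
    exacts [map_one _, map_zero _]
  simp only [Matrix.map_mul, Matrix.transpose_map, j] at e
  unfold be
  rw [act_apply, act_apply, Matrix.mulVec_mulVec, ← Matrix.vecMul_transpose,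
    ← Matrix.dotProduct_mulVec, Matrix.mulVec_mulVec, ← Matrix.mul_assoc, e]

theorem be_single (u : Fin 56 → K) (a : Fin 56) : be u (Pi.single a.rev 1) = u a := by
  have : J56 K *ᵥ Pi.single a.rev 1 = Pi.single a 1 := by
    funext b
    rw [Matrix.mulVec_single_one]
    simp only [J56, Matrix.col_apply, Matrix.of_apply, Pi.single_apply, Fin.rev_inj, eq_comm]
  rw [be, this, dotProduct_single, mul_one]

theorem end27 : End27Stmt.{u} := by
  intro π hπ Γ _ φ x y t h h4 hy hs sp
  obtain ⟨u, hu, u0⟩ : ∃ u ∈ Fix π (Set.range (φ.comp x)), u ≠ 0 := by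
    refine (Submodule.ne_bot_iff _).1 fun e => ?_
    rw [e, finrank_bot] at h4
    omega
  set ρ := (act π).comp φ with hρ
  have inv : ∀ g a b, be (ρ g a) (ρ g b) = be a b := fun g => be_inv hπ (φ g)
  have k1 : ∀ e w, be u (ρ (x e) w) = be u w := fun e w => by
    rw [← inv (x e) u w, mem_U hu]
  have key : ∀ g, ∀ v ∈ Fix π (Set.range (φ.comp x)), be u (ρ g v) = be u v := fun g v hv => by
    obtain ⟨i, b, hb, rfl⟩ := exists_rep h g
    rw [map_mul, Module.End.mul_apply, fix_B h ρ (mem_U hv) (hy v hv) hb]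
    rcases i with _ | e
    · show be u (ρ 1 v) = _
      rw [map_one, Module.End.one_apply]
    · have k2 : ∀ e, be u (ρ (x e * t) v) = be u (ρ t v) := fun e => by
        rw [map_mul, Module.End.mul_apply, k1]
      have s : be u (∑ e, ρ (x e * t) v) = be u v := congrArg (be u) (hs v hv)
      have s2 : be u (∑ e, ρ (x e * t) v) = ∑ e, be u (ρ (x e * t) v) := by
        unfold be
        rw [Matrix.mulVec_sum, dotProduct_sum]
      rw [s2, Finset.sum_congr rfl fun e _ => k2 e, Finset.sum_const, Finset.card_univ,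
        show Fintype.card (Multiplicative E3) = 2 * 13 + 1 by simp, add_nsmul, one_nsmul, mul_nsmul,
        CharTwo.two_nsmul, nsmul_zero, zero_add] at s
      exact (k2 e).trans s
  refine ⟨u, u0, ?_⟩
  rintro _ ⟨g, rfl⟩
  have all : ∀ w, be (ρ g u) w = be u w := fun w => by
    have m : w ∈ Submodule.span K {w | ∃ g, ∃ v ∈ Fix π (Set.range (φ.comp x)),
      w = act π (φ g) v} := sp ▸ Submodule.mem_top
    induction m using Submodule.span_induction with
    | mem w hw =>
      obtain ⟨g', v, hv, rfl⟩ := hw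
      show be (ρ g u) (ρ g' v) = be u (ρ g' v)
      rw [key g' v hv, ← key (g⁻¹ * g') v hv, ← inv g u, ← Module.End.mul_apply (ρ g) (ρ _),
        ← map_mul, mul_inv_cancel_left]
    | zero => simp [be]
    | add a b _ _ ha hb =>
      unfold be at *
      rw [Matrix.mulVec_add, dotProduct_add, dotProduct_add, ha, hb]
    | smul c a _ ha =>
      unfold be at *
      rw [Matrix.mulVec_smul, dotProduct_smul, dotProduct_smul, ha]
  funext a
  rw [← be_single u a, ← all, be_single]
  rfl

theorem eqns : True := by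
  have := @B.eq_1.{0}; have := @rep.eq_1.{0}; have := @rep.eq_2.{0}; have := @rep.eq_def.{0}
  have := @be.eq_1; trivial

end Cfsg.Agent.H81.E72Sum
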