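import Cfsg.Agent.H6.E82Defs

/-! Piece R3A of S5915: the element of order `21` with the prescribed multiplicities. -/

set_option autoImplicit false
set_option maxRecDepth 100000

namespace Cfsg.Agent.H81.E82R3a

open Cfsg.Agent.H6.E82 Cfsg.Lie H37 H40 H34 H29 Finset

/-- The roots modulo `21`. -/
def T21 : List (List ℕ) :=
    [[19, 18, 17, 15, 16, 17, 18, 19], [19, 18, 17, 15, 16, 17, 18, 20], [19, 18, 17, 15, 16, 17,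
    19, 20], [19, 18, 17, 15, 16, 18, 19, 20], [19, 18, 17, 15, 17, 18, 19, 20], [19, 18, 17, 16,
    17, 18, 19, 20], [19, 18, 18, 16, 17, 18, 19, 20], [19, 19, 17, 16, 17, 18, 19, 20], [19, 19,
    18, 16, 17, 18, 19, 20], [19, 19, 18, 17, 17, 18, 19, 20], [19, 19, 18, 17, 18, 18, 19, 20],
    [19, 19, 18, 17, 18, 19, 19, 20], [19, 19, 18, 17, 18, 19, 20, 20], [19, 19, 18, 17, 18, 19,
    20, 0], [20, 18, 18, 16, 17, 18, 19, 20], [20, 19, 18, 16, 17, 18, 19, 20], [20, 19, 18, 17,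
    17, 18, 19, 20], [20, 19, 18, 17, 18, 18, 19, 20], [20, 19, 18, 17, 18, 19, 19, 20], [20, 19,
    18, 17, 18, 19, 20, 20], [20, 19, 18, 17, 18, 19, 20, 0], [20, 19, 19, 17, 17, 18, 19, 20],
    [20, 19, 19, 17, 18, 18, 19, 20], [20, 19, 19, 17, 18, 19, 19, 20], [20, 19, 19, 17, 18, 19,
    20, 20], [20, 19, 19, 17, 18, 19, 20, 0], [20, 19, 19, 18, 18, 18, 19, 20], [20, 19, 19, 18,
    18, 19, 19, 20], [20, 19, 19, 18, 18, 19, 20, 20], [20, 19, 19, 18, 18, 19, 20, 0], [20, 19,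
    19, 18, 19, 19, 19, 20], [20, 19, 19, 18, 19, 19, 20, 20], [20, 19, 19, 18, 19, 19, 20, 0],
    [20, 19, 19, 18, 19, 20, 20, 20], [20, 19, 19, 18, 19, 20, 20, 0], [20, 19, 19, 18, 19, 20, 0,
    0], [20, 20, 19, 18, 18, 18, 19, 20], [20, 20, 19, 18, 18, 19, 19, 20], [20, 20, 19, 18, 18,
    19, 20, 20], [20, 20, 19, 18, 18, 19, 20, 0], [20, 20, 19, 18, 19, 19, 19, 20], [20, 20, 19,
    18, 19, 19, 20, 20], [20, 20, 19, 18, 19, 19, 20, 0], [20, 20, 19, 18, 19, 20, 20, 20], [20,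
    20, 19, 18, 19, 20, 20, 0], [20, 20, 19, 18, 19, 20, 0, 0], [20, 20, 19, 19, 19, 19, 19, 20],
    [20, 20, 19, 19, 19, 19, 20, 20], [20, 20, 19, 19, 19, 19, 20, 0], [20, 20, 19, 19, 19, 20,
    20, 20], [20, 20, 19, 19, 19, 20, 20, 0], [20, 20, 19, 19, 19, 20, 0, 0], [20, 20, 19, 19, 20,
    20, 20, 20], [20, 20, 19, 19, 20, 20, 20, 0], [20, 20, 19, 19, 20, 20, 0, 0], [20, 20, 19, 19,
    20, 0, 0, 0], [20, 20, 20, 19, 19, 19, 19, 20], [20, 20, 20, 19, 19, 19, 20, 20], [20, 20, 20,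
    19, 19, 19, 20, 0], [20, 20, 20, 19, 19, 20, 20, 20], [20, 20, 20, 19, 19, 20, 20, 0], [20,
    20, 20, 19, 19, 20, 0, 0], [20, 20, 20, 19, 20, 20, 20, 20], [20, 20, 20, 19, 20, 20, 20, 0],
    [20, 20, 20, 19, 20, 20, 0, 0], [20, 20, 20, 19, 20, 0, 0, 0], [20, 20, 20, 20, 20, 20, 20,
    20], [20, 20, 20, 20, 20, 20, 20, 0], [20, 20, 20, 20, 20, 20, 0, 0], [20, 20, 20, 20, 20, 0,
    0, 0], [20, 20, 20, 20, 0, 0, 0, 0], [20, 0, 20, 20, 20, 20, 20, 20], [20, 0, 20, 20, 20, 20,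
    20, 0], [20, 0, 20, 20, 20, 20, 0, 0], [20, 0, 20, 20, 20, 0, 0, 0], [20, 0, 20, 20, 0, 0, 0,
    0], [20, 0, 20, 0, 0, 0, 0, 0], [20, 0, 0, 0, 0, 0, 0, 0], [0, 20, 20, 19, 19, 19, 19, 20],
    [0, 20, 20, 19, 19, 19, 20, 20], [0, 20, 20, 19, 19, 19, 20, 0], [0, 20, 20, 19, 19, 20, 20,
    20], [0, 20, 20, 19, 19, 20, 20, 0], [0, 20, 20, 19, 19, 20, 0, 0], [0, 20, 20, 19, 20, 20,
    20, 20], [0, 20, 20, 19, 20, 20, 20, 0], [0, 20, 20, 19, 20, 20, 0, 0], [0, 20, 20, 19, 20, 0,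
    0, 0], [0, 20, 20, 20, 20, 20, 20, 20], [0, 20, 20, 20, 20, 20, 20, 0], [0, 20, 20, 20, 20,
    20, 0, 0], [0, 20, 20, 20, 20, 0, 0, 0], [0, 20, 20, 20, 0, 0, 0, 0], [0, 20, 0, 20, 20, 20,
    20, 20], [0, 20, 0, 20, 20, 20, 20, 0], [0, 20, 0, 20, 20, 20, 0, 0], [0, 20, 0, 20, 20, 0, 0,
    0], [0, 20, 0, 20, 0, 0, 0, 0], [0, 20, 0, 0, 0, 0, 0, 0], [0, 0, 20, 20, 20, 20, 20, 20], [0,
    0, 20, 20, 20, 20, 20, 0], [0, 0, 20, 20, 20, 20, 0, 0], [0, 0, 20, 20, 20, 0, 0, 0], [0, 0,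
    20, 20, 0, 0, 0, 0], [0, 0, 20, 0, 0, 0, 0, 0], [0, 0, 0, 20, 20, 20, 20, 20], [0, 0, 0, 20,
    20, 20, 20, 0], [0, 0, 0, 20, 20, 20, 0, 0], [0, 0, 0, 20, 20, 0, 0, 0], [0, 0, 0, 20, 0, 0,
    0, 0], [0, 0, 0, 0, 20, 20, 20, 20], [0, 0, 0, 0, 20, 20, 20, 0], [0, 0, 0, 0, 20, 20, 0, 0],
    [0, 0, 0, 0, 20, 0, 0, 0], [0, 0, 0, 0, 0, 20, 20, 20], [0, 0, 0, 0, 0, 20, 20, 0], [0, 0, 0,
    0, 0, 20, 0, 0], [0, 0, 0, 0, 0, 0, 20, 20], [0, 0, 0, 0, 0, 0, 20, 0], [0, 0, 0, 0, 0, 0, 0,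
    20], [0, 0, 0, 0, 0, 0, 0, 1], [0, 0, 0, 0, 0, 0, 1, 0], [0, 0, 0, 0, 0, 0, 1, 1], [0, 0, 0,
    0, 0, 1, 0, 0], [0, 0, 0, 0, 0, 1, 1, 0], [0, 0, 0, 0, 0, 1, 1, 1], [0, 0, 0, 0, 1, 0, 0, 0],
    [0, 0, 0, 0, 1, 1, 0, 0], [0, 0, 0, 0, 1, 1, 1, 0], [0, 0, 0, 0, 1, 1, 1, 1], [0, 0, 0, 1, 0,
    0, 0, 0], [0, 0, 0, 1, 1, 0, 0, 0], [0, 0, 0, 1, 1, 1, 0, 0], [0, 0, 0, 1, 1, 1, 1, 0], [0, 0,
    0, 1, 1, 1, 1, 1], [0, 0, 1, 0, 0, 0, 0, 0], [0, 0, 1, 1, 0, 0, 0, 0], [0, 0, 1, 1, 1, 0, 0,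
    0], [0, 0, 1, 1, 1, 1, 0, 0], [0, 0, 1, 1, 1, 1, 1, 0], [0, 0, 1, 1, 1, 1, 1, 1], [0, 1, 0, 0,
    0, 0, 0, 0], [0, 1, 0, 1, 0, 0, 0, 0], [0, 1, 0, 1, 1, 0, 0, 0], [0, 1, 0, 1, 1, 1, 0, 0], [0,
    1, 0, 1, 1, 1, 1, 0], [0, 1, 0, 1, 1, 1, 1, 1], [0, 1, 1, 1, 0, 0, 0, 0], [0, 1, 1, 1, 1, 0,
    0, 0], [0, 1, 1, 1, 1, 1, 0, 0], [0, 1, 1, 1, 1, 1, 1, 0], [0, 1, 1, 1, 1, 1, 1, 1], [0, 1, 1,
    2, 1, 0, 0, 0], [0, 1, 1, 2, 1, 1, 0, 0], [0, 1, 1, 2, 1, 1, 1, 0], [0, 1, 1, 2, 1, 1, 1, 1],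
    [0, 1, 1, 2, 2, 1, 0, 0], [0, 1, 1, 2, 2, 1, 1, 0], [0, 1, 1, 2, 2, 1, 1, 1], [0, 1, 1, 2, 2,
    2, 1, 0], [0, 1, 1, 2, 2, 2, 1, 1], [0, 1, 1, 2, 2, 2, 2, 1], [1, 0, 0, 0, 0, 0, 0, 0], [1, 0,
    1, 0, 0, 0, 0, 0], [1, 0, 1, 1, 0, 0, 0, 0], [1, 0, 1, 1, 1, 0, 0, 0], [1, 0, 1, 1, 1, 1, 0,
    0], [1, 0, 1, 1, 1, 1, 1, 0], [1, 0, 1, 1, 1, 1, 1, 1], [1, 1, 1, 1, 0, 0, 0, 0], [1, 1, 1, 1,
    1, 0, 0, 0], [1, 1, 1, 1, 1, 1, 0, 0], [1, 1, 1, 1, 1, 1, 1, 0], [1, 1, 1, 1, 1, 1, 1, 1], [1,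
    1, 1, 2, 1, 0, 0, 0], [1, 1, 1, 2, 1, 1, 0, 0], [1, 1, 1, 2, 1, 1, 1, 0], [1, 1, 1, 2, 1, 1,
    1, 1], [1, 1, 1, 2, 2, 1, 0, 0], [1, 1, 1, 2, 2, 1, 1, 0], [1, 1, 1, 2, 2, 1, 1, 1], [1, 1, 1,
    2, 2, 2, 1, 0], [1, 1, 1, 2, 2, 2, 1, 1], [1, 1, 1, 2, 2, 2, 2, 1], [1, 1, 2, 2, 1, 0, 0, 0],
    [1, 1, 2, 2, 1, 1, 0, 0], [1, 1, 2, 2, 1, 1, 1, 0], [1, 1, 2, 2, 1, 1, 1, 1], [1, 1, 2, 2, 2,
    1, 0, 0], [1, 1, 2, 2, 2, 1, 1, 0], [1, 1, 2, 2, 2, 1, 1, 1], [1, 1, 2, 2, 2, 2, 1, 0], [1, 1,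
    2, 2, 2, 2, 1, 1], [1, 1, 2, 2, 2, 2, 2, 1], [1, 1, 2, 3, 2, 1, 0, 0], [1, 1, 2, 3, 2, 1, 1,
    0], [1, 1, 2, 3, 2, 1, 1, 1], [1, 1, 2, 3, 2, 2, 1, 0], [1, 1, 2, 3, 2, 2, 1, 1], [1, 1, 2, 3,
    2, 2, 2, 1], [1, 1, 2, 3, 3, 2, 1, 0], [1, 1, 2, 3, 3, 2, 1, 1], [1, 1, 2, 3, 3, 2, 2, 1], [1,
    1, 2, 3, 3, 3, 2, 1], [1, 2, 2, 3, 2, 1, 0, 0], [1, 2, 2, 3, 2, 1, 1, 0], [1, 2, 2, 3, 2, 1,
    1, 1], [1, 2, 2, 3, 2, 2, 1, 0], [1, 2, 2, 3, 2, 2, 1, 1], [1, 2, 2, 3, 2, 2, 2, 1], [1, 2, 2,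
    3, 3, 2, 1, 0], [1, 2, 2, 3, 3, 2, 1, 1], [1, 2, 2, 3, 3, 2, 2, 1], [1, 2, 2, 3, 3, 3, 2, 1],
    [1, 2, 2, 4, 3, 2, 1, 0], [1, 2, 2, 4, 3, 2, 1, 1], [1, 2, 2, 4, 3, 2, 2, 1], [1, 2, 2, 4, 3,
    3, 2, 1], [1, 2, 2, 4, 4, 3, 2, 1], [1, 2, 3, 4, 3, 2, 1, 0], [1, 2, 3, 4, 3, 2, 1, 1], [1, 2,
    3, 4, 3, 2, 2, 1], [1, 2, 3, 4, 3, 3, 2, 1], [1, 2, 3, 4, 4, 3, 2, 1], [1, 2, 3, 5, 4, 3, 2,
    1], [1, 3, 3, 5, 4, 3, 2, 1], [2, 2, 3, 4, 3, 2, 1, 0], [2, 2, 3, 4, 3, 2, 1, 1], [2, 2, 3, 4,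
    3, 2, 2, 1], [2, 2, 3, 4, 3, 3, 2, 1], [2, 2, 3, 4, 4, 3, 2, 1], [2, 2, 3, 5, 4, 3, 2, 1], [2,
    2, 4, 5, 4, 3, 2, 1], [2, 3, 3, 5, 4, 3, 2, 1], [2, 3, 4, 5, 4, 3, 2, 1], [2, 3, 4, 6, 4, 3,
    2, 1], [2, 3, 4, 6, 5, 3, 2, 1], [2, 3, 4, 6, 5, 4, 2, 1], [2, 3, 4, 6, 5, 4, 3, 1], [2, 3, 4,
    6, 5, 4, 3, 2]]

theorem hT21 : T21 =
    (List.range chevE8.nroots).map fun r => res 21 ((List.range chevE8.rank).map (gt rcE8 r)) := by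
  decide +kernel

/-- The packed multiplicities. -/
noncomputable def pk (a : List ℕ) : ℕ :=
  sumL (fun z => Nat.shiftLeft 1 (Nat.mul 8 (Nat.mod (dotN a z) 21))) T21

/-- The test of one point of the alcove. -/
noncomputable def ok (a : List ℕ) : Bool :=
  Bool.rec true (decide (a = [2, 1, 0, 0, 1, 0, 0, 3]))
    (Nat.beq (pk a) 17606773894863392996653308232000547291635693390860)

theorem eqns : True := by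
  have := @T21.eq_1
  have := @pk.eq_1
  have := @ok.eq_1
  trivial

theorem c00 : allAlc [4, 6, 5, 4, 3, 2] (21 - 0 * 2 - 0 * 3) (fun l => ok (0 :: 0 :: l)) = true := by
  decide +kernel

theorem c01 : allN (fun y => allAlc [4, 6, 5, 4, 3, 2] (21 - 0 * 2 - (y + 1) * 3)
    fun l => ok (0 :: (y + 1) :: l)) 7 = true := by decide +kernel

theorem c1 : allAlc [3, 4, 6, 5, 4, 3, 2] (21 - 1 * 2) (fun l => ok (1 :: l)) = true := by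
  decide +kernel

theorem c2 : allAlc [3, 4, 6, 5, 4, 3, 2] (21 - 2 * 2) (fun l => ok (2 :: l)) = true := by
  decide +kernel

theorem c3 : allN (fun x => allAlc [3, 4, 6, 5, 4, 3, 2] (21 - (x + 3) * 2)
    fun l => ok ((x + 3) :: l)) 8 = true := by decide +kernel

theorem chk : allAlc [2, 3, 4, 6, 5, 4, 3, 2] 21 ok = true := by
  refine allAlc_cons.2 fun x hx => ?_
  rcases x with _ | _ | _ | x
  · refine allAlc_cons.2 fun y hy => ?_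
    rcases y with _ | y
    · exact c00
    · exact allN_iff.1 c01 y (by omega)
  · exact c1
  · exact c2
  · exact allN_iff.1 c3 x (by omega)

theorem pk_eq {f : Rt → ℤ} {a : List ℕ} (hf : IsAdd C8.R f) (h : Rp C8 21 a f) :
    pk a = ∑ e ∈ range 21, 2 ^ (8 * e) * z0 21 fun r => f r - e := by
  rw [pk, sumL_eq, hT21, List.map_map]
  have h1 : ∀ (n : ℕ) (g : ℕ → ℕ), ((List.range n).map g).sum = ∑ r : Fin n, g r := fun n g => by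
    rw [← Finset.sum_range]
    rfl
  rw [h1]
  simp only [z0, mul_sum]
  rw [sum_comm]
  refine sum_congr rfl fun r _ => ?_
  have h2 : ((dotN a (res 21 ((List.range chevE8.rank).map (gt rcE8 r))) : ℕ) : ZMod 21) = f r := by
    rw [dotN_res (by decide) dvd_rfl, hf r]
    simp only [Int.cast_sum, Int.cast_mul, rc_eq C8 tabOKE8, ← h _, mul_comm]
  set n := dotN a (res 21 ((List.range chevE8.rank).map (gt rcE8 r))) with hn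
  show Nat.shiftLeft 1 (8 * (n % 21)) = _
  rw [sum_eq_single (n % 21)]
  · rw [if_pos, mul_one]
    · exact Nat.one_shiftLeft _
    · rw [Int.cast_sub, ← h2, Int.cast_natCast, ZMod.natCast_mod, sub_self]
  · intro e he hne
    rw [if_neg, mul_zero]
    intro h3
    rw [Int.cast_sub, ← h2, Int.cast_natCast, sub_eq_zero, ZMod.natCast_eq_natCast_iff',
      Nat.mod_eq_of_lt (mem_range.1 he)] at h3
    exact hne h3.symm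
  · intro h3
    exact absurd (mem_range.2 (Nat.mod_lt _ (by decide))) h3

theorem r3a : R3aStmt := by
  intro f hf hc
  obtain ⟨u, hu, a, h1, -, h2⟩ := hf.alc tabOKE8 (s := 21) (by decide) (by decide) _ thE8 chk
  refine ⟨u, hu, ?_⟩
  have h3 : pk a = 17606773894863392996653308232000547291635693390860 := by
    rw [pk_eq (hf.comp hu) h2]
    have h4 : ∀ e ∈ range 21, 2 ^ (8 * e) * z0 21 (fun r => f (u r) - e) =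
        2 ^ (8 * e) * (c21 e - if e = 0 then 8 else 0) := fun e he => by
      have h5 := hc e (mem_range.1 he)
      rw [cnt, z0_congr (g := fun r => f (u r) - e) u fun _ => Iff.rfl] at h5
      rw [← h5, Nat.add_sub_cancel_left]
    rw [sum_congr rfl h4]
    decide +kernel
  rw [ok, h3, Nat.beq_refl] at h1
  obtain rfl := of_decide_eq_true h1
  exact h2

end Cfsg.Agent.H81.E82R3a
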