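import Cfsg.Agent.H6.E82Defs

/-! Piece TRI of S5915: an invariant alternating trilinear form vanishes on a module generated by
two fixed vectors of the Borel subgroup. -/

set_option autoImplicit false

namespace Cfsg.Agent.H81.E82Tri

open Cfsg.Agent.H6.E82 Module H82 H50.SL2S Finset

theorem alt2 {W : Type} [AddCommGroup W] [Module K W] [FiniteDimensional K W]
    (τ : W →ₗ[K] W →ₗ[K] W →ₗ[K] K) (e : W →ₗ[K] W) (Q : Submodule K W) (hQ : finrank K Q ≤ 2)
    (h12 : ∀ a ∈ Q, ∀ b ∈ Q, τ a a (e b) = 0) (h13 : ∀ a ∈ Q, ∀ b ∈ Q, τ a b (e a) = 0) :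
    ∀ a ∈ Q, ∀ b ∈ Q, ∀ c ∈ Q, τ a b (e c) = 0 := by
  have h23 : ∀ a ∈ Q, ∀ b ∈ Q, τ a b (e b) = 0 := by
    intro a ha b hb
    have := h12 _ (Q.add_mem ha hb) b hb
    simp only [map_add, LinearMap.add_apply, h12 a ha b hb, h12 b hb b hb, h13 b hb a ha,
      zero_add, add_zero] at this
    exact this
  intro a ha b hb c hc
  have hd : ¬ LinearIndependent K (![⟨a, ha⟩, ⟨b, hb⟩, ⟨c, hc⟩] : Fin 3 → Q) := by
    intro h
    have := h.fintype_card_le_finrank
    rw [Fintype.card_fin] at this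
    omega
  obtain ⟨g, hg, i, hi⟩ := Fintype.not_linearIndependent_iff.1 hd
  have hg' : g 0 • a + g 1 • b + g 2 • c = 0 := by
    have := congrArg Subtype.val hg
    simpa [Fin.sum_univ_three] using this
  have e0 : g 0 * τ a b (e c) = 0 := by
    have := congrArg (fun x => τ x b (e c)) hg'
    simpa [h12 b hb c hc, h13 c hc b hb] using this
  have e1 : g 1 * τ a b (e c) = 0 := by
    have := congrArg (fun x => τ a x (e c)) hg'
    simpa [h12 a ha c hc, h23 a ha c hc] using this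
  have e2 : g 2 * τ a b (e c) = 0 := by
    have := congrArg (fun x => τ a b (e x)) hg'
    simpa [h13 a ha b hb, h23 a ha b hb] using this
  fin_cases i
  · exact (mul_eq_zero.1 e0).resolve_left hi
  · exact (mul_eq_zero.1 e1).resolve_left hi
  · exact (mul_eq_zero.1 e2).resolve_left hi

theorem tri (tr : Tr3Stmt) : TriStmt := by
  intro W _ _ _ ρ τ hinv h12 h13 hfx P hP
  obtain ⟨-, t2, t3, t4, t5, t6⟩ := tr
  obtain ⟨Q, hQ, hQB, hPS⟩ := hP
  have s12 : ∀ a b c, τ a b c = τ b a c := by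
    intro a b c
    have := h12 (a + b) c
    simp only [map_add, LinearMap.add_apply, h12, zero_add, add_zero] at this
    rw [← CharTwo.add_eq_zero]
    first
      | exact this
      | rwa [add_comm] at this
  have s13 : ∀ a b c, τ a b c = τ c b a := by
    intro a b c
    have := h13 (a + c) b
    simp only [map_add, LinearMap.add_apply, h13, zero_add, add_zero] at this
    rw [← CharTwo.add_eq_zero]
    first
      | exact this
      | rwa [add_comm] at this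
  have s23 : ∀ a b c, τ a b c = τ a c b := fun a b c => by rw [s12, s13, s12]
  have fixB : ∀ b ∈ BB F, ∀ q ∈ Q, ρ b q = q := fun b hb q hq => hQB hq b hb
  have mv : ∀ g g' : SL, g⁻¹ * g' ∈ BB F → ∀ q ∈ Q, ρ g' q = ρ g q := by
    intro g g' h q hq
    have : g' = g * (g⁻¹ * g') := by group
    rw [this, map_mul, Module.End.mul_apply, fixB _ h q hq]
  have cmp : ∀ s g : SL, ∀ q, ρ s (ρ g q) = ρ (s * g) q := fun s g q => by
    rw [map_mul, Module.End.mul_apply]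
  have T2 : ∀ g g'' : SL, g⁻¹ * g'' ∉ BB F → ∀ q ∈ Q, ∀ q' ∈ Q, ∀ q'' ∈ Q,
      τ (ρ g q) (ρ g q') (ρ g'' q'') = τ q q' (ρ (ww F) q'') := by
    intro g g'' h q hq q' hq' q'' hq''
    obtain ⟨s, h1, h2⟩ := t2 g g'' h
    rw [← hinv s, cmp, cmp, cmp, fixB _ h1 q hq, fixB _ h1 q' hq', mv _ _ h2 q'' hq'']
  have T3 : ∀ g g' g'' : SL, g⁻¹ * g' ∉ BB F → g⁻¹ * g'' ∉ BB F → g'⁻¹ * g'' ∉ BB F →
      ∀ q ∈ Q, ∀ q' ∈ Q, ∀ q'' ∈ Q,
      τ (ρ g q) (ρ g' q') (ρ g'' q'') = τ q (ρ (ww F) q') (ρ (uu 1 * ww F) q'') := by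
    intro g g' g'' h h' h'' q hq q' hq' q'' hq''
    obtain ⟨s, h1, h2, h3⟩ := t3 g g' g'' h h' h''
    rw [← hinv s, cmp, cmp, cmp, fixB _ h1 q hq, mv _ _ h2 q' hq', mv _ _ h3 q'' hq'']
  have w0 : uu (0 : F) * ww F = ww F := by rw [uu_zero, one_mul]
  have two : (2 : K) = 0 := CharTwo.two_eq_zero
  have AB : ∀ q ∈ Q, ∀ q' ∈ Q, ∀ q'' ∈ Q, τ q (ρ (ww F) q') (ρ (uu 1 * ww F) q'') =
      τ q q' (ρ (ww F) q'') + τ q q'' (ρ (ww F) q') := by
    intro q hq q' hq' q'' hq''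
    have h0 := t6 W ρ q (hQB hq)
    rw [hfx, Submodule.mem_bot] at h0
    have h1 := congrArg (fun x => τ x (ρ (ww F) q') (ρ (uu 1 * ww F) q'')) h0
    simp only [map_add, map_sum, LinearMap.add_apply, LinearMap.sum_apply, map_zero,
      LinearMap.zero_apply] at h1
    set A := τ q (ρ (ww F) q') (ρ (uu 1 * ww F) q'') with hA
    set B1 := τ q q' (ρ (ww F) q'') with hB1
    set B2 := τ q q'' (ρ (ww F) q') with hB2
    have h2 : ∀ t : F, τ (ρ (uu t * ww F) q) (ρ (ww F) q') (ρ (uu 1 * ww F) q'') =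
        A + (if t = 0 then B1 - A else 0) + (if t = 1 then B2 - A else 0) := by
      intro t
      by_cases a0 : t = 0
      · subst a0
        rw [if_pos rfl, if_neg zero_ne_one, w0,
          T2 _ _ (by nth_rewrite 1 [← w0]; rw [t4]; exact zero_ne_one) q hq q' hq' q'' hq'']
        ring
      by_cases a1 : t = 1
      · subst a1
        rw [if_neg a0, if_pos rfl, s23,
          T2 _ _ (by nth_rewrite 2 [← w0]; rw [t4]; exact one_ne_zero) q hq q'' hq'' q' hq']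
        ring
      rw [if_neg a0, if_neg a1, add_zero, add_zero]
      exact T3 _ _ _ (by nth_rewrite 2 [← w0]; rw [t4]; exact a0) (by rw [t4]; exact a1)
        (by nth_rewrite 1 [← w0]; rw [t4]; exact zero_ne_one) q hq q' hq' q'' hq''
    simp only [h2, sum_add_distrib, sum_const, card_univ, card_F, sum_ite_eq', mem_univ, if_true,
      nsmul_eq_mul] at h1
    push_cast at h1
    linear_combination h1 + (-31 * A - B1 - B2) * two
  have one_ap : ∀ q : W, ρ 1 q = q := fun q => by rw [map_one, Module.End.one_apply]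
  have B13 : ∀ q ∈ Q, ∀ q'' ∈ Q, τ q q'' (ρ (ww F) q) = 0 := by
    intro q hq q'' hq''
    have e1 := AB q hq q hq q'' hq''
    have e2 := AB q'' hq'' q hq q hq
    have e3 := T3 (uu 1 * ww F) 1 (ww F) (by rw [mul_one, inv_mem_iff]; exact t5 1)
      (by nth_rewrite 2 [← w0]; rw [t4]; exact one_ne_zero)
      (by rw [inv_one, one_mul, ← w0]; exact t5 0) q'' hq'' q hq q hq
    rw [one_ap, s12, s23, e1, e2, h12, zero_add, CharTwo.add_self_eq_zero] at e3
    exact e3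
  have B0 := alt2 τ (ρ (ww F)) Q hQ (fun a _ b _ => h12 a _) B13
  have C0 := alt2 τ LinearMap.id Q hQ (fun a _ b _ => h12 a _) (fun a _ b _ => h13 a b)
  have D2 : ∀ g g' g'' : SL, g⁻¹ * g' ∈ BB F → ∀ q ∈ Q, ∀ q' ∈ Q, ∀ q'' ∈ Q,
      τ (ρ g q) (ρ g' q') (ρ g'' q'') = 0 := by
    intro g g' g'' h q hq q' hq' q'' hq''
    rw [mv _ _ h q' hq']
    by_cases h' : g⁻¹ * g'' ∈ BB F
    · rw [mv _ _ h' q'' hq'', hinv]
      exact C0 q hq q' hq' q'' hq''
    · rw [T2 _ _ h' q hq q' hq' q'' hq'']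
      exact B0 q hq q' hq' q'' hq''
  have D : ∀ g g' g'' : SL, ∀ q ∈ Q, ∀ q' ∈ Q, ∀ q'' ∈ Q,
      τ (ρ g q) (ρ g' q') (ρ g'' q'') = 0 := by
    intro g g' g'' q hq q' hq' q'' hq''
    by_cases h : g⁻¹ * g' ∈ BB F
    · exact D2 _ _ _ h q hq q' hq' q'' hq''
    by_cases h' : g⁻¹ * g'' ∈ BB F
    · rw [s23]; exact D2 _ _ _ h' q hq q'' hq'' q' hq'
    by_cases h'' : g'⁻¹ * g'' ∈ BB F
    · rw [s12, s23]; exact D2 _ _ _ h'' q' hq' q'' hq'' q hq
    rw [T3 _ _ _ h h' h'' q hq q' hq' q'' hq'', AB q hq q' hq' q'' hq'', B0 q hq q' hq' q'' hq'',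
      B0 q hq q'' hq'' q' hq', add_zero]
  set S : Set W := {v | ∃ g, ∃ q ∈ Q, v = ρ g q} with hS
  have ext : ∀ x y : W, (∀ z ∈ S, τ x y z = 0) → ∀ c ∈ P, τ x y c = 0 := fun x y h c hc =>
    LinearMap.mem_ker.1 ((Submodule.span_le.2 fun z hz => LinearMap.mem_ker.2 (h z hz)) (hPS hc))
  intro a ha b hb
  refine ext a b fun z hz => ?_
  rw [s23]
  refine ext a z (fun y hy => ?_) b hb
  rw [s13]
  refine ext y z (fun x hx => ?_) a ha
  obtain ⟨g, q, hq, rfl⟩ := hx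
  obtain ⟨g', q', hq', rfl⟩ := hy
  obtain ⟨g'', q'', hq'', rfl⟩ := hz
  exact D _ _ _ _ hq' _ hq'' _ hq

end Cfsg.Agent.H81.E82Tri
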