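import Cfsg.Agent.S1062
import Cfsg.Agent.S1063
import Cfsg.Agent.S1035

/-!
# The 2-parts of the orders of `F₄(q)` and `E₆(q)`, `q` odd
-/

set_option autoImplicit false

namespace Cfsg.Agent.H81.Fk

open Cfsg Cfsg.Lie

theorem two_pow_dvd_of_odd {e a m : ℕ} (hm : Odd m) (h : 2 ^ e ∣ a * m) : 2 ^ e ∣ a :=
  Nat.Coprime.dvd_of_dvd_mul_right (Nat.Coprime.pow_left _ (Nat.coprime_two_left.2 hm)) h

theorem f4_arith {q : ℕ} (hq : Odd q) : ∃ m, Odd m ∧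
    (q ^ 2 - 1) * (q ^ 6 - 1) * (q ^ 8 - 1) * (q ^ 12 - 1) = (q - 1) ^ 4 * (q + 1) ^ 4 * 8 * m := by
  obtain ⟨k, rfl⟩ := hq
  refine ⟨((2 * k + 1) ^ 4 + (2 * k + 1) ^ 2 + 1) ^ 2 * (2 * (k ^ 2 + k) + 1) *
    (2 * (4 * (k ^ 2 + k) ^ 2 + 2 * (k ^ 2 + k)) + 1) *
    (2 * (16 * (k ^ 2 + k) ^ 3 + 12 * (k ^ 2 + k) ^ 2 + 3 * (k ^ 2 + k)) + 1), ?_, ?_⟩
  · refine (((Odd.pow ?_).mul (odd_two_mul_add_one _)).mul (odd_two_mul_add_one _)).mul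
      (odd_two_mul_add_one _)
    exact (((odd_two_mul_add_one k).pow.add_odd (odd_two_mul_add_one k).pow)).add_one
  · have h : ∀ n, 1 ≤ (2 * k + 1) ^ n := fun n => Nat.one_le_pow _ _ (by omega)
    zify [h 2, h 6, h 8, h 12, (by omega : 1 ≤ 2 * k + 1)]
    ring

theorem e6_arith {q : ℕ} (hq : Odd q) : ∃ m, Odd m ∧
    (q ^ 5 - 1) * (q ^ 9 - 1) = (q - 1) ^ 2 * m := by
  refine ⟨(q ^ 4 + q ^ 3 + q ^ 2 + q + 1) *
    (q ^ 8 + q ^ 7 + q ^ 6 + q ^ 5 + q ^ 4 + q ^ 3 + q ^ 2 + q + 1), ?_, ?_⟩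
  · have h : ∀ n, Odd (q ^ n) := fun n => hq.pow
    refine Odd.mul ?_ ?_
    · exact (((((h 4).add_odd (h 3)).add_odd (h 2)).add_odd hq)).add_one
    · exact ((((((((h 8).add_odd (h 7)).add_odd (h 6)).add_odd (h 5)).add_odd (h 4)).add_odd
        (h 3)).add_odd (h 2)).add_odd hq).add_one
  · have h : ∀ n, 1 ≤ q ^ n := fun n => Nat.one_le_pow _ _ hq.pos
    zify [h 5, h 9, (hq.pos : 1 ≤ q)]
    ring

variable (F : Type) [Field F] [Fintype F]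

theorem f4_two (hF : Odd (Fintype.card F)) (e : ℕ) (h : 2 ^ e ∣ Nat.card (chevF4.group F)) :
    2 ^ e ∣ Nat.card (chevF4.diagonalSubgroup F) * (Fintype.card F + 1) ^ 4 * 8 := by
  obtain ⟨m, hm, e1⟩ := f4_arith hF
  have h1 := S1035.result (F := F) rfl (chevF4, 1) (by simp)
  rw [one_mul] at h1
  rw [h1]
  rw [S1062.result rfl] at h
  refine two_pow_dvd_of_odd (hm.mul (hF.pow (n := 24))) ?_
  convert h using 1
  rw [← mul_assoc, show (chevF4, 1).1.rank = 4 from rfl, ← e1]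
  ring

theorem e6_two (hF : Odd (Fintype.card F)) (e : ℕ) (h : 2 ^ e ∣ Nat.card (chevE6.group F)) :
    2 ^ e ∣ Nat.card (chevE6.diagonalSubgroup F) * (Fintype.card F + 1) ^ 4 * 8 := by
  obtain ⟨m, hm, e1⟩ := f4_arith hF
  obtain ⟨m', hm', e2⟩ := e6_arith hF
  have h1 : Nat.gcd 3 (Fintype.card F - 1) * Nat.card (chevE6.diagonalSubgroup F) =
      (Fintype.card F - 1) ^ 6 :=
    S1035.result (F := F) rfl (chevE6, Nat.gcd 3 (Fintype.card F - 1)) (by simp)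
  have hg : Odd (Nat.gcd 3 (Fintype.card F - 1)) :=
    Odd.of_dvd_nat (by decide : Odd 3) (Nat.gcd_dvd_left _ _)
  have h2 : 2 ^ e ∣ Nat.gcd 3 (Fintype.card F - 1) * Nat.card (chevE6.group F) := h.mul_left _
  rw [S1063.result rfl] at h2
  refine two_pow_dvd_of_odd (hg.mul ((hm.mul hm').mul (hF.pow (n := 36)))) ?_
  generalize Nat.card (chevE6.diagonalSubgroup F) = a at h1 ⊢
  generalize Fintype.card F = q at *
  generalize Nat.gcd 3 (q - 1) = g at *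
  have e3 : a * (q + 1) ^ 4 * 8 * (g * (m * m' * q ^ 36)) = q ^ 36 * (q ^ 2 - 1) * (q ^ 5 - 1) *
      (q ^ 6 - 1) * (q ^ 8 - 1) * (q ^ 9 - 1) * (q ^ 12 - 1) :=
    calc a * (q + 1) ^ 4 * 8 * (g * (m * m' * q ^ 36))
        = (g * a) * (q + 1) ^ 4 * 8 * m * m' * q ^ 36 := by ring
      _ = ((q - 1) ^ 4 * (q + 1) ^ 4 * 8 * m) * ((q - 1) ^ 2 * m') * q ^ 36 := by rw [h1]; ring
      _ = _ := by rw [← e1, ← e2]; ring
  rwa [e3]

end Cfsg.Agent.H81.Fk
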