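import Cfsg.Agent.H98.GbL
import Cfsg.Agent.H11.Inner

/-! Project GB, piece BAS: the basic set. -/

set_option autoImplicit false
open Cfsg Finset
open scoped ComplexConjugate MatrixGroups

namespace Cfsg.Agent.H81.GbBas

open Cfsg.Agent.H98.GB Cfsg.Agent.H19 Cfsg.Agent.H11

universe u

section gen
variable {G : Type u} [Group G] [Fintype G]

theorem indep_of_orth {ι : Type} (v : ι → G → ℂ) (S : Set ι)
    (h0 : ∀ i ∈ S, ∀ j ∈ S, i ≠ j → classInner (v i) (v j) = 0)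
    (h1 : ∀ i ∈ S, classInner (v i) (v i) ≠ 0) : LinearIndepOn ℂ v S := by
  refine linearIndependent_iff'.2 fun s g hg i hi => ?_
  have h := congrArg (fun x => classInner x (v i)) hg
  simp only [classInner_sum_left, classInner_smul_left, classInner_zero_left] at h
  rw [sum_eq_single i (fun j _ hj => by
    rw [h0 _ j.2 _ i.2 fun e => hj (Subtype.ext e), mul_zero]) (fun c => absurd hi c)] at h
  exact (mul_eq_zero.1 h).resolve_right (h1 _ i.2)

theorem orth_span {S T : Set (G → ℂ)} (h : ∀ a ∈ S, ∀ b ∈ T, classInner a b = 0) {a b : G → ℂ}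
    (ha : a ∈ Submodule.span ℂ S) (hb : b ∈ Submodule.span ℂ T) : classInner a b = 0 := by
  induction ha using Submodule.span_induction with
  | mem x hx =>
    induction hb using Submodule.span_induction with
    | mem y hy => exact h x hx y hy
    | zero => exact classInner_zero_right _
    | add y z _ _ h1 h2 => rw [classInner_add_right, h1, h2, add_zero]
    | smul c y _ h1 => rw [classInner_smul_right, h1, mul_zero]
  | zero => exact classInner_zero_left _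
  | add y z _ _ h1 h2 => rw [classInner_add_left, h1, h2, add_zero]
  | smul c y _ h1 => rw [classInner_smul_left, h1, mul_zero]

theorem inner_reg (p : ℕ) (f f' : G → ℂ) :
    classInner (pRegularPart p f) (pRegularPart p f') = classInner (pRegularPart p f) f' := by
  rw [classInner_def, classInner_def]
  congr 1
  refine sum_congr rfl fun g _ => ?_
  simp only [pRegularPart]
  split_ifs <;> simp

end gen

section alg
variable {A : Type u} [CommRing A] [Algebra ℂ A] {Φ : Type} [Fintype Φ]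

theorem mon_add (P : Φ → ℕ → A) (μ ν : Φ → Multiset ℕ) : mon P (μ + ν) = mon P μ * mon P ν := by
  simp only [mon, Pi.add_apply, Multiset.map_add, Multiset.prod_add, prod_mul_distrib]

theorem wm_add (dg : Φ → ℕ) (μ ν : Φ → Multiset ℕ) : wm dg (μ + ν) = wm dg μ + wm dg ν := by
  simp only [wm, Pi.add_apply, Multiset.sum_add, mul_add, sum_add_distrib]

theorem map_mon (T : A →ₐ[ℂ] A) (P : Φ → ℕ → A) (μ : Φ → Multiset ℕ) :
    T (mon P μ) = mon (fun φ k => T (P φ k)) μ := by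
  simp only [mon, map_prod, map_multiset_prod, Multiset.map_map]
  rfl

/-- a multiple of a monomial supported on `In` -/
def Good (dg : Φ → ℕ) (In : Φ → Prop) (P : Φ → ℕ → A) (m : ℕ) (x : A) : Prop :=
  ∃ (c : ℂ) (ν : Φ → Multiset ℕ), MonOn In ν ∧ wm dg ν = m ∧ x = c • mon P ν

theorem eqns : True := by
  have := @Good.eq_1.{0}
  trivial

variable {dg : Φ → ℕ} {In : Φ → Prop} {P : Φ → ℕ → A}

theorem good_one : Good dg In P 0 1 :=
  ⟨1, 0, fun _ => ⟨fun _ h => absurd h (Multiset.notMem_zero _), fun _ => rfl⟩, by simp [wm],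
    by simp [mon]⟩

theorem Good.mul {a b : ℕ} {x z : A} (h : Good dg In P a x) (h' : Good dg In P b z) :
    Good dg In P (a + b) (x * z) := by
  obtain ⟨c, ν, h1, rfl, rfl⟩ := h
  obtain ⟨c', ν', h1', rfl, rfl⟩ := h'
  refine ⟨c * c', ν + ν', fun φ => ⟨fun r hr => ?_, fun hn => ?_⟩, wm_add _ _ _, ?_⟩
  · rcases Multiset.mem_add.1 hr with h | h
    exacts [(h1 φ).1 r h, (h1' φ).1 r h]
  · rw [Pi.add_apply, (h1 φ).2 hn, (h1' φ).2 hn, add_zero]
  · rw [mon_add, smul_mul_smul_comm]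

theorem good_single [DecidableEq Φ] {φ : Φ} (hφ : In φ) {k : ℕ} (hk : 0 < k) (c : ℂ) :
    Good dg In P (dg φ * k) (c • P φ k) := by
  refine ⟨c, Pi.single φ {k}, fun ψ => ⟨fun r hr => ?_, fun hn => ?_⟩, ?_, ?_⟩
  · by_cases e : ψ = φ
    · subst e
      rw [Pi.single_eq_same, Multiset.mem_singleton] at hr
      omega
    · rw [Pi.single_eq_of_ne e] at hr
      exact absurd hr (Multiset.notMem_zero _)
  · exact Pi.single_eq_of_ne (fun e : ψ = φ => hn (e ▸ hφ)) _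
  · rw [wm, sum_eq_single φ (fun ψ _ e => by rw [Pi.single_eq_of_ne e]; simp)
      (fun c => absurd (mem_univ _) c)]
    simp
  · rw [mon, prod_eq_single φ (fun ψ _ e => by rw [Pi.single_eq_of_ne e]; simp)
      (fun c => absurd (mem_univ _) c)]
    simp

theorem good_mon (h : ∀ φ k, 0 < k → Good dg In P (dg φ * k) (P φ k)) (μ : Φ → Multiset ℕ)
    (hμ : ∀ φ, ∀ r ∈ μ φ, 0 < r) : Good dg In P (wm dg μ) (mon P μ) := by
  classical
  have h1 : ∀ φ, ∀ s : Multiset ℕ, (∀ r ∈ s, 0 < r) →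
      Good dg In P (dg φ * s.sum) (s.map (P φ)).prod := fun φ s => by
    induction s using Multiset.induction_on with
    | empty => intro _; simpa using good_one
    | cons a s ih =>
      intro hs
      rw [Multiset.sum_cons, Multiset.map_cons, Multiset.prod_cons, mul_add]
      exact (h φ a (hs a (Multiset.mem_cons_self _ _))).mul
        (ih fun r hr => hs r (Multiset.mem_cons_of_mem hr))
  have h2 : ∀ s : Finset Φ, Good dg In P (∑ φ ∈ s, dg φ * (μ φ).sum)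
      (∏ φ ∈ s, ((μ φ).map (P φ)).prod) := fun s => by
    induction s using Finset.induction_on with
    | empty => simpa using good_one
    | insert a s ha ih =>
      rw [sum_insert ha, prod_insert ha]
      exact (h1 a _ (hμ a)).mul ih
  exact h2 univ

theorem sum_le_wm (hd : ∀ φ, 0 < dg φ) (μ : Φ → Multiset ℕ) (φ : Φ) : (μ φ).sum ≤ wm dg μ :=
  (Nat.le_mul_of_pos_left _ (hd φ)).trans
    (single_le_sum (f := fun φ => dg φ * (μ φ).sum) (fun _ _ => Nat.zero_le _) (mem_univ φ))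

theorem par_good [DecidableEq Φ] {N : ℕ} {Λ : Φ → Finset ℕ}
    (hL : ∀ φ, ¬ In φ → Λ φ = range N) {μ : Φ → Multiset ℕ}
    (hμ : μ ∈ Fintype.piFinset fun φ => Par (wtS (Λ φ))) : MonOn In μ ∧ wm dg μ = wt dg Λ := by
  have h := fun φ => mem_Par.1 (Fintype.mem_piFinset.1 hμ φ)
  refine ⟨fun φ => ⟨(h φ).2, fun hn => ?_⟩, sum_congr rfl fun φ _ => by rw [(h φ).1]⟩
  have h1 := (h φ).1
  rw [hL φ hn, wtS_range] at h1
  refine Multiset.eq_zero_of_forall_notMem fun r hr => ?_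
  have h2 := (h φ).2 r hr
  have h3 := Multiset.single_le_sum (fun _ _ => Nat.zero_le _) _ hr
  omega

end alg

theorem bas (hF : FOCKStmt.{u}) (hO : OSIStmt.{u}) (hM : MONStmt.{u}) (hT : MORTHStmt.{u})
    (hP : PIMStmt.{u}) (hQ : PIPStmt.{u}) (hL : LABStmt.{u}) (hS : SYSStmt.{u})
    (hI : IRRStmt.{u}) : BASStmt.{u} := by
  intro F _ _ _ C n hn Cs hCs
  have fk := hF F _ C.H
  obtain ⟨T, hT1, hT2, -, hT4, -, -⟩ := hP F _ C.H C.p C.hp C.hpF
  obtain ⟨q1, -, q3⟩ := hQ F C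
  have lab := hL F C
  obtain ⟨s1, -, -⟩ := hS F C
  have irr := hI F C n hn
  obtain ⟨m1, -⟩ := hM C.H.A C.Φ C.N C.pp
  set y : C.Φ → ℕ → C.H.A := fun φ k => C.H.pi C.p (C.pp φ k) with hy
  obtain ⟨-, m2⟩ := hM C.H.A C.Φ C.N y
  let E : C.H.A →ₗ[ℂ] (GL (Fin n) F → ℂ) := (LinearMap.proj n).comp C.H.ev
  have hE : ∀ x, E x = C.H.ev x n := fun _ => rfl
  have Tmon : ∀ μ, T (mon C.pp μ) = mon y μ := fun μ => by
    rw [map_mon]
    simp only [hT1]
    rfl
  have TsL : ∀ Λ, T (sL C.N C.pp Λ) = sL C.N y Λ := fun Λ => by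
    rw [m1, (hM C.H.A C.Φ C.N y).1, map_sum]
    simp only [map_smul, Tmon]
  have hreg : ∀ Λ, pRegularPart C.p (C.sC Λ n) = E (T (sL C.N C.pp Λ)) := fun Λ => by
    rw [hE, hT1, hT2]
    rfl
  have sys : C.H.Sys C.dg C.Reg n y 0 1 :=
    ⟨lab.dg_pos, fun φ k _ hk _ => hT4 _ _ (s1 φ k hk), fk.hg_one,
      fun φ k _ hk _ => fk.D_lt _ fk.hg_one (Nat.mul_pos (lab.dg_pos φ) hk)⟩
  have orth := hT F _ C.H C.Φ C.dg C.Reg n y 0 1 0 1 _ sys sys (q3 n)
  set Ms : Set (C.Φ → Multiset ℕ) := {μ | MonOn C.Reg μ ∧ wm C.dg μ = n} with hMs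
  have ind1 : LinearIndepOn ℂ (fun μ => E (T (mon C.pp μ))) Ms := by
    have key0 : ∀ μ ∈ Ms, ∀ μ' ∈ Ms, classInner (E (T (mon C.pp μ))) (E (T (mon C.pp μ'))) =
        C.H.ip (0 + wm C.dg μ) (1 * mon y μ) (1 * mon y μ') := fun μ hμ μ' hμ' => by
      rw [zero_add, one_mul, one_mul, hμ.2, Tmon, Tmon]
      rfl
    have key := fun μ (hμ : μ ∈ Ms) μ' (hμ' : μ' ∈ Ms) =>
      (key0 μ hμ μ' hμ').trans (orth μ μ' hμ.1 hμ'.1 hμ.2.le hμ'.2.le).2
    refine indep_of_orth _ _ (fun μ hμ μ' hμ' hne => by rw [key μ hμ μ' hμ', if_neg hne])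
      fun μ hμ => ?_
    rw [key μ hμ μ hμ, if_pos rfl, fk.ip_one, one_mul]
    refine prod_ne_zero_iff.2 fun φ _ => mul_ne_zero (Multiset.prod_ne_zero fun h0 => ?_)
      (prod_ne_zero_iff.2 fun r _ => Nat.cast_ne_zero.2 (Nat.factorial_ne_zero _))
    obtain ⟨k, hk, e⟩ := Multiset.mem_map.1 h0
    exact div_ne_zero (Nat.cast_ne_zero.2 ((hμ.1 φ).1 k hk).ne')
      (Nat.cast_ne_zero.2 (pow_ne_zero _ C.hp.ne_zero)) e
  set Bs : Set C.Lb := {Λ | C.IsLab n Λ ∧ C.Bas Λ} with hBs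
  have ind2 : LinearIndepOn ℂ (fun Λ => sL C.N C.pp Λ) Bs := by
    refine LinearIndepOn.of_comp E (indep_of_orth _ _ (fun Λ hΛ Λ' hΛ' hne => ?_) fun Λ hΛ => ?_)
    · exact classInner_irr_of_ne (irr Λ hΛ.1).2.1 (irr Λ' hΛ'.1).2.1
        fun e => hne ((irr Λ hΛ.1).2.2 Λ' hΛ'.1 e)
    · exact (classInner_irr_self (irr Λ hΛ.1).2.1).trans_ne one_ne_zero
  have ind3 : LinearIndepOn ℂ (fun Λ => pRegularPart C.p (C.sC Λ n)) Bs := by
    have hle : Submodule.span ℂ (Set.range fun Λ : Bs => sL C.N C.pp Λ) ≤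
        Submodule.span ℂ (mon C.pp '' Ms) := by
      rw [Submodule.span_le]
      rintro _ ⟨⟨Λ, hΛ⟩, rfl⟩
      change sL C.N C.pp Λ ∈ Submodule.span ℂ (mon C.pp '' Ms)
      rw [m1]
      refine Submodule.sum_mem _ fun μ hμ => Submodule.smul_mem _ _ (Submodule.subset_span ?_)
      have := par_good (dg := C.dg) (In := C.Reg) hΛ.2 hμ
      exact ⟨μ, ⟨this.1, this.2.trans hΛ.1.2⟩, rfl⟩
    have hd : Disjoint (Submodule.span ℂ (Set.range fun Λ : Bs => sL C.N C.pp Λ))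
        (LinearMap.ker (E.comp T.toLinearMap)) := by
      rw [LinearMap.disjoint_ker]
      intro x hx h0
      obtain ⟨l, hl, rfl⟩ := (Finsupp.mem_span_image_iff_linearCombination ℂ).1 (hle hx)
      rw [Finsupp.apply_linearCombination] at h0
      rw [linearIndepOn_iff.1 ind1 l hl h0, map_zero]
    have := LinearIndependent.map ind2 hd
    simp only [hreg]
    exact this
  refine ⟨ind3.mono fun Λ h => ⟨h.1, h.2.1⟩, le_antisymm (Submodule.span_mono ?_) ?_⟩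
  · rintro _ ⟨Λ, h, rfl⟩
    exact ⟨⟨_, (irr Λ h.1).2.1⟩, ⟨Λ, h.2.2, h.1, rfl⟩, rfl⟩
  -- spanning by all basic labels
  have gd : ∀ φ k, 0 < k → Good C.dg C.Reg y (C.dg φ * k) (y φ k) := fun φ k hk => by
    obtain ⟨d, hd⟩ := lab.dg_lp φ
    have e : C.dg φ * k = C.dg (C.lp φ) * (d * k) := by rw [hd, mul_assoc]
    have hd0 : 0 < d * k := Nat.pos_of_ne_zero fun h0 => by
      rw [h0, mul_zero] at e
      exact (Nat.mul_pos (lab.dg_pos φ) hk).ne' e
    have := q1 φ k (d * k) hk e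
    change y φ k = _ • y (C.lp φ) (d * k) at this
    rw [this, e]
    exact good_single (lab.reg_lp φ) hd0 _
  have sp1 : ∀ ν ∈ Ms, E (mon y ν) ∈
      Submodule.span ℂ ((fun Λ => pRegularPart C.p (C.sC Λ n)) '' Bs) := fun ν hν => by
    rw [m2 ν fun φ => ⟨((sum_le_wm lab.dg_pos ν φ).trans (hν.2.le.trans hn)).trans
      (Nat.le_mul_of_pos_left _ (Nat.succ_pos _)), (hν.1 φ).1⟩, map_sum]
    refine Submodule.sum_mem _ fun Λ hΛ => ?_
    rw [map_smul]
    refine Submodule.smul_mem _ _ (Submodule.subset_span ⟨Λ, ?_, by rw [← TsL, ← hreg]⟩)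
    have h := fun φ => mem_Lam'.1 (Fintype.mem_piFinset.1 hΛ φ)
    refine ⟨⟨fun φ => (h φ).1, ?_⟩, fun φ hφ => ?_⟩
    · rw [← hν.2]
      exact sum_congr rfl fun φ _ => by rw [(h φ).2]
    · rw [eq_range_of_wtS (T := Λ φ) (by rw [(h φ).2, (hν.1 φ).2 hφ]; rfl), (h φ).1]
  have sp2 : ∀ Λ, C.IsLab n Λ → pRegularPart C.p (C.sC Λ n) ∈
      Submodule.span ℂ ((fun Λ => pRegularPart C.p (C.sC Λ n)) '' Bs) := fun Λ hΛ => by
    rw [hreg, m1, map_sum, map_sum]
    refine Submodule.sum_mem _ fun μ hμ => ?_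
    rw [map_smul, map_smul, Tmon]
    refine Submodule.smul_mem _ _ ?_
    have h1 := par_good (dg := C.dg) (In := fun _ => True) (N := C.N) (fun _ h => absurd trivial h) hμ
    obtain ⟨c, ν, h2, h3, h4⟩ := good_mon gd μ fun φ => (h1.1 φ).1
    rw [h4, map_smul]
    exact Submodule.smul_mem _ _ (sp1 ν ⟨h2, h3.trans (h1.2.trans hΛ.2)⟩)
  rw [Submodule.span_le]
  rintro _ ⟨χ, hχ, rfl⟩
  obtain ⟨Λ, hΛC, hΛ, e⟩ := id hχ
  have h1 := sp2 Λ hΛ
  have hsplit : Bs = {Λ | C.IsLab n Λ ∧ C.Bas Λ ∧ Λ ∈ Cs} ∪ {Λ | C.IsLab n Λ ∧ C.Bas Λ ∧ Λ ∉ Cs} := by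
    ext Λ'
    simp only [hBs, Set.mem_ofPred_eq, Set.mem_union]
    tauto
  rw [hsplit, Set.image_union, Submodule.span_union, Submodule.mem_sup] at h1
  obtain ⟨a, ha, b, hb, hab⟩ := h1
  have osi := (hO _ C.p C.M C.hM _).1 hCs
  have hb' : b ∈ Submodule.span ℂ
      ((fun χ : IrrCharacter (GL (Fin n) F) => pRegularPart C.p χ.1) '' C.XC n Cs) := by
    rw [eq_sub_of_add_eq' hab, ← e]
    refine Submodule.sub_mem _ (Submodule.subset_span ⟨χ, hχ, rfl⟩) (Submodule.span_mono ?_ ha)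
    rintro _ ⟨Λ, h, rfl⟩
    exact ⟨⟨_, (irr Λ h.1).2.1⟩, ⟨Λ, h.2.2, h.1, rfl⟩, rfl⟩
  have hb0 : b = 0 := by
    refine classInner_self_eq_zero.1 (orth_span ?_ hb' hb)
    rintro _ ⟨ψ, hψ, rfl⟩ _ ⟨Λ', h', rfl⟩
    rw [inner_reg]
    refine osi ψ hψ ⟨_, (irr Λ' h'.1).2.1⟩ ?_
    rintro ⟨Λ'', h1, h2, h3⟩
    exact h'.2.2 ((irr Λ' h'.1).2.2 Λ'' h2 h3 ▸ h1)
  rw [hb0, add_zero] at hab
  change pRegularPart C.p χ.1 ∈ _
  rw [e, ← hab]
  exact ha

end Cfsg.Agent.H81.GbBas
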