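import Mathlib
import Cfsg.Agent.H8.Residual
import Cfsg.Agent.H3.Cores
import Cfsg.Agent.H53.PSolv
import Cfsg.Agent.H20.PPart
import Cfsg.Prelude.Def_Local
import Cfsg.Prelude.Def_Transfer

/-! Glauberman's characterization of the Suzuki groups: the local group theory. -/

set_option autoImplicit false

namespace Cfsg.Agent.H81.Gz

open Cfsg Subgroup

variable {G : Type*} [Group G] [Finite G] {p : ℕ} [hp : Fact p.Prime]

/-- Centralizers of nontrivial `p`-elements have normal `p`-complements. -/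
def NP (p : ℕ) (G : Type*) [Group G] : Prop :=
  ∀ x : G, x ≠ 1 → (∃ k : ℕ, orderOf x = p ^ k) → HasNormalPComplement p (centralizer ({x} : Set G))

theorem coprime_of_not_dvd {n : ℕ} (h : ¬ p ∣ n) : n.Coprime p :=
  ((Nat.Prime.coprime_iff_not_dvd hp.out).2 h).symm

theorem not_dvd_of_coprime {n : ℕ} (h : n.Coprime p) : ¬ p ∣ n :=
  (Nat.Prime.coprime_iff_not_dvd hp.out).1 h.symm

theorem exists_conj_le (P : Sylow p G) {R : Subgroup G} (hR : IsPGroup p R) :
    ∃ g : G, ∀ r ∈ R, g * r * g⁻¹ ∈ (P : Subgroup G) := by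
  obtain ⟨Q, hQ⟩ := hR.exists_le_sylow
  obtain ⟨g, hg⟩ := MulAction.exists_smul_eq G Q P
  refine ⟨g, fun r hr => ?_⟩
  rw [← hg, Sylow.coe_subgroup_smul]
  exact ⟨r, hQ hr, rfl⟩

theorem exists_conj_mem (P : Sylow p G) {u : G} (hu : ∃ k : ℕ, orderOf u = p ^ k) :
    ∃ g : G, g * u * g⁻¹ ∈ (P : Subgroup G) := by
  obtain ⟨g, hg⟩ := exists_conj_le P (H20.isPGroup_zpowers hu)
  exact ⟨g, hg u (mem_zpowers u)⟩

theorem exists_conj_mem_in (P : Sylow p G) {C : Subgroup G} (hP : (P : Subgroup G) ≤ C) {u : G}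
    (huC : u ∈ C) (hu : ∃ k : ℕ, orderOf u = p ^ k) :
    ∃ c ∈ C, c * u * c⁻¹ ∈ (P : Subgroup G) := by
  obtain ⟨g, hg⟩ := exists_conj_mem (P.subtype hP) (u := ⟨u, huC⟩) (by
    obtain ⟨k, hk⟩ := hu
    exact ⟨k, by rw [← hk, ← Subgroup.orderOf_coe]⟩)
  rw [Sylow.coe_subtype, mem_subgroupOf] at hg
  exact ⟨g, g.2, hg⟩

theorem pElt_of_pow {a : G} (ha : a ^ p = 1) : ∃ k : ℕ, orderOf a = p ^ k := by
  rcases (Nat.dvd_prime hp.out).1 (orderOf_dvd_of_pow_eq_one ha) with h | h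
  · exact ⟨0, by simpa using h⟩
  · exact ⟨1, by simpa using h⟩

theorem order_of_pow {a : G} (ha : a ^ p = 1) (h1 : a ≠ 1) : orderOf a = p :=
  orderOf_eq_prime ha h1

theorem pElt_conj {a b : G} (h : IsConj a b) (ha : ∃ k : ℕ, orderOf a = p ^ k) :
    ∃ k : ℕ, orderOf b = p ^ k := by
  obtain ⟨k, hk⟩ := ha
  obtain ⟨c, rfl⟩ := isConj_iff.1 h
  refine ⟨k, ?_⟩
  rw [← hk]
  exact (MulAut.conj c).orderOf_eq a

theorem np_of_order (P : Sylow p G)
    (hb : ∀ x ∈ (P : Subgroup G), orderOf x = p → HasNormalPComplement p (centralizer ({x} : Set G))) :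
    NP p G := by
  intro x hx1 ⟨k, hk⟩
  obtain ⟨g, hg⟩ := exists_conj_mem P ⟨k, hk⟩
  have hk0 : k ≠ 0 := by
    rintro rfl
    exact hx1 (orderOf_eq_one_iff.1 (by simpa using hk))
  set y := (g * x * g⁻¹) ^ (p ^ (k - 1)) with hy
  have hyP : y ∈ (P : Subgroup G) := pow_mem hg _
  have ho : orderOf (g * x * g⁻¹) = p ^ k := by
    rw [← hk]; exact (MulAut.conj g).orderOf_eq x
  have hyo : orderOf y = p := by
    rw [hy, orderOf_pow' _ (pow_ne_zero _ hp.out.ne_zero), ho,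
      Nat.gcd_eq_right (pow_dvd_pow p (Nat.sub_le k 1)), Nat.pow_div (Nat.sub_le k 1) hp.out.pos]
    rw [show k - (k - 1) = 1 by omega, pow_one]
  have h1 := hb y hyP hyo
  let f : centralizer ({x} : Set G) →* centralizer ({y} : Set G) :=
    { toFun := fun c => ⟨g * c * g⁻¹, by
        rw [mem_centralizer_singleton_iff]
        have hc : (c : G) * x = x * c := mem_centralizer_singleton_iff.1 c.2
        have h2 : Commute (g * c * g⁻¹) (g * x * g⁻¹) := by
          show _ = _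
          calc g * c * g⁻¹ * (g * x * g⁻¹) = g * (c * x) * g⁻¹ := by group
            _ = g * (x * c) * g⁻¹ := by rw [hc]
            _ = _ := by group
        exact (h2.pow_right _).eq⟩
      map_one' := by ext; simp
      map_mul' := fun a b => by ext; simp only [Subgroup.coe_mul]; group }
  refine H8.HasNormalPComplement.of_injective h1 f fun a b hab => ?_
  have h3 : g * (a : G) * g⁻¹ = g * b * g⁻¹ := congrArg Subtype.val hab
  ext
  simpa using h3

theorem NP.subgroup (h : NP p G) (L : Subgroup G) : NP p L := by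
  intro x hx1 ⟨k, hk⟩
  have h1 := h (x : G) (fun e => hx1 (Subtype.ext e)) ⟨k, by rw [← hk, Subgroup.orderOf_coe]⟩
  let f : centralizer ({x} : Set L) →* centralizer ({(x : G)} : Set G) :=
    { toFun := fun c => ⟨((c : L) : G), by
        rw [mem_centralizer_singleton_iff]
        exact congrArg Subtype.val (mem_centralizer_singleton_iff.1 c.2)⟩
      map_one' := rfl
      map_mul' := fun a b => rfl }
  refine H8.HasNormalPComplement.of_injective h1 f fun a b hab => ?_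
  have h3 : ((a : L) : G) = ((b : L) : G) :=
    congrArg (fun z : centralizer ({(x : G)} : Set G) => (z : G)) hab
  exact Subtype.ext (Subtype.ext h3)

theorem core_eq_of_npc (h : HasNormalPComplement p G) : pPrimeCore p G = pResidual p G := by
  apply le_antisymm
  · intro x hx
    apply H8.mem_pResidual_of_coprime
    have h1 := orderOf_dvd_natCard (⟨x, hx⟩ : pPrimeCore p G)
    rw [Subgroup.orderOf_mk] at h1
    exact Nat.Coprime.coprime_dvd_left h1 (H3.pPrimeCore_coprime p G)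
  · exact H3.le_pPrimeCore (H8.hasNormalPComplement_iff_coprime.1 h)

theorem NP.index_core (h : NP p G) {x : G} (hx1 : x ≠ 1) (hx : ∃ k : ℕ, orderOf x = p ^ k) :
    ∃ k : ℕ, (pPrimeCore p (centralizer ({x} : Set G))).index = p ^ k := by
  rw [core_eq_of_npc (h x hx1 hx)]
  exact H8.exists_index_pResidual_eq p

theorem NP.mem_core (h : NP p G) {x : G} (hx1 : x ≠ 1) (hx : ∃ k : ℕ, orderOf x = p ^ k) {y : G}
    (hxy : x * y = y * x) (hy : ¬ p ∣ orderOf y) : y ∈ centralizerPPrimeCore p x := by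
  refine ⟨⟨y, mem_centralizer_singleton_iff.2 hxy.symm⟩, ?_, rfl⟩
  rw [SetLike.mem_coe, core_eq_of_npc (h x hx1 hx)]
  apply H8.mem_pResidual_of_coprime
  rw [Subgroup.orderOf_mk]
  exact coprime_of_not_dvd hy

/-- A `p'`-element normalizing a `p`-subgroup `P` and fixing `s ∈ P` fixes `C_P(s)`. -/
theorem NP.comm (h : NP p G) {P : Subgroup G} (hP : IsPGroup p P) {m : G}
    (hm : m ∈ normalizer (P : Set G)) (hmo : ¬ p ∣ orderOf m) {s : G} (hs : s ∈ P) (hs1 : s ≠ 1)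
    (hms : m * s = s * m) {t : G} (ht : t ∈ P) (hts : t * s = s * t) : m * t = t * m := by
  have h1 := h s hs1 (H20.isPElt_of_mem hP hs)
  set C := centralizer ({s} : Set G) with hC
  have hmC : m ∈ C := mem_centralizer_singleton_iff.2 hms
  have htC : t ∈ C := mem_centralizer_singleton_iff.2 hts
  have h2 := H8.HasNormalPComplement.mem_centralizer h1 (Q := P.subgroupOf C)
    (hP.comap_of_injective C.subtype C.subtype_injective) (g := ⟨m, hmC⟩) (by
      rw [mem_normalizer_iff]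
      intro y
      simp only [mem_subgroupOf, Subgroup.coe_mul, Subgroup.coe_inv]
      exact mem_normalizer_iff.1 hm y) (by
      rw [Subgroup.orderOf_mk]; exact coprime_of_not_dvd hmo)
  have h3 := mem_centralizer_iff.1 h2 ⟨t, htC⟩ (mem_subgroupOf.2 ht)
  exact (congrArg Subtype.val h3).symm

theorem mem_sylow_of_norm (P : Sylow p G) {n : G} (hn : n ∈ normalizer ((P : Subgroup G) : Set G))
    (ho : ∃ k : ℕ, orderOf n = p ^ k) : n ∈ (P : Subgroup G) := by
  have h1 : IsPGroup p ↥(zpowers n ⊔ (P : Subgroup G)) :=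
    IsPGroup.to_sup_of_normal_right' (H20.isPGroup_zpowers ho) P.2 (by
      rw [zpowers_le]; exact hn)
  have h2 := P.3 h1 le_sup_right
  rw [← h2]
  exact mem_sup_left (mem_zpowers n)

/-- An element of `N(P)` is a `p'`-element of `N(P)` times an element of `P`. -/
theorem exists_split (P : Sylow p G) {n : G} (hn : n ∈ normalizer ((P : Subgroup G) : Set G)) :
    ∃ m ∈ zpowers n, ¬ p ∣ orderOf m ∧ ∃ s ∈ (P : Subgroup G), n = m * s := by
  obtain ⟨x, hx⟩ := H20.exists_pPart hp.out n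
  have hxz := H20.pPart_mem_zpowers hp.out hx
  obtain ⟨y, hxy, hc, hxo, hyo⟩ := hx
  have hy : y = x⁻¹ * n := by rw [← hxy]; group
  refine ⟨y, ?_, hyo, x, mem_sylow_of_norm P (zpowers_le.2 hn hxz) hxo, ?_⟩
  · rw [hy]; exact mul_mem (inv_mem hxz) (mem_zpowers n)
  · rw [← hxy, hc.eq]

/-- Burnside's fusion lemma with a `p'`-element. -/
theorem burnside (P : Sylow p G) {a b : G} (ha : ∀ s ∈ (P : Subgroup G), a * s = s * a)
    (hb : ∀ s ∈ (P : Subgroup G), b * s = s * b) (h : IsConj a b) :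
    ∃ m ∈ normalizer ((P : Subgroup G) : Set G), ¬ p ∣ orderOf m ∧ m * a * m⁻¹ = b := by
  obtain ⟨c, hc⟩ := isConj_iff.1 h
  have ha' : a ∈ centralizer ((P : Subgroup G) : Set G) :=
    mem_centralizer_iff.2 fun s hs => (ha s hs).symm
  have hb' : c⁻¹⁻¹ * a * c⁻¹ ∈ centralizer ((P : Subgroup G) : Set G) := by
    rw [inv_inv, hc]
    exact mem_centralizer_iff.2 fun s hs => (hb s hs).symm
  obtain ⟨n, hn, hn'⟩ := P.conj_eq_normalizer_conj_of_mem_centralizer a c⁻¹ ha' hb'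
  rw [inv_inv, hc] at hn'
  obtain ⟨m, hm, hmo, s, hs, hms⟩ := exists_split P (inv_mem hn)
  refine ⟨m, zpowers_le.2 (inv_mem hn) hm, hmo, ?_⟩
  have h2 : n = s⁻¹ * m⁻¹ := by rw [← inv_inv n, hms]; group
  rw [hn', hms, h2]
  calc m * a * m⁻¹ = m * (a * s) * s⁻¹ * m⁻¹ := by group
    _ = m * (s * a) * s⁻¹ * m⁻¹ := by rw [ha s hs]
    _ = _ := by group

/-- The hypotheses that pass to the simple group. -/
structure St (P : Sylow p G) (A : Subgroup G) : Prop where
  le : A ≤ P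
  cen : ∀ a ∈ A, ∀ s ∈ (P : Subgroup G), a * s = s * a
  exp : ∀ a ∈ A, a ^ p = 1
  sc : ∀ a ∈ A, ∀ g : G, g * a * g⁻¹ ∈ (P : Subgroup G) → g * a * g⁻¹ ∈ A
  np : NP p G
  ps : ∀ x y : G, orderOf x = p → orderOf y = p → IsPSolvable p (closure ({x, y} : Set G))

namespace St

variable {P : Sylow p G} {A : Subgroup G}

theorem comm (h : St P A) {a b : G} (ha : a ∈ A) (hb : b ∈ A) : a * b = b * a :=
  h.cen a ha b (h.le hb)

theorem mem_of_conj (h : St P A) {a d : G} (ha : a ∈ A) (had : IsConj a d)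
    (hd : d ∈ (P : Subgroup G)) : d ∈ A := by
  obtain ⟨c, rfl⟩ := isConj_iff.1 had
  exact h.sc a ha c hd

theorem pElt (h : St P A) {a : G} (ha : a ∈ A) : ∃ k : ℕ, orderOf a = p ^ k :=
  pElt_of_pow (h.exp a ha)

theorem cen_of_conj (h : St P A) {a d : G} (ha : a ∈ A) (had : IsConj a d) {R : Subgroup G}
    (hR : IsPGroup p R) (hd : d ∈ R) {r : G} (hr : r ∈ R) : d * r = r * d := by
  obtain ⟨g, hg⟩ := exists_conj_le P hR
  have h1 : g * d * g⁻¹ ∈ A :=
    h.mem_of_conj ha (had.trans (isConj_iff.2 ⟨g, rfl⟩)) (hg d hd)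
  have h2 := h.cen _ h1 _ (hg r hr)
  calc d * r = g⁻¹ * (g * d * g⁻¹ * (g * r * g⁻¹)) * g := by group
    _ = g⁻¹ * (g * r * g⁻¹ * (g * d * g⁻¹)) * g := by rw [h2]
    _ = r * d := by group

end St

/-- In a `p`-solvable group, an element that is central in every `p`-subgroup containing one of its
conjugates lies in `O_{p',p}`. -/
theorem mem_pCore_quot {H : Type*} [Group H] [Finite H] (hH : IsPSolvable p H) {d : H}
    (hdo : ∃ k : ℕ, orderOf d = p ^ k)
    (hd : ∀ (g : H) (Q : Sylow p H), g * d * g⁻¹ ∈ (Q : Subgroup H) →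
      ∀ r ∈ (Q : Subgroup H), g * d * g⁻¹ * r = r * (g * d * g⁻¹)) :
    (QuotientGroup.mk' (pPrimeCore p H) d) ∈ pCore p (H ⧸ pPrimeCore p H) ∧
      (IsPGroup p (H ⧸ pPrimeCore p H) →
        (QuotientGroup.mk' (pPrimeCore p H) d) ∈ center (H ⧸ pPrimeCore p H)) := by
  set π := QuotientGroup.mk' (pPrimeCore p H) with hπ
  have hs : Function.Surjective π := QuotientGroup.mk'_surjective _
  obtain ⟨Q⟩ : Nonempty (Sylow p H) := inferInstance
  obtain ⟨g, hg⟩ := exists_conj_mem Q hdo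
  have hc : ∀ r ∈ (Q.mapSurjective hs : Subgroup (H ⧸ pPrimeCore p H)),
      π (g * d * g⁻¹) * r = r * π (g * d * g⁻¹) := by
    intro r hr
    rw [Sylow.coe_mapSurjective] at hr
    obtain ⟨r, hr, rfl⟩ := hr
    rw [← map_mul, ← map_mul, hd g Q hg r hr]
  have hback : ∀ N : Subgroup (H ⧸ pPrimeCore p H), N.Normal → π (g * d * g⁻¹) ∈ N → π d ∈ N := by
    intro N hN h1
    have h2 := hN.conj_mem _ h1 (π g⁻¹)
    rwa [← map_inv, ← map_mul, ← map_mul, show g⁻¹ * (g * d * g⁻¹) * g⁻¹⁻¹ = d by group] at h2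
  constructor
  · apply hback _ inferInstance
    apply H53.centralizer_pCore_le (H53.isPSolvable_quotient hH _)
      (H3.pPrimeCore_quotient_pPrimeCore p H)
    rw [mem_centralizer_iff]
    intro r hr
    exact (hc r (H3.pCore_le_sylow _ hr)).symm
  · intro hP
    apply hback _ inferInstance
    rw [mem_center_iff]
    intro r
    have h3 : (Q.mapSurjective hs : Subgroup (H ⧸ pPrimeCore p H)) = ⊤ :=
      ((Q.mapSurjective hs).3 (hP.to_subgroup ⊤) le_top).symm
    exact (hc r (by rw [h3]; trivial)).symm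

theorem pair_core {H : Type*} [Group H] [Finite H] (hH : IsPSolvable p H) {x y : H}
    (hgen : closure ({x, y} : Set H) = ⊤)
    (hxo : ∃ k : ℕ, orderOf x = p ^ k) (hyo : ∃ k : ℕ, orderOf y = p ^ k)
    (hx : ∀ (g : H) (Q : Sylow p H), g * x * g⁻¹ ∈ (Q : Subgroup H) →
      ∀ r ∈ (Q : Subgroup H), g * x * g⁻¹ * r = r * (g * x * g⁻¹))
    (hy : ∀ (g : H) (Q : Sylow p H), g * y * g⁻¹ ∈ (Q : Subgroup H) →
      ∀ r ∈ (Q : Subgroup H), g * y * g⁻¹ * r = r * (g * y * g⁻¹)) :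
    ∃ y1 : H, IsConj y y1 ∧ x * y1 = y1 * x ∧
      ∀ j : ℕ, ∃ w, IsPPart p (x * y ^ j) w ∧ IsConj w (x * y1 ^ j) := by
  set π := QuotientGroup.mk' (pPrimeCore p H) with hπ
  have hs : Function.Surjective π := QuotientGroup.mk'_surjective _
  obtain ⟨hx1, hx2⟩ := mem_pCore_quot hH hxo hx
  obtain ⟨hy1, hy2⟩ := mem_pCore_quot hH hyo hy
  have htop : ∀ N : Subgroup (H ⧸ pPrimeCore p H), π x ∈ N → π y ∈ N → N = ⊤ := by
    intro N h1 h2
    have h3 : closure ({x, y} : Set H) ≤ N.comap π := by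
      rw [closure_le]
      rintro z (rfl | rfl)
      · exact h1
      · exact h2
    rw [hgen] at h3
    rw [eq_top_iff]
    intro z _
    obtain ⟨z, rfl⟩ := hs z
    exact h3 (mem_top z)
  have hP : IsPGroup p (H ⧸ pPrimeCore p H) := by
    have h1 := H3.pCore_isPGroup p (H ⧸ pPrimeCore p H)
    rw [htop _ hx1 hy1] at h1
    exact h1.of_surjective (⊤ : Subgroup _).subtype fun z => ⟨⟨z, trivial⟩, rfl⟩
  have hZ := htop _ (hx2 hP) (hy2 hP)
  have hconj : ∀ g z : H, π (g * z * g⁻¹) = π z := by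
    intro g z
    have h1 : π g ∈ center (H ⧸ pPrimeCore p H) := by rw [hZ]; trivial
    rw [map_mul, map_mul, map_inv, ← mem_center_iff.1 h1 (π z)]
    group
  obtain ⟨Q, hQ⟩ := (H20.isPGroup_zpowers hxo).exists_le_sylow
  have hxQ : x ∈ (Q : Subgroup H) := hQ (mem_zpowers x)
  obtain ⟨g, hg⟩ := exists_conj_mem Q hyo
  have hinj : ∀ a ∈ (Q : Subgroup H), ∀ b ∈ (Q : Subgroup H), π a = π b → a = b := by
    intro a ha b hb hab
    have h1 : a⁻¹ * b ∈ pPrimeCore p H := by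
      rw [← QuotientGroup.eq]; exact hab
    have h2 : a⁻¹ * b = 1 := H8.eq_one_of_mem_of_coprime Q.2 (mul_mem (inv_mem ha) hb)
      (Nat.Coprime.coprime_dvd_left (by
        have := orderOf_dvd_natCard (⟨_, h1⟩ : pPrimeCore p H)
        rwa [Subgroup.orderOf_mk] at this) (H3.pPrimeCore_coprime p H))
    exact inv_mul_eq_one.1 h2
  refine ⟨g * y * g⁻¹, isConj_iff.2 ⟨g, rfl⟩, (hy g Q hg x hxQ).symm, fun j => ?_⟩
  obtain ⟨w, hw⟩ := H20.exists_pPart hp.out (x * y ^ j)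
  refine ⟨w, hw, ?_⟩
  obtain ⟨v, hwv, -, hwo, hvo⟩ := hw
  obtain ⟨k, hk⟩ := exists_conj_mem Q hwo
  have hv : π v = 1 := H8.eq_one_of_coprime_of_isPGroup hP
    (Nat.Coprime.coprime_dvd_left (orderOf_map_dvd π v) (coprime_of_not_dvd hvo))
  refine isConj_iff.2 ⟨k, hinj _ hk _ (mul_mem hxQ (pow_mem hg j)) ?_⟩
  rw [hconj, map_mul, map_pow, hconj, ← map_pow, ← map_mul, ← hwv, map_mul, hv, mul_one]

namespace St

variable {P : Sylow p G} {A : Subgroup G}

/-- The pair lemma. -/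
theorem pair (h : St P A) {x b y : G} (hx : x ∈ A) (hx1 : x ≠ 1) (hb : b ∈ A) (hb1 : b ≠ 1)
    (hy : IsConj b y) : ∃ y' ∈ A, IsConj b y' ∧
      ∀ j : ℕ, ∃ w, IsPPart p (x * y ^ j) w ∧ IsConj w (x * y' ^ j) := by
  have hxo : orderOf x = p := order_of_pow (h.exp x hx) hx1
  have hyo : orderOf y = p := by
    obtain ⟨c, rfl⟩ := isConj_iff.1 hy
    rw [← order_of_pow (h.exp b hb) hb1]
    exact (MulAut.conj c).orderOf_eq b
  set H := closure ({x, y} : Set G) with hH
  have hxH : x ∈ H := subset_closure (by simp)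
  have hyH : y ∈ H := subset_closure (by simp)
  have key : ∀ {a : G} (d : H), a ∈ A → IsConj a (d : G) → ∀ (g : H) (Q : Sylow p H),
      g * d * g⁻¹ ∈ (Q : Subgroup H) → ∀ r ∈ (Q : Subgroup H), g * d * g⁻¹ * r = r * (g * d * g⁻¹) := by
    intro a d ha had g Q hg r hr
    apply Subtype.ext
    exact h.cen_of_conj ha (had.trans (isConj_iff.2 ⟨(g : G), rfl⟩))
      (R := (Q : Subgroup H).map H.subtype) (Q.2.map _) ⟨_, hg, rfl⟩ ⟨_, hr, rfl⟩
  obtain ⟨y1, hy1, hc, hj⟩ := pair_core (h.ps x y hxo hyo) (x := ⟨x, hxH⟩) (y := ⟨y, hyH⟩)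
    (by
      have h1 := closure_closure_coe_preimage (k := ({x, y} : Set G))
      rw [← h1]
      congr 1
      ext z
      simp [Subtype.ext_iff])
    ⟨1, by rw [Subgroup.orderOf_mk, hxo, pow_one]⟩ ⟨1, by rw [Subgroup.orderOf_mk, hyo, pow_one]⟩
    (key _ hx (IsConj.refl _)) (key _ hb hy)
  have hy1' : IsConj b (y1 : G) := hy.trans (H.subtype.map_isConj hy1)
  have hc' : x * y1 = y1 * x := congrArg Subtype.val hc
  obtain ⟨c, hcC, hcP⟩ := exists_conj_mem_in P (C := centralizer ({x} : Set G))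
    (fun s hs => mem_centralizer_singleton_iff.2 (h.cen x hx s hs).symm)
    (mem_centralizer_singleton_iff.2 hc'.symm) (pElt_conj hy1' (h.pElt hb))
  have h2 : IsConj b (c * y1 * c⁻¹) := hy1'.trans (isConj_iff.2 ⟨c, rfl⟩)
  refine ⟨_, h.mem_of_conj hb h2 hcP, h2, fun j => ?_⟩
  obtain ⟨w, hw, hw'⟩ := hj j
  refine ⟨w, H20.pPart_coe_iff.2 hw, (H.subtype.map_isConj hw').trans (isConj_iff.2 ⟨c, ?_⟩)⟩
  have hcx : c * x = x * c := mem_centralizer_singleton_iff.1 hcC
  rw [conj_pow]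
  calc c * (x * (y1 : G) ^ j) * c⁻¹ = (c * x) * (y1 : G) ^ j * c⁻¹ := by group
    _ = _ := by rw [hcx]; group

theorem fuse (h : St P A) {a b : G} (ha : a ∈ A) (hb : b ∈ A) (hab : IsConj a b) :
    ∃ m ∈ normalizer ((P : Subgroup G) : Set G), ¬ p ∣ orderOf m ∧ m * a * m⁻¹ = b :=
  burnside P (h.cen a ha) (h.cen b hb) hab

theorem semireg (h : St P A) {n : G} (hn : n ∈ normalizer ((P : Subgroup G) : Set G)) {a b : G}
    (ha : a ∈ A) (ha1 : a ≠ 1) (hb : b ∈ A) (hna : n * a = a * n) : n * b = b * n := by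
  obtain ⟨m, hm, hmo, s, hs, rfl⟩ := exists_split P hn
  have h1 : m * a = a * m := by
    have := h.cen a ha s hs
    calc m * a = m * (a * s) * s⁻¹ := by group
      _ = m * s * a * s⁻¹ := by rw [this]; group
      _ = a * m := by rw [hna]; group
  have h2 := h.np.comm P.2 (zpowers_le.2 hn hm) hmo (h.le ha) ha1 h1 (h.le hb) (h.comm hb ha)
  calc m * s * b = m * (s * b) := by group
    _ = m * b * s := by rw [← h.cen b hb s hs]; group
    _ = b * (m * s) := by rw [h2]; group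

theorem conj_mem (h : St P A) {n : G} (hn : n ∈ normalizer ((P : Subgroup G) : Set G)) {a : G}
    (ha : a ∈ A) : n * a * n⁻¹ ∈ A :=
  h.sc a ha n ((mem_normalizer_iff.1 hn a).1 (h.le ha))

open Classical in
/-- The `G`-class of `a` inside `A`. -/
noncomputable def cl [Fintype G] (A : Subgroup G) (a : G) : Finset G :=
  Finset.univ.filter fun b => b ∈ A ∧ IsConj a b

theorem mem_cl [Fintype G] {a b : G} : b ∈ cl A a ↔ b ∈ A ∧ IsConj a b := by
  simp only [cl, Finset.mem_filter, Finset.mem_univ, true_and]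

theorem cl_congr [Fintype G] {a b : G} (hab : IsConj a b) : cl A a = cl A b := by
  ext c
  rw [mem_cl, mem_cl]
  exact and_congr_right fun _ => ⟨fun h => hab.symm.trans h, fun h => hab.trans h⟩

theorem card_cl_le [Fintype G] (h : St P A) {a b : G} (ha : a ∈ A) (hb : b ∈ A) (hb1 : b ≠ 1) :
    (cl A a).card ≤ (cl A b).card := by
  classical
  have h1 : ∀ c : G, ∃ m, c ∈ cl A a → m ∈ normalizer ((P : Subgroup G) : Set G) ∧
      m * a * m⁻¹ = c := by
    intro c
    by_cases hc : c ∈ cl A a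
    · obtain ⟨m, hm, -, hm'⟩ := h.fuse ha (mem_cl.1 hc).1 (mem_cl.1 hc).2
      exact ⟨m, fun _ => ⟨hm, hm'⟩⟩
    · exact ⟨1, fun h => (hc h).elim⟩
  choose f hf using h1
  refine Finset.card_le_card_of_injOn (fun c => f c * b * (f c)⁻¹) (fun c hc => ?_) ?_
  · exact mem_cl.2 ⟨h.conj_mem (hf c hc).1 hb, isConj_iff.2 ⟨_, rfl⟩⟩
  · intro c hc d hd hcd
    have hcd' : f c * b * (f c)⁻¹ = f d * b * (f d)⁻¹ := hcd
    have h2 : (f d)⁻¹ * f c * b = b * ((f d)⁻¹ * f c) := by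
      calc (f d)⁻¹ * f c * b = (f d)⁻¹ * (f c * b * (f c)⁻¹) * f c := by group
        _ = _ := by rw [hcd']; group
    have h3 := h.semireg (mul_mem (inv_mem (hf d hd).1) (hf c hc).1) hb hb1 ha h2
    rw [← (hf c hc).2, ← (hf d hd).2]
    calc f c * a * (f c)⁻¹ = f d * ((f d)⁻¹ * f c * a) * (f c)⁻¹ := by group
      _ = _ := by rw [h3]; group

theorem card_cl_eq [Fintype G] (h : St P A) {a b : G} (ha : a ∈ A) (ha1 : a ≠ 1) (hb : b ∈ A)
    (hb1 : b ≠ 1) : (cl A a).card = (cl A b).card :=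
  le_antisymm (h.card_cl_le ha hb hb1) (h.card_cl_le hb ha ha1)

end St

/-- A `p'`-element normalizing `P` and moving a central element of `P` is fixed-point-free on `P`. -/
theorem NP.fpf (h : NP p G) {P : Subgroup G} (hP : IsPGroup p P) {m : G}
    (hm : m ∈ normalizer (P : Set G)) (hmo : ¬ p ∣ orderOf m) {a : G} (ha : a ∈ P)
    (hac : ∀ s ∈ P, a * s = s * a) (hma : m * a ≠ a * m) :
    MonoidHom.FixedPointFree (P.normalizerMonoidHom ⟨m, hm⟩) := by
  intro s hs
  by_contra hs1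
  have h1 : m * s * m⁻¹ = s := congrArg Subtype.val hs
  apply hma
  exact h.comm hP hm hmo s.2 (fun e => hs1 (Subtype.ext e)) (mul_inv_eq_iff_eq_mul.1 h1) ha
    (hac s s.2)

namespace St

variable {P : Sylow p G} {A : Subgroup G}

theorem abelian_of_real (h : St P A) (hp2 : p ≠ 2) {a : G} (ha : a ∈ A) (ha1 : a ≠ 1)
    (hr : IsConj a a⁻¹) : ∀ s ∈ (P : Subgroup G), ∀ t ∈ (P : Subgroup G), s * t = t * s := by
  obtain ⟨m, hm, hmo, hma⟩ := h.fuse ha (inv_mem ha) hr
  have hne : m * a ≠ a * m := by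
    intro e
    have h1 : a = a⁻¹ := by rw [← hma, e]; group
    have h2 : a ^ 2 = 1 := by rw [pow_two]; nth_rewrite 1 [h1]; group
    have h3 := orderOf_eq_prime h2 ha1
    rw [order_of_pow (h.exp a ha) ha1] at h3
    exact hp2 h3
  have hf := h.np.fpf P.2 hm hmo (h.le ha) (h.cen a ha) hne
  have hm2 : m ^ 2 * a = a * m ^ 2 := by
    have h1 : m * a⁻¹ * m⁻¹ = a := by
      rw [← conj_inv, hma, inv_inv]
    calc m ^ 2 * a = m * (m * a * m⁻¹) * m⁻¹ * m ^ 2 := by rw [pow_two]; group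
      _ = a * m ^ 2 := by rw [hma, h1]
  have hinv : Function.Involutive ((P : Subgroup G).normalizerMonoidHom ⟨m, hm⟩) := by
    intro s
    apply Subtype.ext
    have h2 := h.np.comm P.2 (pow_mem hm 2) (fun e => hmo (e.trans (orderOf_pow_dvd 2)))
      (h.le ha) ha1 hm2 s.2 (h.cen a ha s s.2).symm
    show m * (m * s * m⁻¹) * m⁻¹ = s
    calc m * (m * s * m⁻¹) * m⁻¹ = m ^ 2 * s * (m ^ 2)⁻¹ := by rw [pow_two]; group
      _ = s := by rw [h2]; group
  intro s hs t ht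
  exact congrArg Subtype.val (hf.commute_all_of_involutive hinv ⟨s, hs⟩ ⟨t, ht⟩).eq

end St

end Cfsg.Agent.H81.Gz
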