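import Mathlib
import Cfsg.Agent.H81.GzA
import Cfsg.Agent.H20.Sections
import Cfsg.Agent.S0947

/-! Glauberman's characterization of the Suzuki groups: class sums in the principal block. -/

set_option autoImplicit false

namespace Cfsg.Agent.H81.Gz

open Cfsg Subgroup

universe u

/-- The principal block as a type. -/
def PB (M : Ideal AlgInt) (G : Type u) [Group G] : Type u :=
  {χ : IrrCharacter G // χ ∈ principalBlock M G}

instance (M : Ideal AlgInt) (G : Type u) [Group G] [Finite G] : Finite (PB M G) := by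
  unfold PB; infer_instance

noncomputable instance (M : Ideal AlgInt) (G : Type u) [Group G] [Finite G] : Fintype (PB M G) :=
  Fintype.ofFinite _

variable {G : Type u} [Group G] [Fintype G] {M : Ideal AlgInt} {p : ℕ} [hp : Fact p.Prime]

theorem finsum_PB {V : Type*} [AddCommMonoid V] (f : IrrCharacter G → V) :
    ∑ᶠ χ ∈ principalBlock M G, f χ = ∑ χ : PB M G, f χ.1 := by
  rw [← finsum_eq_sum_of_fintype]
  exact (finsum_subtype_eq_finsum_cond (f := f) (· ∈ principalBlock M G)).symm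

theorem deg_ne (χ : IrrCharacter G) : χ.1 1 ≠ 0 := by
  rw [← H21.cast_deg]
  exact_mod_cast H21.deg_ne_zero χ

theorem irr_conj (χ : IrrCharacter G) {a b : G} (h : IsConj a b) : χ.1 a = χ.1 b := by
  obtain ⟨c, rfl⟩ := isConj_iff.1 h
  exact (H11.isClassFunction_of_irr χ.2 a c).symm

theorem isConj_inv' {a b : G} (h : IsConj a b) : IsConj a⁻¹ b⁻¹ := by
  obtain ⟨c, rfl⟩ := isConj_iff.1 h
  exact isConj_iff.2 ⟨c, by group⟩

variable (M)

/-- The normalised character values. -/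
noncomputable def F (g : G) : PB M G → ℂ := fun χ => χ.1.1 g / χ.1.1 1

/-- The coordinate functionals. -/
noncomputable def φ (g : G) : (PB M G → ℂ) →ₗ[ℂ] ℂ where
  toFun f := ∑ χ, χ.1.1 1 * χ.1.1 g⁻¹ * f χ
  map_add' f h := by simp [mul_add, Finset.sum_add_distrib]
  map_smul' c f := by
    simp only [Pi.smul_apply, smul_eq_mul, RingHom.id_apply, Finset.mul_sum]
    exact Finset.sum_congr rfl fun χ _ => by ring

variable {M}

theorem φ_apply (g : G) (f : PB M G → ℂ) : φ M g f = ∑ χ, χ.1.1 1 * χ.1.1 g⁻¹ * f χ := rfl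

theorem φ_F (g u : G) : φ M g (F M u) = ∑ᶠ χ ∈ principalBlock M G, χ.1 u * χ.1 g⁻¹ := by
  rw [finsum_PB, φ_apply]
  refine Finset.sum_congr rfl fun χ _ => ?_
  have := deg_ne χ.1
  unfold F
  field_simp

theorem F_conj {a b : G} (h : IsConj a b) : F M a = F M b := by
  funext χ
  simp only [F, irr_conj χ.1 h]

theorem φ_conj {a b : G} (h : IsConj a b) : φ M a = φ M b := by
  refine LinearMap.ext fun f => ?_
  simp only [φ_apply, irr_conj _ (isConj_inv' h)]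

theorem F_mul (a b : G) :
    F M a * F M b = (Nat.card G : ℂ)⁻¹ • ∑ g : G, F M (a * (g * b * g⁻¹)) := by
  funext χ
  have h1 := deg_ne χ.1
  have h2 : (Nat.card G : ℂ) ≠ 0 := by exact_mod_cast Nat.card_pos.ne'
  simp only [Pi.mul_apply, Pi.smul_apply, Finset.sum_apply, F, smul_eq_mul]
  rw [← Finset.sum_div, H20.sum_mul_conj]
  field_simp

theorem irr_pPart (hM : IsPModular p M) (h : NP p G) {u w : G} (hw : IsPPart p u w) (hw1 : w ≠ 1)
    {χ : IrrCharacter G} (hχ : χ ∈ principalBlock M G) : χ.1 u = χ.1 w := by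
  obtain ⟨y, rfl, hc, ho, hy⟩ := hw
  exact H20.principal_apply_mul hM (H20.pPart_self hM.1 ho) (h.mem_core hw1 ho hc.eq hy) hχ

theorem F_pPart (hM : IsPModular p M) (h : NP p G) {u w : G} (hw : IsPPart p u w) (hw1 : w ≠ 1) :
    F M u = F M w := by
  funext χ
  simp only [F, irr_pPart hM h hw hw1 χ.2]

theorem φ_F_orth (hM : IsPModular p M) {g u x w : G} (hx : IsPPart p g x) (hw : IsPPart p u w)
    (h : ¬ IsConj w x) : φ M g (F M u) = 0 := by
  rw [φ_F]
  exact H20.block_orth hM (H17.lamClosed_of_isPBlock hM.2.1 H21.isPBlock_principal) hw hx h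

theorem φ_F_self (hM : IsPModular p M) (h : NP p G) (P : Sylow p G) {a : G} (ha : a ∈ (P : Subgroup G))
    (ha1 : a ≠ 1) (hc : ∀ s ∈ (P : Subgroup G), a * s = s * a) :
    φ M a (F M a) = Nat.card (P : Subgroup G) := by
  have ho := H20.isPElt_of_mem P.2 ha
  have h1 := (S0947.result p M hM a ho ha1 1 (by
    rw [orderOf_one]; exact hp.out.not_dvd_one)).2 (h.index_core ha1 ho)
  have hle : (P : Subgroup G) ≤ centralizer ({a} : Set G) := fun s hs =>
    mem_centralizer_singleton_iff.2 (hc s hs).symm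
  have h2 := (P.subtype hle).card_eq_multiplicity
  rw [Sylow.coe_subtype, Nat.card_congr (subgroupOfEquivOfLe hle).toEquiv] at h2
  rw [φ_F, ← H20.finsum_norm_sq_eq, h2]
  simp only [OneMemClass.coe_one, mul_one] at h1
  rw [h1, Complex.ofReal_natCast]

open Classical in
/-- The nonidentity elements of `A`. -/
noncomputable def sh (A : Subgroup G) : Finset G := Finset.univ.filter fun a => a ∈ A ∧ a ≠ 1

theorem mem_sh {A : Subgroup G} {a : G} : a ∈ sh A ↔ a ∈ A ∧ a ≠ 1 := by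
  simp only [sh, Finset.mem_filter, Finset.mem_univ, true_and]

theorem card_sh (A : Subgroup G) : (sh A).card + 1 = Nat.card A := by
  classical
  have h1 : insert 1 (sh A) = Finset.univ.filter (· ∈ A) := by
    ext a
    simp only [Finset.mem_insert, mem_sh, Finset.mem_filter, Finset.mem_univ, true_and]
    constructor
    · rintro (rfl | h)
      exacts [A.one_mem, h.1]
    · intro h
      by_cases h1 : a = 1
      exacts [Or.inl h1, Or.inr ⟨h, h1⟩]
  rw [← Finset.card_insert_of_notMem (fun h => (mem_sh.1 h).2 rfl), h1, Nat.card_eq_fintype_card,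
    Fintype.card_subtype]

open Classical in
theorem sum_cl {A : Subgroup G} {z : G} (hz : z ∈ A) (hz1 : z ≠ 1) :
    ∑ a ∈ sh A, (if IsConj z a then ((St.cl A a).card : ℂ)⁻¹ else 0) = 1 := by
  rw [← Finset.sum_filter]
  have h1 : (sh A).filter (IsConj z) = St.cl A z := by
    ext a
    rw [Finset.mem_filter, mem_sh, St.mem_cl]
    exact ⟨fun h => ⟨h.1.1, h.2⟩, fun h => ⟨⟨h.1, fun e => hz1 (by
      have := h.2; rwa [e, isConj_one_left] at this)⟩, h.2⟩⟩
  rw [h1, Finset.sum_congr rfl (g := fun _ => ((St.cl A z).card : ℂ)⁻¹) fun a ha => by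
    rw [St.cl_congr (St.mem_cl.1 ha).2], Finset.sum_const, nsmul_eq_mul, mul_inv_cancel₀]
  exact_mod_cast (Finset.card_pos.2 ⟨z, St.mem_cl.2 ⟨hz, IsConj.refl z⟩⟩).ne'

variable (M)

/-- The projection onto the span of the `F a`, `a ∈ A#`. -/
noncomputable def Pr (P : Sylow p G) (A : Subgroup G) : (PB M G → ℂ) →ₗ[ℂ] (PB M G → ℂ) :=
  ∑ a ∈ sh A, (((St.cl A a).card : ℂ)⁻¹ * (Nat.card (P : Subgroup G) : ℂ)⁻¹) •
    (φ M a).smulRight (F M a)

/-- The complementary projection. -/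
noncomputable def Rs (P : Sylow p G) (A : Subgroup G) : (PB M G → ℂ) →ₗ[ℂ] (PB M G → ℂ) :=
  LinearMap.id - Pr M P A

variable {M}

theorem Pr_apply (P : Sylow p G) (A : Subgroup G) (f : PB M G → ℂ) : Pr M P A f =
    ∑ a ∈ sh A, (((St.cl A a).card : ℂ)⁻¹ * (Nat.card (P : Subgroup G) : ℂ)⁻¹ * φ M a f) • F M a := by
  simp only [Pr, LinearMap.sum_apply, LinearMap.smul_apply, LinearMap.smulRight_apply, smul_smul]

theorem Rs_apply (P : Sylow p G) (A : Subgroup G) (f : PB M G → ℂ) :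
    Rs M P A f = f - Pr M P A f := rfl

theorem cardP_ne (P : Sylow p G) : (Nat.card (P : Subgroup G) : ℂ) ≠ 0 := by
  exact_mod_cast Nat.card_pos.ne'

namespace St

variable {P : Sylow p G} {A : Subgroup G} (hM : IsPModular p M) (h : St P A)
include hM h

open Classical in
theorem φ_F_eq {a u w : G} (ha : a ∈ A) (ha1 : a ≠ 1) (hw : IsPPart p u w) :
    φ M a (F M u) = if IsConj w a then (Nat.card (P : Subgroup G) : ℂ) else 0 := by
  split_ifs with h1
  · rw [F_pPart hM h.np hw (fun e => ha1 (by rwa [e, isConj_one_right] at h1)), F_conj h1]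
    exact φ_F_self hM h.np P (h.le ha) ha1 (h.cen a ha)
  · exact φ_F_orth hM (H20.pPart_self hM.1 (h.pElt ha)) hw h1

theorem Pr_F {b : G} (hb : b ∈ A) (hb1 : b ≠ 1) : Pr M P A (F M b) = F M b := by
  classical
  rw [Pr_apply]
  nth_rewrite 2 [← one_smul ℂ (F M b)]
  rw [← sum_cl hb hb1, Finset.sum_smul]
  refine Finset.sum_congr rfl fun a ha => ?_
  rw [h.φ_F_eq hM (mem_sh.1 ha).1 (mem_sh.1 ha).2 (H20.pPart_self hM.1 (h.pElt hb))]
  split_ifs with h1
  · rw [F_conj h1, inv_mul_cancel_right₀ (cardP_ne P)]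
  · simp

theorem Pr_F_reg {u : G} (hu : ¬ p ∣ orderOf u) : Pr M P A (F M u) = 0 := by
  classical
  rw [Pr_apply]
  refine Finset.sum_eq_zero fun a ha => ?_
  rw [h.φ_F_eq hM (mem_sh.1 ha).1 (mem_sh.1 ha).2 (H20.pPart_one_of_not_dvd hu),
    if_neg (fun e => (mem_sh.1 ha).2 (isConj_one_right.1 e)), mul_zero, zero_smul]

theorem Pr_Pr (f : PB M G → ℂ) : Pr M P A (Pr M P A f) = Pr M P A f := by
  nth_rewrite 2 [Pr_apply]
  nth_rewrite 2 [Pr_apply]
  rw [map_sum]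
  exact Finset.sum_congr rfl fun a ha => by
    rw [map_smul, h.Pr_F hM (mem_sh.1 ha).1 (mem_sh.1 ha).2]

omit hM in
theorem pair1 {a b : G} (ha : a ∈ A) (ha1 : a ≠ 1) (hb : b ∈ A) (hb1 : b ≠ 1) (g : G) :
    ∃ y' ∈ A, IsConj b y' ∧ ∃ w, IsPPart p (a * (g * b * g⁻¹)) w ∧ IsConj w (a * y') := by
  obtain ⟨y', h1, h2, h3⟩ := h.pair ha ha1 hb hb1 (isConj_iff.2 ⟨g, rfl⟩)
  have := h3 1
  rw [pow_one, pow_one] at this
  exact ⟨y', h1, h2, this⟩

open Classical in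
theorem Rs_F_pair {a b : G} (ha : a ∈ A) (ha1 : a ≠ 1) (hb : b ∈ A) (hb1 : b ≠ 1) (g : G) :
    Rs M P A (F M (a * (g * b * g⁻¹))) =
      if p ∣ orderOf (a * (g * b * g⁻¹)) then 0 else F M (a * (g * b * g⁻¹)) := by
  split_ifs with h1
  · obtain ⟨y', h2, -, w, h3, h4⟩ := h.pair1 ha ha1 hb hb1 g
    have h5 := H20.pPart_ne_one h3 h1
    rw [F_pPart hM h.np h3 h5, F_conj h4, Rs_apply, h.Pr_F hM (mul_mem ha h2)
      (fun e => h5 (by rwa [e, isConj_one_left] at h4)), sub_self]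
  · rw [Rs_apply, h.Pr_F_reg hM h1, sub_zero]

omit hM in
theorem dvd_of_not_conj {a b : G} (ha : a ∈ A) (ha1 : a ≠ 1) (hb : b ∈ A) (hb1 : b ≠ 1)
    (hab : ¬ IsConj b a⁻¹) (g : G) : p ∣ orderOf (a * (g * b * g⁻¹)) := by
  obtain ⟨y', -, h2, w, h3, h4⟩ := h.pair1 ha ha1 hb hb1 g
  refine H20.dvd_orderOf_of_pPart_ne_one hp.out h3 ?_
  rintro rfl
  rw [isConj_one_right, mul_eq_one_iff_inv_eq] at h4
  exact hab (h4 ▸ h2)

theorem Rs_mul_zero {a b : G} (ha : a ∈ A) (ha1 : a ≠ 1) (hb : b ∈ A) (hb1 : b ≠ 1)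
    (hab : ¬ IsConj b a⁻¹) : Rs M P A (F M a * F M b) = 0 := by
  rw [F_mul, map_smul, map_sum, Finset.sum_eq_zero, smul_zero]
  intro g _
  rw [h.Rs_F_pair hM ha ha1 hb hb1, if_pos (h.dvd_of_not_conj ha ha1 hb hb1 hab g)]

theorem Pr_mul {a b : G} (ha : a ∈ A) (ha1 : a ≠ 1) (hb : b ∈ A) (hb1 : b ≠ 1)
    (hab : ¬ IsConj b a⁻¹) : Pr M P A (F M a * F M b) = F M a * F M b :=
  (sub_eq_zero.1 (h.Rs_mul_zero hM ha ha1 hb hb1 hab)).symm

end St

variable (M) in
/-- The `p`-regular part of `F z⁻¹ * F z`. -/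
noncomputable def Rg (P : Sylow p G) (A : Subgroup G) (z : G) : PB M G → ℂ :=
  Rs M P A (F M z⁻¹ * F M z)

theorem Rg_conj (P : Sylow p G) (A : Subgroup G) {a b : G} (h : IsConj a b) :
    Rg M P A a = Rg M P A b := by
  rw [Rg, Rg, F_conj h, F_conj (isConj_inv' h)]

theorem Rg_inv (P : Sylow p G) (A : Subgroup G) (a : G) : Rg M P A a⁻¹ = Rg M P A a := by
  rw [Rg, Rg, inv_inv, mul_comm]

theorem T_symm (x b z : G) : φ M z⁻¹ (F M x * F M b) = φ M x⁻¹ (F M b * F M z) := by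
  rw [φ_apply, φ_apply]
  refine Finset.sum_congr rfl fun χ _ => ?_
  simp only [Pi.mul_apply, F, inv_inv]
  ring

namespace St

variable {P : Sylow p G} {A : Subgroup G} (hM : IsPModular p M) (h : St P A)
include hM h

theorem key1 {f : PB M G → ℂ} (hf : Pr M P A f = f) {z : G} (hz : z ∈ A) (hz1 : z ≠ 1) :
    Rs M P A (f * F M z) = ((Nat.card (P : Subgroup G) : ℂ)⁻¹ * φ M z⁻¹ f) • Rg M P A z := by
  classical
  nth_rewrite 1 [← hf]
  rw [Pr_apply, Finset.sum_mul, map_sum, ← one_mul (_ * φ M z⁻¹ f),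
    ← sum_cl (inv_mem hz) (inv_ne_one.2 hz1), Finset.sum_mul, Finset.sum_smul]
  refine Finset.sum_congr rfl fun a ha => ?_
  rw [smul_mul_assoc, map_smul]
  split_ifs with h1
  · rw [← F_conj h1, ← φ_conj h1, mul_assoc]
    rfl
  · rw [h.Rs_mul_zero hM (mem_sh.1 ha).1 (mem_sh.1 ha).2 hz hz1 (fun e => h1 (by
      simpa using isConj_inv' e)), smul_zero, zero_mul, zero_smul]

theorem T_ne {x b z : G} (hz : z ∈ A) (hz1 : z ≠ 1) (e : x * b = z⁻¹) :
    φ M z⁻¹ (F M x * F M b) ≠ 0 := by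
  classical
  rw [F_mul, map_smul, map_sum, smul_eq_mul]
  refine mul_ne_zero (inv_ne_zero (by exact_mod_cast Nat.card_pos.ne')) ?_
  have h1 : ∀ g : G, ∃ n : ℕ, φ M z⁻¹ (F M (x * (g * b * g⁻¹))) = n ∧ (g = 1 → n ≠ 0) := by
    intro g
    obtain ⟨w, hw⟩ := H20.exists_pPart hp.out (x * (g * b * g⁻¹))
    rw [h.φ_F_eq hM (inv_mem hz) (inv_ne_one.2 hz1) hw]
    split_ifs with h2
    · exact ⟨_, rfl, fun _ => Nat.card_pos.ne'⟩
    · refine ⟨0, by simp, ?_⟩
      rintro rfl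
      rw [one_mul, inv_one, mul_one, e] at hw
      rw [H20.pPart_unique hp.out hw (H20.pPart_self hp.out (h.pElt (inv_mem hz)))] at h2
      exact (h2 (IsConj.refl _)).elim
  choose n hn hn1 using h1
  simp only [hn]
  rw [← Nat.cast_sum, Nat.cast_ne_zero]
  intro h2
  exact hn1 1 rfl (Finset.sum_eq_zero_iff.1 h2 1 (Finset.mem_univ _))

theorem Rg_eq {x z : G} (hx : x ∈ A) (hx1 : x ≠ 1) (hz : z ∈ A) (hz1 : z ≠ 1) (h1 : x * z ≠ 1)
    (h2 : ¬ IsConj x (x * z)) (h3 : ¬ IsConj z (x * z)) : Rg M P A x = Rg M P A z := by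
  have hb : (x * z)⁻¹ ∈ A := inv_mem (mul_mem hx hz)
  have hb1 : (x * z)⁻¹ ≠ 1 := inv_ne_one.2 h1
  have e1 := h.key1 hM (h.Pr_mul hM hx hx1 hb hb1 (fun e => h2 (by
    simpa using (isConj_inv' e).symm))) hz hz1
  have e2 := h.key1 hM (h.Pr_mul hM hb hb1 hz hz1 (by rwa [inv_inv])) hx hx1
  rw [← T_symm, mul_comm _ (F M x), ← mul_assoc, e1] at e2
  refine (smul_right_injective _ (mul_ne_zero (inv_ne_zero (cardP_ne P))
    (h.T_ne hM hz hz1 ?_)) e2).symm
  rw [h.comm hx hz]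
  rw [mul_inv_rev, ← mul_assoc, mul_inv_cancel, one_mul]

omit hM in
open Classical in
theorem exists_pair (hr : ∀ a ∈ A, a ≠ 1 → ¬ IsConj a a⁻¹) {a c : G} (ha : a ∈ A) (ha1 : a ≠ 1)
    (hc : c ∈ A) (hc1 : c ≠ 1) :
    ∃ x ∈ cl A a ∪ cl A a⁻¹, ∃ z ∈ cl A c ∪ cl A c⁻¹, ¬ IsConj x (x * z) ∧ ¬ IsConj z (x * z) := by
  classical
  by_contra hn
  push Not at hn
  have hS : ∀ {a : G}, a ∈ A → a ≠ 1 → (cl A a ∪ cl A a⁻¹).card = 2 * (cl A c).card ∧
      ∀ x ∈ cl A a ∪ cl A a⁻¹, x ∈ A ∧ x ≠ 1 := by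
    intro a ha ha1
    constructor
    · rw [Finset.card_union_of_disjoint, h.card_cl_eq ha ha1 hc hc1,
        h.card_cl_eq (inv_mem ha) (inv_ne_one.2 ha1) hc hc1, two_mul]
      rw [Finset.disjoint_left]
      intro x h1 h2
      exact hr a ha ha1 ((mem_cl.1 h1).2.trans (mem_cl.1 h2).2.symm)
    · intro x hx
      rcases Finset.mem_union.1 hx with h1 | h1
      · exact ⟨(mem_cl.1 h1).1, fun e => ha1 (by
          have := (mem_cl.1 h1).2; rwa [e, isConj_one_left] at this)⟩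
      · exact ⟨(mem_cl.1 h1).1, fun e => inv_ne_one.2 ha1 (by
          have := (mem_cl.1 h1).2; rwa [e, isConj_one_left] at this)⟩
  obtain ⟨c1, m1⟩ := hS ha ha1
  obtain ⟨c2, m2⟩ := hS hc hc1
  set S1 := cl A a ∪ cl A a⁻¹
  set S2 := cl A c ∪ cl A c⁻¹
  set e := (cl A c).card with he
  have he0 : 0 < e := Finset.card_pos.2 ⟨c, mem_cl.2 ⟨hc, IsConj.refl c⟩⟩
  have fib : ∀ {x : G} (S : Finset G), x ∈ A → x ≠ 1 → (∀ z ∈ S, z ∈ A ∧ z ≠ 1) →
      (S.filter fun z => IsConj x (x * z)).card + 1 ≤ e := by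
    intro x S hx hx1 hS
    rw [he, ← h.card_cl_eq hx hx1 hc hc1, ← Finset.card_erase_add_one (mem_cl.2 ⟨hx, IsConj.refl x⟩)]
    refine Nat.succ_le_succ (Finset.card_le_card_of_injOn (fun z => x * z) (fun z hz => ?_)
      fun z _ w _ e => mul_left_cancel e)
    have h1 := Finset.mem_filter.1 hz
    exact Finset.mem_erase.2 ⟨fun e => (hS z h1.1).2 (mul_eq_left.1 e),
      mem_cl.2 ⟨mul_mem hx (hS z h1.1).1, h1.2⟩⟩
  have k1 : ∑ x ∈ S1, ∑ z ∈ S2, (1 : ℕ) ≤ ∑ x ∈ S1, ∑ z ∈ S2,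
      ((if IsConj x (x * z) then 1 else 0) + (if IsConj z (z * x) then 1 else 0)) := by
    refine Finset.sum_le_sum fun x hx => Finset.sum_le_sum fun z hz => ?_
    by_cases h1 : IsConj x (x * z)
    · rw [if_pos h1]; omega
    · have h2 := hn x hx z hz h1
      rw [h.comm (m1 x hx).1 (m2 z hz).1] at h2
      rw [if_pos h2]; omega
  simp only [Finset.sum_add_distrib] at k1
  rw [Finset.sum_comm (s := S1) (t := S2) (f := fun x z => if IsConj z (z * x) then 1 else 0)] at k1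
  simp only [← Finset.card_filter, Finset.sum_const, smul_eq_mul, mul_one] at k1
  have k2 : ∑ x ∈ S1, (S2.filter fun z => IsConj x (x * z)).card ≤ S1.card * (e - 1) := by
    rw [← smul_eq_mul]
    refine Finset.sum_le_card_nsmul _ _ _ fun x hx => ?_
    have := fib S2 (m1 x hx).1 (m1 x hx).2 m2
    omega
  have k3 : ∑ z ∈ S2, (S1.filter fun x => IsConj z (z * x)).card ≤ S2.card * (e - 1) := by
    rw [← smul_eq_mul]
    refine Finset.sum_le_card_nsmul _ _ _ fun x hx => ?_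
    have := fib S1 (m2 x hx).1 (m2 x hx).2 m1
    omega
  have k4 := k1.trans (add_le_add k2 k3)
  rw [c1, c2] at k4
  obtain ⟨e', he'⟩ : ∃ e', e = e' + 1 := ⟨e - 1, by omega⟩
  rw [he', Nat.add_sub_cancel] at k4
  nlinarith

theorem Rg_all (hr : ∀ a ∈ A, a ≠ 1 → ¬ IsConj a a⁻¹) {a c : G} (ha : a ∈ A) (ha1 : a ≠ 1)
    (hc : c ∈ A) (hc1 : c ≠ 1) : Rg M P A a = Rg M P A c := by
  classical
  have hS : ∀ {a x : G}, a ≠ 1 → x ∈ cl A a ∪ cl A a⁻¹ →
      x ∈ A ∧ x ≠ 1 ∧ Rg M P A x = Rg M P A a := by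
    intro a x ha1 hx
    rcases Finset.mem_union.1 hx with h1 | h1
    · exact ⟨(mem_cl.1 h1).1, fun e => ha1 (by
        have := (mem_cl.1 h1).2; rwa [e, isConj_one_left] at this),
        (Rg_conj P A (mem_cl.1 h1).2).symm⟩
    · exact ⟨(mem_cl.1 h1).1, fun e => inv_ne_one.2 ha1 (by
        have := (mem_cl.1 h1).2; rwa [e, isConj_one_left] at this),
        (Rg_conj P A (mem_cl.1 h1).2).symm.trans (Rg_inv P A a)⟩
  obtain ⟨x, hx, z, hz, h1, h2⟩ := h.exists_pair hr ha ha1 hc hc1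
  obtain ⟨x1, x2, x3⟩ := hS ha1 hx
  obtain ⟨z1, z2, z3⟩ := hS hc1 hz
  rw [← x3, ← z3]
  by_cases h3 : x * z = 1
  · rw [eq_inv_of_mul_eq_one_left h3, Rg_inv]
  · exact h.Rg_eq hM x1 x2 z1 z2 h3 h1 h2

theorem φ_one_Pr (f : PB M G → ℂ) : φ M 1 (Pr M P A f) = 0 := by
  rw [Pr_apply, map_sum]
  refine Finset.sum_eq_zero fun a ha => ?_
  rw [map_smul, φ_F_orth hM (H20.pPart_self hM.1 ⟨0, by simp⟩)
    (H20.pPart_self hM.1 (h.pElt (mem_sh.1 ha).1))
    (fun e => (mem_sh.1 ha).2 (isConj_one_left.1 e)), smul_zero]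

theorem φ_one_Rg {a : G} (ha : a ∈ A) (ha1 : a ≠ 1) :
    φ M 1 (Rg M P A a) = Nat.card (P : Subgroup G) := by
  rw [Rg, Rs_apply, map_sub, h.φ_one_Pr hM, sub_zero,
    ← φ_F_self hM h.np P (h.le ha) ha1 (h.cen a ha), φ_apply, φ_apply]
  refine Finset.sum_congr rfl fun χ _ => ?_
  have := deg_ne χ.1
  simp only [Pi.mul_apply, F, inv_one]
  field_simp

/-- If no element of `A#` is real, then `A = P`. -/
theorem le_of_not_real (hk : ∀ χ : IrrCharacter G, ∀ a ∈ A, a ≠ 1 → χ.1 a = χ.1 1 → χ = H21.triv G)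
    (hA : A ≠ ⊥) (hr : ∀ a ∈ A, a ≠ 1 → ¬ IsConj a a⁻¹) : (P : Subgroup G) ≤ A := by
  classical
  obtain ⟨⟨a, ha⟩, ha1'⟩ := (ne_bot_iff_exists_ne_one).1 hA
  have ha1 : a ≠ 1 := fun e => ha1' (Subtype.ext e)
  set U : Submodule ℂ (PB M G → ℂ) := (Submodule.span ℂ {Rg M P A a}).comap (Rs M P A) with hU
  have u1 : ∀ f, Pr M P A f = f → ∀ z ∈ A, z ≠ 1 → f * F M z ∈ U := by
    intro f hf z hz hz1
    rw [hU, Submodule.mem_comap, h.key1 hM hf hz hz1, h.Rg_all hM hr hz hz1 ha ha1]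
    exact Submodule.smul_mem _ _ (Submodule.mem_span_singleton_self _)
  have u2 : ∀ f ∈ U, f * F M a ∈ U := by
    intro f hf
    obtain ⟨c, hc⟩ := Submodule.mem_span_singleton.1 (Submodule.mem_comap.1 hf)
    have e : f = Pr M P A f + c • Rg M P A a := by rw [hc, Rs_apply]; abel
    rw [e, add_mul, smul_mul_assoc]
    refine U.add_mem (u1 _ (h.Pr_Pr hM f) a ha ha1) (U.smul_mem _ ?_)
    rw [Rg, Rs_apply, sub_mul]
    refine U.sub_mem ?_ (u1 _ (h.Pr_Pr hM _) a ha ha1)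
    rw [mul_assoc, mul_comm]
    exact u1 _ (h.Pr_mul hM ha ha1 ha ha1 (hr a ha ha1)) _ (inv_mem ha) (inv_ne_one.2 ha1)
  have u3 : ∀ s : Finset (PB M G), (∏ χ ∈ s, (F M a - fun _ => F M a χ)) * F M a ∈ U := by
    intro s
    induction s using Finset.induction_on with
    | empty =>
      rw [Finset.prod_empty, one_mul, hU, Submodule.mem_comap, Rs_apply, h.Pr_F hM ha ha1, sub_self]
      exact Submodule.zero_mem _
    | insert χ s hχ ih =>
      rw [Finset.prod_insert hχ, mul_assoc, sub_mul, mul_comm (F M a)]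
      exact U.sub_mem (u2 _ ih) (U.smul_mem (F M a χ) ih)
  let t : PB M G := ⟨H21.triv G, H21.triv_mem_principal hM.2.1⟩
  have ht : ∀ g, F M g t = 1 := fun g => by simp [F, t, H21.triv_apply]
  have hκ : ∏ χ ∈ Finset.univ.erase t, (1 - F M a χ) ≠ 0 := by
    refine Finset.prod_ne_zero_iff.2 fun χ hχ e => (Finset.mem_erase.1 hχ).1 (Subtype.ext ?_)
    refine hk χ.1 a ha ha1 ?_
    have := deg_ne χ.1
    have e1 : F M a χ = 1 := (sub_eq_zero.1 e).symm
    unfold F at e1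
    field_simp at e1
    exact e1
  have hδ : (Pi.single t 1 : PB M G → ℂ) ∈ U := by
    have h1 := U.smul_mem (∏ χ ∈ Finset.univ.erase t, (1 - F M a χ))⁻¹ (u3 (Finset.univ.erase t))
    convert h1 using 1
    funext ψ
    simp only [Pi.smul_apply, Pi.mul_apply, Finset.prod_apply, Pi.sub_apply, smul_eq_mul]
    by_cases hψ : ψ = t
    · rw [hψ, Pi.single_eq_same, ht, mul_one, inv_mul_cancel₀ hκ]
    · rw [Pi.single_eq_of_ne hψ, Finset.prod_eq_zero (f := fun χ => F M a ψ - F M a χ)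
        (Finset.mem_erase.2 ⟨hψ, Finset.mem_univ _⟩) (sub_self _), zero_mul, mul_zero]
  have hφ : ∀ g : G, φ M g (Pi.single t 1) = 1 := fun g => by
    rw [φ_apply, Finset.sum_eq_single t (fun χ _ hχ => by rw [Pi.single_eq_of_ne hχ, mul_zero])
      (fun h => (h (Finset.mem_univ _)).elim), Pi.single_eq_same]
    simp [t, H21.triv_apply]
  obtain ⟨c, hc⟩ := Submodule.mem_span_singleton.1 (Submodule.mem_comap.1 hδ)
  have h1 := congrArg (φ M 1) hc
  rw [map_smul, h.φ_one_Rg hM ha ha1, Rs_apply, map_sub, h.φ_one_Pr hM, hφ, sub_zero,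
    smul_eq_mul] at h1
  have h2 := congrFun hc t
  rw [Rs_apply, Pr_apply, Pi.smul_apply, Pi.sub_apply, Pi.single_eq_same, Finset.sum_apply,
    Rg, F_mul, map_smul, map_sum, Pi.smul_apply, Finset.sum_apply] at h2
  simp only [hφ, Pi.smul_apply, ht, smul_eq_mul, mul_one,
    h.Rs_F_pair hM (inv_mem ha) (inv_ne_one.2 ha1) ha ha1] at h2
  have h3 : (Nat.card (P : Subgroup G) : ℂ) = ∑ b ∈ sh A, ((cl A b).card : ℂ)⁻¹ +
      (Nat.card G : ℂ)⁻¹ * ∑ g : G, (if p ∣ orderOf (a⁻¹ * (g * a * g⁻¹)) then 0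
        else F M (a⁻¹ * (g * a * g⁻¹))) t := by
    rw [← Finset.sum_mul] at h2
    have := cardP_ne P
    have hc' : c = (Nat.card (P : Subgroup G) : ℂ)⁻¹ := eq_inv_of_mul_eq_one_left h1
    rw [hc'] at h2
    field_simp at h2 ⊢
    linear_combination -h2
  have h4 : (Nat.card (P : Subgroup G) : ℝ) ≤ (sh A).card + 1 := by
    rw [← Complex.norm_natCast, h3]
    refine (norm_add_le _ _).trans (add_le_add ?_ ?_)
    · refine (norm_sum_le_of_le _ (n := fun _ => (1 : ℝ)) fun b hb => ?_).trans (by simp)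
      rw [norm_inv, Complex.norm_natCast]
      refine inv_le_one_of_one_le₀ ?_
      exact_mod_cast Finset.card_pos.2 ⟨b, mem_cl.2 ⟨(mem_sh.1 hb).1, IsConj.refl b⟩⟩
    · rw [norm_mul, norm_inv, Complex.norm_natCast]
      have h5 : (0 : ℝ) < Nat.card G := by exact_mod_cast Nat.card_pos
      rw [inv_mul_le_iff₀ h5]
      refine (norm_sum_le_of_le _ (n := fun _ => (1 : ℝ)) fun g _ => ?_).trans (by simp)
      split_ifs
      · simp
      · rw [ht, norm_one]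
  have h5 : Nat.card (P : Subgroup G) ≤ Nat.card A := by
    rw [← card_sh A]
    exact_mod_cast h4
  exact (eq_of_le_of_card_ge h.le h5).ge

end St

end Cfsg.Agent.H81.Gz
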