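import Mathlib
import Cfsg.Agent.H81.GzB
import Cfsg.Agent.H20.AbFrob2

/-! Glauberman's characterization of the Suzuki groups: abelian Sylow subgroups, and odd primes. -/

set_option autoImplicit false

namespace Cfsg.Agent.H81.Gz

open Cfsg Subgroup H20

universe u

variable {G : Type u} [Group G] [Fintype G] {M : Ideal AlgInt} {p : ℕ} [hp : Fact p.Prime]

theorem triv_of_apply [IsSimpleGroup G] (χ : IrrCharacter G) {g : G} (hg : g ≠ 1)
    (h : χ.1 g = χ.1 1) : χ = H21.triv G := by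
  rcases (H11.charKer_normal (H11.isClassFunction_of_irr χ.2)).eq_bot_or_eq_top with h1 | h1
  · have h2 := (H11.mem_charKer_irr_iff χ.2).2 h
    rw [h1] at h2
    exact (hg (mem_bot.1 h2)).elim
  · exact Subtype.ext (H11.irr_eq_one_of_charKer_eq_top χ.2 h1)

theorem triv_of_deg [IsSimpleGroup G] (hG : ¬ IsMulCommutative G) (χ : IrrCharacter G)
    (h : χ.1 1 = 1) : χ = H21.triv G := by
  have h1 := (H11.irr_apply_one_eq_one_iff χ.2).1 h
  rcases (inferInstance : (commutator G).Normal).eq_bot_or_eq_top with h2 | h2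
  · refine (hG ⟨⟨fun a b => ?_⟩⟩).elim
    have h3 := commutator_mem_commutator (mem_top a) (mem_top b)
    rw [← _root_.commutator_def, h2, mem_bot] at h3
    exact commutatorElement_eq_one_iff_mul_comm.1 h3
  · rw [h2, top_le_iff] at h1
    exact Subtype.ext (H11.irr_eq_one_of_charKer_eq_top χ.2 h1)

theorem res_const (χ : IrrCharacter G) {A : Subgroup G} (hA : A ≠ ⊥)
    (hc : ∀ a ∈ A, ∀ b ∈ A, a * b = b * a) {c : ℂ} (h : ∀ a ∈ A, a ≠ 1 → χ.1 a = c) :
    ∃ n : ℕ, χ.1 1 = c + Nat.card A * n := by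
  classical
  haveI := Fintype.ofFinite A
  obtain ⟨a, ha⟩ := (ne_bot_iff_exists_ne_one).1 hA
  obtain ⟨lam, -, hl⟩ := H11.exists_monoidHom_ne_one (⊥ : Subgroup A) (by
    rw [_root_.commutator_def, commutator_le]
    intro x _ y _
    exact mem_bot.2 (commutatorElement_eq_one_iff_mul_comm.2 (Subtype.ext (hc x x.2 y y.2))))
    (g := a) (fun e => ha (mem_bot.1 e))
  obtain ⟨n, hn⟩ := H11.exists_nat_classInner (H11.isCharacter_restrict (H11.irr_isCharacter χ) A)
    (H11.isCharacter_monoidHom lam)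
  have h1 := H11.card_mul_classInner (fun y : A => χ.1 y) (fun y => (lam y : ℂ))
  have h2 := sum_hom_units_eq_zero
    ((starRingEnd ℂ).toMonoidHom.comp ((Units.coeHom ℂ).comp lam)) (fun e => hl (by
      have h3 : (starRingEnd ℂ) (lam a : ℂ) = 1 := DFunLike.congr_fun e a
      apply Units.ext
      simpa using congrArg (starRingEnd ℂ) h3))
  have h3 : ∑ y : A, (starRingEnd ℂ) (lam y : ℂ) = 0 := h2
  rw [hn, Finset.sum_congr rfl (g := fun y => c * (starRingEnd ℂ) (lam y : ℂ) +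
      if y = 1 then χ.1 1 - c else 0) fun y _ => by
      split_ifs with hy
      · simp [hy]
      · simp [h y y.2 fun e => hy (Subtype.ext e)], Finset.sum_add_distrib, ← Finset.mul_sum,
    h3] at h1
  simp only [Finset.sum_ite_eq', Finset.mem_univ, if_true] at h1
  exact ⟨n, by linear_combination -h1⟩

namespace St

variable {P : Sylow p G} {A : Subgroup G}

theorem af (h : St P A) (hab : ∀ s ∈ (P : Subgroup G), ∀ t ∈ (P : Subgroup G), s * t = t * s) :
    AF P := by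
  refine ⟨fun a b => Subtype.ext (hab a a.2 b b.2), fun y hy hy1 => le_antisymm ?_ ?_⟩
  · rintro n ⟨h1, h2⟩
    obtain ⟨m, hm, hmo, s, hs, rfl⟩ := exists_split P h2
    have h3 : m * y = y * m := by
      obtain ⟨k, hk⟩ := hm
      have c : Commute (m * s) y := mem_centralizer_singleton_iff.1 h1
      have := c.zpow_left k
      simp only at hk
      rw [hk] at this
      exact this.eq
    rw [mem_centralizer_iff]
    intro t ht
    have h4 := h.np.comm P.2 (zpowers_le.2 h2 hm) hmo hy hy1 h3 ht (hab t ht y hy)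
    rw [mul_assoc, ← hab t ht s hs, ← mul_assoc, ← h4, mul_assoc]
  · exact le_inf (centralizer_le (Set.singleton_subset_iff.2 hy)) (centralizer_le_normalizer _)

theorem card_cl_AE (h : St P A) (hf : AF P) {x : G} (hx : x ∈ A) (hx1 : x ≠ 1) :
    (cl A x).card = Nat.card (AE P) := by
  classical
  haveI := Fintype.ofFinite (AE P)
  have hx1' : (⟨x, h.le hx⟩ : (P : Subgroup G)) ≠ 1 := fun e => hx1 (congrArg Subtype.val e)
  rw [Nat.card_eq_fintype_card, ← Finset.card_univ,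
    ← Finset.card_image_of_injective _ (Subtype.val_injective.comp (hf.apply_injective hx1'))]
  congr 1
  ext b
  simp only [mem_cl, Finset.mem_image, Finset.mem_univ, true_and, Function.comp_apply]
  constructor
  · rintro ⟨h1, h2⟩
    obtain ⟨e, he⟩ := (hf.isConj_iff' ⟨b, h.le h1⟩ ⟨x, h.le hx⟩).1 h2.symm
    exact ⟨e, congrArg Subtype.val he⟩
  · rintro ⟨e, rfl⟩
    have h2 := ((hf.isConj_iff' (e.1 ⟨x, h.le hx⟩) ⟨x, h.le hx⟩).2 ⟨e, rfl⟩).symm
    exact ⟨h.mem_of_conj hx h2 (e.1 ⟨x, h.le hx⟩).2, h2⟩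

/-- With abelian Sylow subgroups, `A#` is a single class. -/
theorem conj_inv [IsSimpleGroup G] (hG : ¬ IsMulCommutative G) (h : St P A)
    (hab : ∀ s ∈ (P : Subgroup G), ∀ t ∈ (P : Subgroup G), s * t = t * s) {x y : G} (hx : x ∈ A)
    (hx1 : x ≠ 1) (hy : y ∈ A) (hy1 : y ≠ 1) : IsConj y x⁻¹ := by
  classical
  by_contra hxy
  obtain ⟨M, hM⟩ := H19.exists_isPModular hp.out
  have hf := h.af hab
  obtain ⟨ι, q, μ, a, d, δ, D⟩ := hf.exists_afd hM (by
    have h1 : insert x⁻¹ (cl A y) ⊆ sh A := by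
      intro b hb
      rcases Finset.mem_insert.1 hb with rfl | hb
      · exact mem_sh.2 ⟨inv_mem hx, inv_ne_one.2 hx1⟩
      · exact mem_sh.2 ⟨(mem_cl.1 hb).1, fun e => hy1 (by
          have := (mem_cl.1 hb).2; rwa [e, isConj_one_left] at this)⟩
    have h2 := Finset.card_le_card h1
    rw [Finset.card_insert_of_notMem (fun e => hxy (mem_cl.1 e).2), h.card_cl_AE hf hy hy1] at h2
    have h3 := card_sh A
    have h4 := card_le_of_le h.le
    omega)
  have h1 : afX M μ = {H21.triv G} := by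
    refine Set.eq_singleton_iff_unique_mem.2 ⟨D.triv_mem hM, fun χ hχ => ?_⟩
    have v : ∀ b ∈ A, b ≠ 1 → χ.1 b = a χ := fun b hb hb1 =>
      D.valX hM hf hχ (pPart_self hp.out (h.pElt hb)) (h.le hb) hb1
    have h2 := sum_mul_conj χ x y
    rw [Finset.sum_congr rfl (g := fun _ => (a χ : ℂ)) fun g _ => by
      obtain ⟨y', h3, -, w, h4, h5⟩ := h.pair1 hx hx1 hy hy1 g
      have h6 := pPart_ne_one h4 (h.dvd_of_not_conj hx hx1 hy hy1 hxy g)
      rw [irr_pPart hM h.np h4 h6 hχ.1, irr_conj χ h5]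
      exact v _ (mul_mem hx h3) fun e => h6 (by rwa [e, isConj_one_left] at h5),
      Finset.sum_const, Finset.card_univ, ← Nat.card_eq_fintype_card, nsmul_eq_mul, v x hx hx1,
      v y hy hy1] at h2
    refine triv_of_apply χ hx1 ?_
    have h3 : (a χ : ℂ) ≠ 0 := by exact_mod_cast D.a_ne_zero hM hf hχ
    have h4 : (Nat.card G : ℂ) ≠ 0 := by exact_mod_cast Nat.card_pos.ne'
    have h5 := deg_ne χ
    rw [v x hx hx1]
    field_simp at h2
    exact h2.symm
  haveI := D.nontrivial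
  obtain ⟨i⟩ : Nonempty ι := inferInstance
  have h2 := D.reg hM i (g := 1) (by rw [orderOf_one]; exact hp.out.not_dvd_one)
  rw [h1, finsum_mem_singleton, D.a_triv hM, H21.triv_apply, ← H21.cast_deg] at h2
  have h3 : ((Nat.card ι : ℤ) * d - δ) * charDegree (μ i).1 + 1 = 0 := by exact_mod_cast h2
  have h4 : (charDegree (μ i).1 : ℤ) ∣ 1 := ⟨-((Nat.card ι : ℤ) * d - δ), by linear_combination h3⟩
  have h5 : charDegree (μ i).1 = 1 := by exact_mod_cast Int.eq_one_of_dvd_one (by positivity) h4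
  exact (D.triv_mem hM).2 ⟨i, triv_of_deg hG _ (by rw [← H21.cast_deg, h5, Nat.cast_one])⟩

theorem value_le (hM : IsPModular p M) (h : St P A)
    (hab : ∀ s ∈ (P : Subgroup G), ∀ t ∈ (P : Subgroup G), s * t = t * s) {x : G} (hx : x ∈ A)
    (hx1 : x ≠ 1) (hone : ∀ y ∈ A, y ≠ 1 → IsConj x y) (c : PB M G → ℤ)
    (hc : ∀ χ : PB M G, χ.1.1 x = c χ) (hs : ∑ χ, c χ ^ 2 = Nat.card (P : Subgroup G))
    (χ : PB M G) : c χ ≤ Nat.card A := by
  classical
  have hf := h.af hab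
  have he : Nat.card (AE P) + 1 = Nat.card A := by
    rw [← h.card_cl_AE hf hx hx1, ← card_sh A]
    congr 2
    ext b
    rw [mem_cl, mem_sh]
    exact ⟨fun hb => ⟨hb.1, fun e => hx1 (by
      have := hb.2; rwa [e, isConj_one_left] at this)⟩, fun hb => ⟨hb.1, hone b hb.1 hb.2⟩⟩
  by_cases hm : Nat.card (AE P) + 1 < Nat.card (P : Subgroup G)
  swap
  · have h1 : c χ ^ 2 ≤ ∑ χ, c χ ^ 2 :=
      Finset.single_le_sum (f := fun χ => c χ ^ 2) (fun _ _ => sq_nonneg _) (Finset.mem_univ χ)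
    have h2 : (Nat.card (P : Subgroup G) : ℤ) ≤ Nat.card A := by exact_mod_cast (by omega)
    nlinarith [Int.le_self_sq (c χ)]
  obtain ⟨ι, q, μ, a, d, δ, D⟩ := hf.exists_afd hM hm
  haveI := Fintype.ofFinite (IrrCharacter G)
  have hn := D.norm hM hf
  rw [H17.finsum_mem_irr] at hn
  have hle : ∀ ψ ∈ afX M μ, a ψ ^ 2 ≤ ∑ ψ with ψ ∈ afX M μ, a ψ ^ 2 := fun ψ hψ =>
    Finset.single_le_sum (f := fun ψ => a ψ ^ 2) (fun _ _ => sq_nonneg _)
      (Finset.mem_filter.2 ⟨Finset.mem_univ _, hψ⟩)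
  have he' : (Nat.card (AE P) : ℤ) + 1 = Nat.card A := by exact_mod_cast he
  have h2 : (2 : ℤ) ≤ Nat.card ι := by exact_mod_cast D.two_le
  by_cases hχ : χ.1 ∈ afX M μ
  · have h1 := D.valX hM hf hχ (pPart_self hp.out (h.pElt hx)) (h.le hx) hx1
    rw [hc] at h1
    have h3 : c χ = a χ.1 := by exact_mod_cast h1
    have h4 := hle _ hχ
    rw [h3]
    nlinarith [Int.le_self_sq (a χ.1), sq_nonneg (d - δ), sq_nonneg d]
  have hd : d = 0 := by
    obtain ⟨k, hk⟩ := card_dvd_of_le h.le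
    have h3 : (Nat.card ι : ℤ) * Nat.card (AE P) + 1 = Nat.card A * k := by
      exact_mod_cast D.card.trans hk
    have h4 : (Nat.card A : ℤ) ∣ Nat.card ι - 1 :=
      ⟨Nat.card ι - k, by linear_combination (-1 : ℤ) * h3 + (Nat.card ι : ℤ) * he'⟩
    have h5 := Int.le_of_dvd (by omega) h4
    have h6 := hle _ (D.triv_mem hM)
    rw [D.a_triv hM] at h6
    by_contra hd
    have h7 : 1 ≤ d ^ 2 := by
      have := sq_pos_of_ne_zero hd
      omega
    nlinarith [sq_nonneg (d - δ)]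
  obtain ⟨i, hi⟩ : χ.1 ∈ Set.range μ := by
    by_contra h3
    exact hχ ⟨χ.2, h3⟩
  obtain ⟨ψ, hψ, rfl⟩ := D.surj i
  haveI := Fintype.ofFinite (AE P)
  have h3 := D.valY hM hf hψ (z := x) (y := ⟨x, h.le hx⟩) (pPart_self hp.out (h.pElt hx))
    (fun e => hx1 (congrArg Subtype.val e))
  rw [hi, hc, hd] at h3
  have h4 : ‖(c χ : ℂ)‖ ≤ Nat.card (AE P) := by
    rw [h3, Int.cast_zero, zero_add, norm_mul]
    have h5 : ‖(δ : ℂ)‖ = 1 := by rcases D.sign with e | e <;> simp [e]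
    rw [h5, one_mul, Nat.card_eq_fintype_card]
    refine (norm_sum_le_of_le _ (n := fun _ => (1 : ℝ)) fun e _ => le_of_eq ?_).trans (by simp)
    refine Complex.norm_eq_one_of_pow_eq_one (n := Nat.card (P : Subgroup G)) ?_ Nat.card_pos.ne'
    change ((lact ψ e ⟨x, h.le hx⟩ : ℂˣ) : ℂ) ^ _ = 1
    rw [← Units.val_pow_eq_pow_val, ← map_pow, pow_card_eq_one', map_one, Units.val_one]
  rw [Complex.norm_intCast] at h4
  have h5 : |c χ| ≤ Nat.card (AE P) := by exact_mod_cast h4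
  have := le_abs_self (c χ)
  omega

open Classical in
theorem card_sing (h : St P A) (hp2 : p ≠ 2) {x : G} (hx : x ∈ A) (hx1 : x ≠ 1)
    (hone : ∀ y ∈ A, y ≠ 1 → IsConj x y) :
    Nat.card G ≤ 2 * (Finset.univ.filter fun g : G => p ∣ orderOf (x * (g * x * g⁻¹))).card := by
  have hx2 : x ^ 2 ≠ 1 := fun e => by
    have h3 := orderOf_eq_prime e hx1
    rw [order_of_pow (h.exp x hx) hx1] at h3
    exact hp2 h3
  obtain ⟨k, hk⟩ := isConj_iff.1 (hone _ (pow_mem hx 2) hx2)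
  have h1 : (Finset.univ.filter fun g : G => ¬ p ∣ orderOf (x * (g * x * g⁻¹))).card ≤
      (Finset.univ.filter fun g : G => p ∣ orderOf (x * (g * x * g⁻¹))).card := by
    refine Finset.card_le_card_of_injOn (fun g => g * k) (fun g hg => ?_)
      fun a _ b _ e => mul_right_cancel e
    have h2 := (Finset.mem_filter.1 hg).2
    refine Finset.mem_filter.2 ⟨Finset.mem_univ _, ?_⟩
    by_contra h3
    rw [show g * k * x * (g * k)⁻¹ = (g * x * g⁻¹) ^ 2 by rw [conj_pow, ← hk]; group] at h3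
    obtain ⟨y', -, h4, h5⟩ := h.pair hx hx1 hx hx1 (isConj_iff.2 ⟨g, rfl⟩)
    obtain ⟨w1, a1, b1⟩ := h5 1
    obtain ⟨w2, a2, b2⟩ := h5 2
    rw [pow_one] at a1 b1
    rw [pPart_unique hp.out a1 (pPart_one_of_not_dvd h2), isConj_one_right] at b1
    rw [pPart_unique hp.out a2 (pPart_one_of_not_dvd h3), isConj_one_right, pow_two, ← mul_assoc,
      b1, one_mul] at b2
    rw [b2, isConj_one_left] at h4
    exact hx1 h4
  have h2 := Finset.card_filter_add_card_filter_not (s := Finset.univ)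
    (fun g : G => p ∣ orderOf (x * (g * x * g⁻¹)))
  rw [Finset.card_univ, ← Nat.card_eq_fintype_card] at h2
  omega

theorem false_of_one_class [IsSimpleGroup G] (h : St P A) (hp2 : p ≠ 2)
    (hab : ∀ s ∈ (P : Subgroup G), ∀ t ∈ (P : Subgroup G), s * t = t * s) {x : G} (hx : x ∈ A)
    (hx1 : x ≠ 1) (hone : ∀ y ∈ A, y ≠ 1 → IsConj x y) : False := by
  classical
  obtain ⟨M, hM⟩ := H19.exists_isPModular hp.out
  have hA : A ≠ ⊥ := fun e => hx1 (mem_bot.1 (e ▸ hx))
  have h1 : ∀ χ : PB M G, ∃ m : ℕ, χ.1.1 1 = χ.1.1 x + Nat.card A * m := fun χ =>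
    res_const χ.1 hA (fun a ha b hb => h.comm ha hb) fun a ha ha1 =>
      (irr_conj χ.1 (hone a ha ha1)).symm
  choose m hm using h1
  let n : PB M G → ℕ := fun χ => charDegree χ.1.1
  have hn : ∀ χ : PB M G, χ.1.1 1 = n χ := fun χ => (H21.cast_deg χ.1).symm
  have hn0 : ∀ χ, 0 < n χ := fun χ => H21.deg_pos χ.1
  let c : PB M G → ℤ := fun χ => n χ - Nat.card A * m χ
  have hc : ∀ χ : PB M G, χ.1.1 x = c χ := fun χ => by
    have := hm χ
    rw [hn] at this
    simp only [c]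
    push_cast
    linear_combination -this
  have hxi := hone _ (inv_mem hx) (inv_ne_one.2 hx1)
  have s2 : ∑ χ, c χ ^ 2 = Nat.card (P : Subgroup G) := by
    have h2 := φ_F_self hM h.np P (h.le hx) hx1 (h.cen x hx)
    rw [φ_F, finsum_PB] at h2
    simp only [← irr_conj _ hxi, hc, ← pow_two] at h2
    exact_mod_cast h2
  have s1 : ∑ χ, c χ * n χ = 0 := by
    have h2 := φ_F_orth hM (pPart_self hM.1 (⟨0, by simp⟩ : ∃ k, orderOf (1 : G) = p ^ k))
      (pPart_self hM.1 (h.pElt hx)) (fun e => hx1 (isConj_one_left.1 e))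
    rw [φ_F, finsum_PB] at h2
    simp only [inv_one, hc, hn] at h2
    exact_mod_cast h2
  set N := (Finset.univ.filter fun g : G => p ∣ orderOf (x * (g * x * g⁻¹))).card with hN
  have s3 : ∑ χ, (c χ : ℝ) ^ 3 / n χ = (Nat.card G : ℝ)⁻¹ * (N * Nat.card (P : Subgroup G)) := by
    have h2 : φ M x⁻¹ (F M x * F M x) = (Nat.card G : ℂ)⁻¹ * (N * Nat.card (P : Subgroup G)) := by
      rw [F_mul, map_smul, map_sum, smul_eq_mul, hN, Finset.card_filter, Nat.cast_sum,
        Finset.sum_mul]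
      congr 1
      refine Finset.sum_congr rfl fun g _ => ?_
      obtain ⟨y', h3, -, w, h4, h5⟩ := h.pair1 hx hx1 hx hx1 g
      rw [h.φ_F_eq hM (inv_mem hx) (inv_ne_one.2 hx1) h4]
      by_cases h6 : p ∣ orderOf (x * (g * x * g⁻¹))
      · have h7 := pPart_ne_one h4 h6
        rw [if_pos h6, if_pos (h5.trans ((hone _ (mul_mem hx h3) fun e => h7 (by
          rwa [e, isConj_one_left] at h5)).symm.trans hxi)), Nat.cast_one, one_mul]
      · rw [if_neg h6, pPart_unique hp.out h4 (pPart_one_of_not_dvd h6),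
          if_neg (fun e => inv_ne_one.2 hx1 (isConj_one_right.1 e)), Nat.cast_zero, zero_mul]
    rw [φ_apply] at h2
    apply Complex.ofReal_injective
    push_cast
    rw [← h2]
    refine Finset.sum_congr rfl fun χ _ => ?_
    have : (n χ : ℂ) ≠ 0 := by exact_mod_cast (hn0 χ).ne'
    simp only [Pi.mul_apply, F, inv_inv, hc, hn]
    field_simp
  let t : PB M G := ⟨H21.triv G, H21.triv_mem_principal hM.2.1⟩
  have nt : n t = 1 := H21.charDegree_one
  have ct : c t = 1 := by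
    have : (1 : ℂ) = c t := hc t
    exact_mod_cast this.symm
  obtain ⟨χ0, h0⟩ : ∃ χ, c χ < 0 := by
    by_contra h2
    push Not at h2
    have h3 : c t * n t ≤ ∑ χ, c χ * n χ := Finset.single_le_sum (f := fun χ => c χ * n χ)
      (fun χ _ => mul_nonneg (h2 χ) (by positivity)) (Finset.mem_univ t)
    rw [s1, ct, nt] at h3
    omega
  have h0t : χ0 ≠ t := by rintro rfl; omega
  have b1 : ∀ χ, χ ≠ t → (c χ : ℝ) ^ 3 / n χ - (c χ : ℝ) ^ 2 / 2 ≤ 0 := by
    intro χ hχ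
    have h2 := h.value_le hM hab hx hx1 hone c hc s2 χ
    have h3 : m χ ≠ 0 := fun e => hχ (Subtype.ext (triv_of_apply χ.1 hx1 (by
      rw [hm χ, e]; simp)))
    have h4 : (1 : ℤ) ≤ m χ := by exact_mod_cast Nat.one_le_iff_ne_zero.2 h3
    have h5 : 2 * c χ ≤ n χ := by
      have : c χ = n χ - Nat.card A * m χ := rfl
      nlinarith [Int.natCast_nonneg (Nat.card A)]
    have h6 : 2 * (c χ : ℝ) ≤ n χ := by exact_mod_cast h5
    have h7 : (0 : ℝ) < n χ := by exact_mod_cast hn0 χ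
    rw [sub_nonpos, div_le_div_iff₀ h7 two_pos]
    nlinarith [sq_nonneg (c χ : ℝ)]
  have b0 : (c χ0 : ℝ) ^ 3 / n χ0 - (c χ0 : ℝ) ^ 2 / 2 < -1 / 2 := by
    have h2 : (c χ0 : ℝ) ≤ -1 := by exact_mod_cast (by omega : c χ0 ≤ -1)
    have h7 : (0 : ℝ) < n χ0 := by exact_mod_cast hn0 χ0
    have h3 : (c χ0 : ℝ) ^ 3 / n χ0 < 0 := div_neg_of_neg_of_pos
      (Odd.pow_neg (by decide) (by linarith)) h7
    nlinarith
  have tot : 0 ≤ ∑ χ, ((c χ : ℝ) ^ 3 / n χ - (c χ : ℝ) ^ 2 / 2) := by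
    have h2 : ∑ χ, (c χ : ℝ) ^ 2 = Nat.card (P : Subgroup G) := by exact_mod_cast s2
    rw [Finset.sum_sub_distrib, s3, ← Finset.sum_div, h2, sub_nonneg]
    have h3 : (Nat.card G : ℝ) ≤ 2 * N := by exact_mod_cast h.card_sing hp2 hx hx1 hone
    have h4 : (0 : ℝ) < Nat.card G := by exact_mod_cast Nat.card_pos
    rw [le_inv_mul_iff₀ h4]
    nlinarith [Nat.cast_nonneg (α := ℝ) (Nat.card (P : Subgroup G))]
  rw [← Finset.add_sum_erase _ _ (Finset.mem_univ t), ← Finset.add_sum_erase _ _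
    (Finset.mem_erase.2 ⟨h0t, Finset.mem_univ χ0⟩), ct, nt] at tot
  have h2 : ∑ χ ∈ (Finset.univ.erase t).erase χ0, ((c χ : ℝ) ^ 3 / n χ - (c χ : ℝ) ^ 2 / 2) ≤ 0 :=
    Finset.sum_nonpos fun χ hχ => b1 χ (Finset.mem_erase.1 (Finset.mem_erase.1 hχ).2).1
  rw [Finset.sum_sub_distrib] at h2
  norm_num at tot
  linarith

/-- For odd primes the configuration does not occur in a simple group. -/
theorem eq_two [IsSimpleGroup G] (hG : ¬ IsMulCommutative G) (h : St P A) (hA : A ≠ ⊥) : p = 2 := by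
  by_contra hp2
  obtain ⟨M, hM⟩ := H19.exists_isPModular hp.out
  have hab : ∀ s ∈ (P : Subgroup G), ∀ t ∈ (P : Subgroup G), s * t = t * s := by
    by_cases hr : ∀ a ∈ A, a ≠ 1 → ¬ IsConj a a⁻¹
    · have h1 := h.le_of_not_real hM (fun χ a _ ha1 e => triv_of_apply χ ha1 e) hA hr
      exact fun s hs t ht => h.cen s (h1 hs) t ht
    · push Not at hr
      obtain ⟨a, ha, ha1, hr⟩ := hr
      exact h.abelian_of_real hp2 ha ha1 hr
  obtain ⟨⟨a, ha⟩, ha1'⟩ := (ne_bot_iff_exists_ne_one).1 hA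
  have ha1 : a ≠ 1 := fun e => ha1' (Subtype.ext e)
  exact h.false_of_one_class hp2 hab ha ha1 fun y hy hy1 => by
    simpa using h.conj_inv hG hab (inv_mem hy) (inv_ne_one.2 hy1) ha ha1

end St

end Cfsg.Agent.H81.Gz
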