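import Cfsg.Agent.H89.L27Defs

/-! Project L27, piece AUT: generation of `SL₂(7)` and groups with socle `L₂(7)`. -/

set_option autoImplicit false

namespace Cfsg.Agent.H81.L27Aut

open Cfsg.Agent.H89.L27 Subgroup
open scoped MatrixGroups

/-- matrices as quadruples -/
abbrev M2 : Type := ZMod 7 × ZMod 7 × ZMod 7 × ZMod 7

def mm (x y : M2) : M2 :=
  (x.1 * y.1 + x.2.1 * y.2.2.1, x.1 * y.2.1 + x.2.1 * y.2.2.2,
    x.2.2.1 * y.1 + x.2.2.2 * y.2.2.1, x.2.2.1 * y.2.1 + x.2.2.2 * y.2.2.2)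

def dt (x : M2) : ZMod 7 := x.1 * x.2.2.2 - x.2.1 * x.2.2.1

def tq (g : S7) : M2 := (g 0 0, g 0 1, g 1 0, g 1 1)

def mk (x : M2) (h : dt x = 1) : S7 :=
  ⟨!![x.1, x.2.1; x.2.2.1, x.2.2.2], by rw [Matrix.det_fin_two_of]; exact h⟩

theorem tq_mul (g h : S7) : tq (g * h) = mm (tq g) (tq h) := by
  simp only [tq, mm, Matrix.SpecialLinearGroup.coe_mul, Matrix.mul_apply, Fin.sum_univ_two]

theorem tq_neg (g : S7) : tq (-g) = -tq g := rfl

theorem tq_inj : Function.Injective tq := fun g h e => by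
  simp only [tq, Prod.mk.injEq] at e
  ext i j
  fin_cases i <;> fin_cases j
  exacts [e.1, e.2.1, e.2.2.1, e.2.2.2]

theorem dt_tq (g : S7) : dt (tq g) = 1 := by
  have := g.2
  rw [Matrix.det_fin_two] at this
  exact this

theorem tq_mk (x : M2) (h : dt x = 1) : tq (mk x h) = x := rfl

/-- equality up to sign -/
def Pm (x y : M2) : Prop := x = y ∨ x = -y

instance decPm (x y : M2) : Decidable (Pm x y) := by unfold Pm; infer_instance

def xt (t : ZMod 7) : S7 := mk (1, t, 0, 1) (by simp [dt])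

def yt (t : ZMod 7) : S7 := mk (1, 0, t, 1) (by simp [dt])

theorem xt_pow : ∀ t : ZMod 7, tq (xt t) = tq (ex ^ t.val) := by decide +kernel

theorem yt_eq : ∀ t : ZMod 7, tq (yt t * es) = tq (es * xt (-t)) := by decide +kernel

set_option synthInstance.maxSize 2000 in
set_option synthInstance.maxHeartbeats 200000 in
theorem bru : ∀ a b c d : ZMod 7, dt (a, b, c, d) = 1 → c ≠ 0 → ∃ i k : ZMod 7,
    (a, b, c, d) = mm (mm (1, i, 0, 1) (1, 0, c, 1)) (1, k, 0, 1) := by decide +kernel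

theorem low : ∀ a b c d : ZMod 7, dt (a, b, c, d) = 1 → c = 0 →
    (mm (a, b, c, d) (0, 1, 6, 0)).2.2.1 ≠ 0 := by decide +kernel

theorem gen : GenStmt := by
  have s : es ∈ Subgroup.closure {es, ex} := Subgroup.subset_closure (Or.inl rfl)
  have x0 : ex ∈ Subgroup.closure {es, ex} := Subgroup.subset_closure (Or.inr rfl)
  have x : ∀ t, xt t ∈ Subgroup.closure {es, ex} := fun t => by
    rw [tq_inj (xt_pow t)]
    exact pow_mem x0 _
  have y : ∀ t, yt t ∈ Subgroup.closure {es, ex} := fun t =>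
    (mul_mem_cancel_right s).1 (by rw [tq_inj (yt_eq t)]; exact mul_mem s (x _))
  have k : ∀ g : S7, g 1 0 ≠ 0 → g ∈ Subgroup.closure {es, ex} := fun g hg => by
    obtain ⟨i, k, e⟩ := bru _ _ _ _ (dt_tq g) hg
    rw [tq_inj (show tq g = tq (xt i * yt (g 1 0) * xt k) by rw [tq_mul, tq_mul]; exact e)]
    exact mul_mem (mul_mem (x _) (y _)) (x _)
  refine eq_top_iff.2 fun g _ => ?_
  by_cases hg : g 1 0 = 0
  · refine (mul_mem_cancel_right s).1 (k _ ?_)
    have := low _ _ _ _ (dt_tq g) hg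
    have e : tq (g * es) = mm (tq g) (0, 1, 6, 0) := tq_mul g es
    exact fun n => this ((congrArg (fun q : M2 => q.2.2.1) e).symm.trans n)
  · exact k g hg

theorem f1 : ∀ a b c d : ZMod 7, dt (a, b, c, d) = 1 →
    Pm (mm (a, b, c, d) (1, 1, 0, 1)) (mm (1, 4, 0, 1) (a, b, c, d)) →
    ∃ j : ZMod 7, Pm (mm (1, j, 0, 1) (a, b, c, d)) (mm (2, 0, 0, 4) (1, j, 0, 1)) := by
  decide +kernel

def sq (x : M2) : M2 := mm x x

theorem f2 : ∀ a b c d : ZMod 7, dt (a, b, c, d) = 1 → Pm (sq (a, b, c, d)) (1, 0, 0, 1) →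
    Pm (sq (mm (a, b, c, d) (2, 0, 0, 4))) (1, 0, 0, 1) →
    Pm (mm (sq (mm (a, b, c, d) (1, 1, 0, 1))) (mm (a, b, c, d) (1, 1, 0, 1))) (1, 0, 0, 1) →
    Pm (a, b, c, d) (1, 0, 0, 1) ∨ Pm (a, b, c, d) (0, 1, 6, 0) := by
  decide +kernel

/-- the unipotent elements -/
def T : Finset M2 := Finset.univ.filter fun x => dt x = 1 ∧ x.1 + x.2.2.2 = 2 ∧ x ≠ (1, 0, 0, 1)

theorem card_T : T.card = 48 := by decide +kernel

theorem f3 : ∀ a b c d : ZMod 7, dt (a, b, c, d) = 1 →
    Pm (mm (sq (sq (a, b, c, d))) (mm (sq (a, b, c, d)) (a, b, c, d))) (1, 0, 0, 1) →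
    Pm (a, b, c, d) (1, 0, 0, 1) ∨ a + d = 2 ∨ -a + -d = 2 := by
  decide +kernel

theorem card_S7 : Nat.card S7 = 336 := by
  have e : S7 ≃ {x : M2 // dt x = 1} :=
    ⟨fun g => ⟨tq g, dt_tq g⟩, fun x => mk x.1 x.2, fun g => tq_inj rfl, fun x => rfl⟩
  rw [Nat.card_congr e, Nat.card_eq_fintype_card, Fintype.card_subtype]
  decide +kernel

variable {H : Type} [Group H] {φ : S7 →* H}

theorem eq_iff (E : Emb φ) (a b : S7) : φ a = φ b ↔ Pm (tq a) (tq b) := by
  rw [← mul_inv_eq_one, ← map_inv, ← map_mul, E.1, mul_inv_eq_one, mul_inv_eq_iff_eq_mul,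
    neg_mul, one_mul, Pm, ← tq_neg, tq_inj.eq_iff, tq_inj.eq_iff]

theorem conj (E : Emb φ) (h : H) (a : S7) : ∃ g, φ g = h * φ a * h⁻¹ :=
  E.2.1.conj_mem _ ⟨a, rfl⟩ h

theorem xt_comm : ∀ t : ZMod 7, tq (xt t * ex) = tq (ex * xt t) := by decide +kernel

theorem cen (E : Emb φ) (h : H) (c : Commute h (φ ex)) : h ∈ zpowers (φ ex) := by
  obtain ⟨g, hg⟩ := conj E h eu
  have r1 : eu * ex = xt 4 * eu := tq_inj (by decide +kernel)
  have c4 : Commute h (φ (xt 4)) := by
    rw [tq_inj (xt_pow 4), map_pow]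
    exact c.pow_right _
  have e1 : φ (g * ex) = φ (xt 4 * g) := by
    rw [map_mul, map_mul, hg]
    calc h * φ eu * h⁻¹ * φ ex = h * (φ eu * φ ex) * h⁻¹ := by
          rw [mul_assoc _ h⁻¹, c.inv_left.eq]; group
      _ = _ := by rw [← map_mul, r1, map_mul, ← mul_assoc, c4.eq]; group
  rw [eq_iff E, tq_mul, tq_mul] at e1
  obtain ⟨j, hj⟩ := f1 _ _ _ _ (dt_tq g) e1
  have e2 : φ (xt j * g) = φ (eu * xt j) := by
    rw [eq_iff E, tq_mul, tq_mul]
    exact hj
  rw [map_mul, map_mul, hg] at e2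
  set k := φ (xt j) * h with hk
  have k1 : Commute k (φ ex) := Commute.mul_left (by
    rw [Commute, SemiconjBy, ← map_mul, ← map_mul, tq_inj (xt_comm j)]) c
  have k2 : Commute k (φ eu) := by
    calc φ (xt j) * h * φ eu = φ (xt j) * (h * φ eu * h⁻¹) * h := by group
      _ = φ eu * (φ (xt j) * h) := by rw [e2, mul_assoc]
  obtain ⟨s, hs⟩ := conj E k es
  have w : ∀ a : S7, Commute k (φ a) → φ (s * a) = k * φ (es * a) * k⁻¹ := fun a ha => by
    rw [map_mul, map_mul, hs, mul_assoc _ k⁻¹, ha.inv_left.eq]; group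
  have q1 : φ (s * s) = φ 1 := by
    rw [map_mul, hs, conj_mul, ← map_mul, (E.1 _).2 (Or.inr (tq_inj (by decide +kernel))), map_one]
    group
  have q2 : φ (s * eu * (s * eu)) = φ 1 := by
    rw [map_mul, w _ k2, conj_mul, ← map_mul, (E.1 _).2 (Or.inr (tq_inj (by decide +kernel))),
      map_one]
    group
  have q3 : φ (s * ex * (s * ex) * (s * ex)) = φ 1 := by
    rw [map_mul, map_mul, w _ k1, conj_mul, conj_mul, ← map_mul, ← map_mul,
      (E.1 _).2 (Or.inl (tq_inj (by decide +kernel))), map_one]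
    group
  rw [eq_iff E] at q1 q2 q3
  simp only [tq_mul] at q1 q2 q3
  have k3 : Commute k (φ es) := by
    rcases f2 _ _ _ _ (dt_tq s) q1 q2 q3 with e | e
    · have : φ s = φ 1 := (eq_iff E s 1).2 e
      rw [hs, map_one, conj_eq_one_iff, ← map_one φ, eq_iff E] at this
      exact absurd this (by decide +kernel)
    · exact mul_inv_eq_iff_eq_mul.1 (hs.symm.trans ((eq_iff E s es).2 e))
  have k0 : k = 1 := E.2.2 k fun a => by
    have : Subgroup.closure {es, ex} ≤ (centralizer {k}).comap φ := (closure_le _).2 (by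
      rintro _ (rfl | rfl)
      exacts [mem_centralizer_singleton_iff.2 k3.symm, mem_centralizer_singleton_iff.2 k1.symm])
    rw [show Subgroup.closure {es, ex} = ⊤ from gen] at this
    exact (mem_centralizer_singleton_iff.1 (this (mem_top a))).symm
  rw [eq_inv_of_mul_eq_one_right k0, tq_inj (xt_pow j), map_pow]
  exact inv_mem (pow_mem (mem_zpowers _) _)

theorem aut : AutStmt := by
  classical
  intro H _ _ φ E
  haveI : Finite (ConjAct H) := inferInstanceAs (Finite H)
  have x7 : φ ex ^ 7 = 1 := by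
    rw [← map_pow, show ex ^ 7 = 1 from tq_inj (by decide +kernel), map_one]
  refine ⟨cen E, ?_, ?_⟩
  · have i : (MulAction.stabilizer (ConjAct H) (φ ex)).index ≤ 48 := by
      rw [MulAction.index_stabilizer, ← card_T, ← Set.ncard_coe_finset]
      let ψ : M2 → H := fun x => if h : dt x = 1 then φ (mk x h) else 1
      refine (Set.ncard_le_ncard (t := ψ '' T) ?_).trans (Set.ncard_image_le (Finset.finite_toSet _))
      rintro _ ⟨h, rfl⟩
      obtain ⟨g, hg⟩ := conj E (ConjAct.ofConjAct h) ex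
      have m : ∀ g' : S7, φ g' = φ g → g' 0 0 + g' 1 1 = 2 → h • φ ex ∈ ψ '' T := fun g' e t => by
        refine ⟨tq g', Finset.mem_filter.2 ⟨Finset.mem_univ _, dt_tq g', t, fun n => ?_⟩, ?_⟩
        · rw [tq_inj (show tq g' = tq 1 from n), map_one, hg, eq_comm, conj_eq_one_iff,
            ← map_one φ, eq_iff E] at e
          exact absurd e (by decide +kernel)
        · show (if h : dt (tq g') = 1 then φ (mk _ h) else 1) = _
          rw [dif_pos (dt_tq g'), tq_inj (tq_mk (tq g') (dt_tq g')), e, hg]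
          rfl
      have q : φ (g * g * (g * g) * (g * g * g)) = φ 1 := by
        rw [show g * g * (g * g) * (g * g * g) = g ^ 7 by
          simp only [pow_succ, pow_zero, one_mul, mul_assoc], map_pow, hg, conj_pow, x7, map_one]
        group
      rw [eq_iff E] at q
      simp only [tq_mul] at q
      rcases f3 _ _ _ _ (dt_tq g) q with e | e | e
      · have : φ g = φ 1 := (eq_iff E g 1).2 e
        rw [hg, map_one, conj_eq_one_iff, ← map_one φ, eq_iff E] at this
        exact absurd this (by decide +kernel)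
      · exact m g rfl e
      · exact m (-g) ((eq_iff E _ _).2 (Or.inr rfl)) e
    have c : Nat.card (MulAction.stabilizer (ConjAct H) (φ ex)) ≤ 7 := by
      have le : MulAction.stabilizer (ConjAct H) (φ ex) ≤ zpowers (ConjAct.toConjAct (φ ex)) :=
        fun h hh => cen E (ConjAct.ofConjAct h) (mul_inv_eq_iff_eq_mul.1 hh)
      refine (card_le_of_le le).trans ?_
      rw [Nat.card_zpowers]
      exact orderOf_le_of_pow_eq_one (by norm_num) (by rw [← map_pow, x7, map_one])
    have := (MulAction.stabilizer (ConjAct H) (φ ex)).card_mul_index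
    rw [← Nat.card_congr (ConjAct.toConjAct (G := H)).toEquiv] at this
    rw [← this]
    exact Nat.mul_le_mul c i
  · have k : Nat.card φ.ker = 2 := by
      rw [Nat.card_eq_two_iff]
      refine ⟨1, ⟨-1, (E.1 _).2 (Or.inr rfl)⟩, fun e => ?_, Set.eq_univ_of_forall fun g => ?_⟩
      · exact absurd (show tq 1 = tq (-1) from congrArg (fun g : φ.ker => tq g) e)
          (by decide +kernel)
      · exact ((E.1 _).1 g.2).imp Subtype.ext Subtype.ext
    have := φ.ker.card_mul_index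
    rw [k, index_ker, card_S7] at this
    omega

theorem eqns : True := by
  have := @mm.eq_1; have := @dt.eq_1; have := @tq.eq_1; have := @mk.eq_1; have := @Pm.eq_1
  have := @xt.eq_1; have := @yt.eq_1; have := @sq.eq_1; have := @T.eq_1; trivial

end Cfsg.Agent.H81.L27Aut
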