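import Cfsg.Agent.H50.L81Defs

/-! Project L81, piece BT2: parabolic subgroups containing a regular torus element. -/

set_option autoImplicit false

namespace Cfsg.Agent.H81.L81Bt2

open Equiv Cfsg.Lie H37 H40 H34 H29 Finset H50.E83 H50.L81

theorem loc_fin {n k L : Type*} [Fintype n] [DecidableEq n] [Field k] [Finite k] [Field L]
    [Algebra k L] [Algebra.IsAlgebraic k L] (a b : GL n L) :
    ∃ Z : Subgroup (GL n L), Finite Z ∧ a ∈ Z ∧ b ∈ Z := by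
  let e : GL n L → Set L := fun g => Set.range fun p : n × n => g.1 p.1 p.2
  let S : Set L := (e a ∪ e a⁻¹) ∪ (e b ∪ e b⁻¹)
  have : Finite S := (((Set.finite_range _).union (Set.finite_range _)).union
    ((Set.finite_range _).union (Set.finite_range _))).to_subtype
  let E := IntermediateField.adjoin k S
  have : FiniteDimensional k E := IntermediateField.finiteDimensional_adjoin fun x _ =>
    (Algebra.IsAlgebraic.isAlgebraic x).isIntegral
  have : Finite E := Module.finite_of_finite k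
  have hm : ∀ g h : GL n L, (∀ i j, g.1 i j ∈ E) → (∀ i j, h.1 i j ∈ E) →
      ∀ i j, (g * h).1 i j ∈ E := fun g h hg hh i j => by
    rw [Units.val_mul, Matrix.mul_apply]
    exact sum_mem fun l _ => mul_mem (hg i l) (hh l j)
  have h1 : ∀ i j, (1 : GL n L).1 i j ∈ E := fun i j => by
    rw [Units.val_one, Matrix.one_apply]
    split_ifs
    exacts [one_mem _, zero_mem _]
  let Z : Subgroup (GL n L) :=
    { carrier := {g | (∀ i j, g.1 i j ∈ E) ∧ ∀ i j, (g⁻¹).1 i j ∈ E}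
      one_mem' := ⟨h1, by rw [inv_one]; exact h1⟩
      mul_mem' := fun {g h} hg hh => ⟨hm g h hg.1 hh.1, by rw [mul_inv_rev]; exact hm _ _ hh.2 hg.2⟩
      inv_mem' := fun {g} hg => ⟨hg.2, by rw [inv_inv]; exact hg.1⟩ }
  have hs : ∀ x ∈ S, x ∈ E := fun x hx => IntermediateField.subset_adjoin k S hx
  refine ⟨Z, Finite.of_injective (fun g : Z => fun i j => (⟨g.1.1 i j, g.2.1 i j⟩ : E))
    fun g h e => Subtype.ext (Units.ext (Matrix.ext fun i j =>
      congrArg Subtype.val (congrFun (congrFun e i) j))), ?_, ?_⟩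
  · exact ⟨fun i j => hs _ (.inl (.inl ⟨(i, j), rfl⟩)), fun i j => hs _ (.inl (.inr ⟨(i, j), rfl⟩))⟩
  · exact ⟨fun i j => hs _ (.inr (.inl ⟨(i, j), rfl⟩)), fun i j => hs _ (.inr (.inr ⟨(i, j), rfl⟩))⟩

theorem mem_of_fpf {G : Type*} [Group G] {U P Z : Subgroup G} [Finite Z] {t b : G} (tP : t ∈ P)
    (tZ : t ∈ Z) (bZ : b ∈ Z) (bU : b ∈ U) (tU : ∀ u ∈ U, t * u * t⁻¹ ∈ U)
    (fpf : ∀ u ∈ U, t * u * t⁻¹ = u → u = 1) (h : b⁻¹ * t * b ∈ P) : b ∈ P := by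
  have key : ∀ v ∈ U, ∀ w ∈ U, v⁻¹ * (t * v * t⁻¹) = w⁻¹ * (t * w * t⁻¹) → v = w :=
    fun v hv w hw e => by
      refine mul_inv_eq_one.1 (fpf _ (mul_mem hv (inv_mem hw)) ?_)
      calc _ = v * (v⁻¹ * (t * v * t⁻¹)) * (t * w * t⁻¹)⁻¹ := by group
        _ = _ := by rw [e]; group
  have : Finite ↥(U ⊓ P ⊓ Z) := Finite.of_injective _ (Subgroup.inclusion_injective inf_le_right)
  have mk : ∀ x, x ∈ U → x ∈ P → x ∈ Z → x ∈ U ⊓ P ⊓ Z := fun x h1 h2 h3 => ⟨⟨h1, h2⟩, h3⟩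
  have m1 : ∀ v : ↥(U ⊓ P ⊓ Z), v.1 ∈ U := fun v => v.2.1.1
  have m2 : ∀ v : ↥(U ⊓ P ⊓ Z), v.1 ∈ P := fun v => v.2.1.2
  have m3 : ∀ v : ↥(U ⊓ P ⊓ Z), v.1 ∈ Z := fun v => v.2.2
  let φ : ↥(U ⊓ P ⊓ Z) → ↥(U ⊓ P ⊓ Z) := fun v => ⟨v.1⁻¹ * (t * v.1 * t⁻¹),
    mul_mem (inv_mem v.2) (mk _ (tU _ (m1 v)) (mul_mem (mul_mem tP (m2 v)) (inv_mem tP))
      (mul_mem (mul_mem tZ (m3 v)) (inv_mem tZ)))⟩
  have hi : Function.Injective φ := fun v w e =>
    Subtype.ext (key _ (m1 v) _ (m1 w) (congrArg Subtype.val e))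
  obtain ⟨v, hv⟩ := Finite.injective_iff_surjective.1 hi ⟨b⁻¹ * (t * b * t⁻¹),
    mk _ (mul_mem (inv_mem bU) (tU b bU)) (by
      have := mul_mem h (inv_mem tP)
      simpa only [mul_assoc] using this)
    (mul_mem (inv_mem bZ) (mul_mem (mul_mem tZ bZ) (inv_mem tZ)))⟩
  rw [← key _ (m1 v) b bU (congrArg Subtype.val hv)]
  exact m2 v

theorem fpf {D : ChevalleyDatum} {C : Cert D} {L : Type*} [Field L] {ζ : Lˣ} {h : D.group L}
    {f : Fin D.nroots → ℤ} {s : ℕ} (hζ : IsPrimitiveRoot ζ s) (hl : Lab C ζ h f)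
    (hf : ∀ r, (f r : ZMod s) ≠ 0) : ∀ v ∈ (C.split L).Up, h * v * h⁻¹ = v → v = 1 := by
  classical
  intro v hv e
  let M := (univ.filter C.S.pos).toList
  obtain ⟨y, hy, rfl⟩ := (C.split L).exists_prod C.S.cl_pos (L := M) (nodup_toList _)
    (fun r => by rw [mem_toList, mem_filter]; simp) hv
  choose t ht using fun r => Cert.mem_X.1 (hy r)
  have h3 := (C.split L).prod_inj (L := M) (nodup_toList _)
    (fun r hr => (mem_filter.1 (mem_toList.1 hr)).2)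
    (y := fun r => h * y r * h⁻¹) (fun r _ => by rw [← ht, hl.conj_xg]; exact C.xg_mem_X _ _)
    (fun r _ => hy r) (by
      rw [← e]
      exact ((map_list_prod (MulAut.conj h) _).trans (by rw [List.map_map]; rfl)).symm)
  refine List.prod_eq_one fun _ hz => ?_
  obtain ⟨r, hr, rfl⟩ := List.mem_map.1 hz
  have h4 := h3 r hr
  simp only [← ht, hl.conj_xg] at h4
  by_cases h5 : t r = 0
  · rw [← ht, h5]
    exact C.xg_zero _
  have h6 : ζ ^ f r = ζ ^ (0 : ℤ) :=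
    Units.ext (by simpa using (mul_eq_right₀ h5).1 (Cert.xg_injective r.2 h4))
  exact absurd (by simpa using (zpow_eq_iff hζ).1 h6) (hf r)

theorem main {D : ChevalleyDatum} {C : Cert D} {k L : Type*} [Field k] [Finite k] [Field L]
    [Algebra k L] [Algebra.IsAlgebraic k L] {ζ : Lˣ} {t : D.group L}
    {f : Fin D.nroots → ℤ} {s : ℕ} (hζ : IsPrimitiveRoot ζ s) (hl : Lab C ζ t f)
    (hf : ∀ r, (f r : ZMod s) ≠ 0) (P : Subgroup (D.group L)) (hP : (C.split L).B ≤ P)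
    (g : D.group L) (hg : g⁻¹ * t * g ∈ P) : ∃ n ∈ (C.split L).N, n⁻¹ * g ∈ P := by
  obtain ⟨a, ha, n, hn, u, hu, rfl⟩ := (C.split L).bruhat g
  have uP : u ∈ P := hP (Split.Up_le_B (Split.Uinv_le_Up hu))
  obtain ⟨Z, hZ, tZ, aZ⟩ := loc_fin (k := k) t.1 a.1
  have : Finite (Z.comap (D.group L).subtype) :=
    Finite.of_injective (fun z => (⟨z.1.1, z.2⟩ : Z)) fun x y e =>
      Subtype.ext (Subtype.ext (congrArg (fun z : Z => z.1) e))
  have k1 := mem_of_fpf (U := (C.split L).Up) (P := P.comap (MulAut.conj n⁻¹).toMonoidHom)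
    (Z := Z.comap (D.group L).subtype) (t := t) (b := a) (by
      change n⁻¹ * t * n⁻¹⁻¹ ∈ P
      rw [inv_inv]
      exact hP (Split.H_le_B (hl.conj hn).mem_H)) tZ aZ ha
    (fun v hv => Split.conj_U_H hl.mem_H hv) (fpf hζ hl hf) (by
      change n⁻¹ * (a⁻¹ * t * a) * n⁻¹⁻¹ ∈ P
      have := mul_mem (mul_mem uP hg) (inv_mem uP)
      convert this using 1
      group)
  refine ⟨n, hn, ?_⟩
  have k2 : n⁻¹ * a * n⁻¹⁻¹ ∈ P := k1
  have := mul_mem k2 uP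
  convert this using 1
  group

theorem bt2 : Bt2Stmt := fun _ _ _ hζ hl hf P hP g hg =>
  main (k := ZMod 3) hζ hl hf P hP g hg

end Cfsg.Agent.H81.L81Bt2
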