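import Mathlib
import Cfsg.Agent.H81.LyOut
import Cfsg.Agent.H81.LyT2
import Cfsg.Agent.H81.LyT3

/-!
# The centraliser `3·McL` in the Lyons group
-/

set_option autoImplicit false
set_option maxRecDepth 1000000
set_option linter.all false
set_option Elab.async false

namespace Cfsg.Agent.H81.Ly

open Cfsg.Agent.H42 Cfsg.Agent.H46 Cfsg.Agent.H81.DCE Equiv Equiv.Perm MulAction
open Cfsg.Agent.H44 (ev)

section General

variable {G : Type*} [Group G] [Finite G] {C N : Subgroup G}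

omit [Finite G] in
theorem normal_subgroupOf (h : ∀ c ∈ C, ∀ n ∈ N, c * n * c⁻¹ ∈ N) : (N.subgroupOf C).Normal :=
  ⟨fun n hn c => h c c.2 n hn⟩

omit [Finite G] in
theorem card_subgroupOf (h : N ≤ C) : Nat.card (N.subgroupOf C) = Nat.card N :=
  Nat.card_congr (Subgroup.subgroupOfEquivOfLe h).toEquiv

theorem mem_of_prime (h0 : N ≤ C) (h : ∀ c ∈ C, ∀ n ∈ N, c * n * c⁻¹ ∈ N) {p : ℕ} (hp : p.Prime)
    (h1 : ¬ p ^ 2 ∣ Nat.card C) (h2 : p ∣ Nat.card N) {u : G} (hu : u ∈ C) (h3 : orderOf u = p) : u ∈ N := by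
  haveI := normal_subgroupOf h
  exact mem_of_orderOf_eq_prime hp h1 (N.subgroupOf C) (card_subgroupOf h0 ▸ h2) (x := ⟨u, hu⟩)
    (by rw [Subgroup.orderOf_mk, h3])

theorem exists_center (h0 : N ≤ C) (h : ∀ c ∈ C, ∀ n ∈ N, c * n * c⁻¹ ∈ N) {p k r : ℕ} [Fact p.Prime]
    {P : Subgroup G} (hP : P ≤ C) (h1 : Nat.card P = p ^ k) (h2 : Nat.card C = p ^ k * r) (h3 : ¬ p ∣ r)
    (h4 : p ∣ Nat.card N) : ∃ z ∈ N, z ∈ P ∧ z ≠ 1 ∧ ∀ y ∈ P, y * z = z * y := by
  haveI := normal_subgroupOf h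
  obtain ⟨h5, h6⟩ := sylow_of_card (P.subgroupOf C) ((card_subgroupOf hP).trans h1) h2 h3
  obtain ⟨z, z1, z2, z3, z4⟩ := exists_mem_inf_center (N.subgroupOf C) (card_subgroupOf h0 ▸ h4) _ h5 h6
  exact ⟨z, z1, z2, fun e => z3 (Subtype.ext e), fun y hy => congrArg Subtype.val (z4 ⟨y, hP hy⟩ hy)⟩

omit [Finite G] in
theorem card_inf_mul_relIndex (N W : Subgroup G) : Nat.card ↥(N ⊓ W) * N.relIndex W = Nat.card W := by
  rw [← card_subgroupOf (inf_le_right : N ⊓ W ≤ W), Subgroup.inf_subgroupOf_right]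
  exact (N.subgroupOf W).card_mul_index

omit [Finite G] in
theorem card_mul_dvd (h0 : N ≤ C) (h : ∀ c ∈ C, ∀ n ∈ N, c * n * c⁻¹ ∈ N) {W : Subgroup G} (hW : W ≤ C) :
    Nat.card N * Nat.card W ∣ Nat.card C * Nat.card ↥(N ⊓ W) := by
  haveI := normal_subgroupOf h
  have h1 := Subgroup.relIndex_dvd_index_of_normal (N.subgroupOf C) (W.subgroupOf C)
  rw [Subgroup.relIndex_subgroupOf hW] at h1
  rw [← card_inf_mul_relIndex N W, ← card_inf_mul_relIndex N C, inf_eq_left.mpr h0, mul_assoc, mul_comm (N.relIndex C)]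
  exact Nat.mul_dvd_mul_left _ (Nat.mul_dvd_mul_left _ h1)

end General

theorem pc_tail {C : H74.Cert} {G : Type*} [Group G] {x g : ℕ → G} (P : C.PcG x g) (hp : (C.q + 1).Prime) {d : ℕ}
    (hd : d ≤ C.n) {N : Subgroup G} (h : ∀ i, C.n - d ≤ i → i < C.n → x i ∈ N) : (C.q + 1) ^ d ∣ Nat.card N := by
  have e : ∀ k, H74.pcC x ⊥ C.n k = Subgroup.closure (x '' Set.Ico k C.n) := fun k => sup_bot_eq _
  have H : H74.PcMod x ⊥ C.q C.n :=
    { central := fun t ht g => by rw [Subgroup.mem_bot.mp ht, one_mul, mul_one]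
      pow := fun i hi => by rw [P.pow i hi]; exact H74.ev_mem_pcC (P.letters i i le_rfl hi)
      conj := fun i j hij hj => by
        rw [mul_assoc, P.conj i j hij hj, inv_mul_cancel_left]
        exact H74.ev_mem_pcC (P.letters i j hij.le hj) }
  refine (H.card_dvd hp (fun i hi => by rw [e]; exact P.ne i hi) d hd).trans (Subgroup.card_dvd_of_le ?_)
  rw [e, Subgroup.closure_le]
  rintro _ ⟨i, hi, rfl⟩
  exact h i hi.1 hi.2

/-- The element of order three. -/
noncomputable def xx : Cfsg.Spor.Ly := em 24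

/-- Its centraliser. -/
def CX : Subgroup Cfsg.Spor.Ly := Subgroup.centralizer {xx}

theorem mem_CX {g : Cfsg.Spor.Ly} : g ∈ CX ↔ g * xx = xx * g := Subgroup.mem_centralizer_singleton_iff

theorem phi_xK' : phi xK = xx := phi_xK.trans (em_eq (by norm_num)).symm
theorem phi_tK' : phi tK = tt := phi_tK.trans (em_eq (by norm_num)).symm
theorem phi_c5 : phi (kk 5) = em 5 := (phi_kk 5 (by norm_num) (by norm_num)).trans (em_gm (by norm_num) (by norm_num)).symm

theorem phi_mem_CX {k : K0} : phi k ∈ CX ↔ k ∈ Subgroup.centralizer {xK} := by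
  rw [mem_CX, ← phi_xK', ← map_mul, ← map_mul, phi_injective.eq_iff, Subgroup.mem_centralizer_singleton_iff]

theorem orderOf_xx : orderOf xx = 3 := by rw [← phi_xK', orderOf_injective phi phi_injective, orderOf_xK]

theorem Pi_x : Pi xx (pl 24) := Pi_em (by norm_num) (by norm_num)

theorem Pi.mem_CX {d : Cfsg.Spor.Ly} {κ : Perm (Fin 11)} (h : Pi d κ) (hκ : Lo κ) : d ∈ CX := by
  have h1 : Hi (pl 24) := by decide +kernel
  have h2 : κ * pl 24 * κ⁻¹ = pl 24 := by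
    rw [mul_inv_eq_iff_eq_mul, eq_comm, ← mul_inv_eq_iff_eq_mul, h1.conj hκ]
  exact Ly.mem_CX.mpr (mul_inv_eq_iff_eq_mul.mp (h.ind.fix Pi_x h2 (n := 3) (by decide)
    (X_cube (by norm_num) (by norm_num))))

/-- A subgroup normalised by `C(x)` which meets `2·A₈` contains it. -/
theorem e8_le {N : Subgroup Cfsg.Spor.Ly} (hN : ∀ c ∈ CX, ∀ n ∈ N, c * n * c⁻¹ ∈ N) {n : Cfsg.Spor.Ly}
    {ρ : Perm (Fin 11)} (hn : n ∈ N) (h1 : Pi n ρ) (h2 : Lo ρ) (h3 : ρ ≠ 1) :
    tt ∈ N ∧ ∀ g σ, Pi g σ → Lo σ → g ∈ N := by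
  let Y := {i : Fin 11 // 3 ≤ i.val}
  have lo : ∀ a : Perm Y, Lo (ofSubtype a) := fun a i hi => ofSubtype_apply_of_not_mem a (by omega)
  let M : Subgroup (alternatingGroup Y) :=
    { carrier := {a | ∃ n ∈ N, Pi n (ofSubtype (a : Perm Y))}
      one_mem' := ⟨1, N.one_mem, Pi.one.congr (map_one _).symm⟩
      mul_mem' := fun ⟨a, ha, ha'⟩ ⟨b, hb, hb'⟩ => ⟨_, N.mul_mem ha hb, (ha'.mul hb').congr (map_mul _ _ _).symm⟩
      inv_mem' := fun ⟨a, ha, ha'⟩ => ⟨_, N.inv_mem ha, ha'.inv.congr (map_inv _ _).symm⟩ }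
  have hM : M.Normal := ⟨fun a ⟨n, hn, hn'⟩ k => by
    obtain ⟨d, hd⟩ := Pi.surj (σ := ofSubtype (k : Perm Y)) (by rw [sign_ofSubtype]; exact mem_alternatingGroup.mp k.2)
    exact ⟨_, hN d (hd.mem_CX (lo _)) n hn, (hd.conj hn').congr (by simp)⟩⟩
  have sub : ∀ σ : Perm (Fin 11), Lo σ → sign σ = 1 → ∃ a : alternatingGroup Y, ofSubtype (a : Perm Y) = σ := by
    intro σ h1 h2
    have h3 : ∀ x, σ x ≠ x → 3 ≤ x.val := fun x hx => le_of_not_gt fun h => hx (h1 x h)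
    have h4 : ∀ x : Fin 11, 3 ≤ (σ x).val ↔ 3 ≤ x.val := fun x => by
      by_cases h : σ x = x
      · rw [h]
      · exact iff_of_true (h3 _ fun e => h (σ.injective e)) (h3 x h)
    exact ⟨⟨σ.subtypePerm h4, mem_alternatingGroup.mpr ((sign_subtypePerm σ h4 h3).trans h2)⟩,
      ofSubtype_subtypePerm h4 h3⟩
  haveI : IsSimpleGroup (alternatingGroup Y) := alternatingGroup.isSimpleGroup (by
    rw [Nat.card_eq_fintype_card]; decide +kernel)
  have h4 : M = ⊤ := hM.eq_bot_or_eq_top.resolve_left fun e => h3 (by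
    obtain ⟨a, rfl⟩ := sub ρ h2 h1.sign
    have : a ∈ M := ⟨n, hn, h1⟩
    rw [e, Subgroup.mem_bot] at this
    rw [this]; exact map_one _)
  have h5 : ∀ σ, Lo σ → sign σ = 1 → ∃ n ∈ N, Pi n σ := fun σ h1 h2 => by
    obtain ⟨a, rfl⟩ := sub σ h1 h2
    exact (h4 ▸ Subgroup.mem_top a : a ∈ M)
  have h6 : tt ∈ N := by
    obtain ⟨m, hm, hm'⟩ := h5 (swap 3 4 * swap 5 6) (by decide) (by simp)
    rw [← hm'.sq_eq (by decide +kernel)]
    exact N.mul_mem hm hm
  refine ⟨h6, fun g σ hg hσ => ?_⟩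
  obtain ⟨m, hm, hm'⟩ := h5 σ hσ hg.sign
  rcases hm'.eq_or hg with e | e
  · exact e ▸ hm
  · exact e ▸ N.mul_mem hm h6

theorem em53_mem : em 53 ∈ CX :=
  mem_CX.mpr (by simpa [H44.ev, xx] using eq_of_weq (u := [53, 24]) (v := [24, 53]) (by decide +kernel))

theorem orderOf_em {w : List ℕ} {n : ℕ} {l : List ℕ} (h1 : 0 < n) (h2 : n < 4096) (hl : ∀ p ∈ n.primeFactorsList, p ∈ l)
    (h : andB (inT w) (frc (M111.O.word ty w) fun a => M111.O.ordChk a n l) = true) : orderOf (ev em w) = n := by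
  obtain ⟨h3, h4⟩ := andB_iff.mp h
  rw [frc_eq] at h4
  exact CL.orderOf_of_ordChk (R_emw h3) h1 h2 hl h4

/-- A lift of a 7-cycle. -/
def w7 : List ℕ := [26, 39, 36, 35, 32, 31, 28, 27]

theorem orderOf_w7 : orderOf (ev em w7) = 7 :=
  orderOf_em (l := [7]) (by norm_num) (by norm_num) (by simp [Nat.primeFactorsList_prime Nat.prime_seven])
    (by decide +kernel)

theorem orderOf_u11 : orderOf (em 77) = 11 := by
  rw [← H44.ev_single em]
  exact orderOf_em (l := [11]) (by norm_num) (by norm_num) (by simp [Nat.primeFactorsList_prime Nat.prime_eleven])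
    (by decide +kernel)

theorem mem_of_def {N : Subgroup Cfsg.Spor.Ly} {i : ℕ} (h1 : 23 ≤ i) (h2 : i < 78) (h : ∀ j ∈ dW i, em j ∈ N) :
    em i ∈ N := by rw [em_def h1 h2]; exact H44.ev_mem h

/-- A subgroup normalised by `C(x)` which contains `x` and `t` has many elements. -/
theorem mem_big {N : Subgroup Cfsg.Spor.Ly} (hN : ∀ c ∈ CX, ∀ n ∈ N, c * n * c⁻¹ ∈ N) (hx : xx ∈ N) (ht : tt ∈ N) :
    em 77 ∈ N ∧ 2694384000 ∣ Nat.card N := by
  have m55 : em 55 ∈ N := by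
    have e : em 54 = (em 53)⁻¹ := eq_inv_of_mul_eq_one_right (by
      simpa [H44.ev] using eq_of_weq (u := [53, 54]) (v := []) (by decide +kernel))
    have := N.mul_mem (hN _ (CX.inv_mem em53_mem) _ ht) ht
    rw [em_def (by norm_num) (by norm_num), show dW 55 = [54, 23, 53, 23] by decide +kernel]
    simpa [H44.ev, e, tt, mul_assoc] using this
  have m56 : em 56 ∈ N := by
    have e := eq_of_weq (u := 56 :: [32, 39, 34, 33]) (v := [32, 39, 34, 33] ++ [55]) (by decide +kernel)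
    rw [H44.ev_cons, H44.ev_append, H44.ev_single, ← eq_mul_inv_iff_mul_eq] at e
    rw [e]
    exact hN _ ((Pi_w (by decide)).mem_CX (by decide +kernel)) _ m55
  have m49 : em 49 ∈ N := by
    have e : em 56 * em 55 = em 55 * em 56 * em 50 * (xx * xx) := by
      simpa [H44.ev, xx, mul_assoc] using eq_of_weq (u := [56, 55]) (v := [55, 56, 50, 24, 24]) (by decide +kernel)
    have h1 := N.mul_mem m56 m55
    rw [e, N.mul_mem_cancel_right (N.mul_mem hx hx), N.mul_mem_cancel_left (N.mul_mem m55 m56)] at h1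
    have e2 := eq_of_weq (u := [49]) (v := [50, 50]) (by decide +kernel)
    rw [H44.ev_single] at e2
    rw [e2]; exact H44.ev_mem (by simp [h1])
  have e8 := (e8_le hN m49 Pi_y (by decide +kernel) (by decide +kernel)).2
  have md : ∀ i, 23 ≤ i → i < 78 → inD (dW i) ∧ Lo (ev pl (dW i)) → em i ∈ N := fun i h1 h2 h =>
    e8 _ _ (Pi_def h1 h2 h.1) h.2
  have m5 : em 5 ∈ N := e8 _ _ Pi_c5 (by decide +kernel)
  have m52 := md 52 (by norm_num) (by norm_num) (by decide +kernel)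
  have m77 : em 77 ∈ N := mem_of_def (by norm_num) (by norm_num) (by
    rw [show dW 77 = [49, 5, 55, 49, 5, 55, 49, 5, 55] by decide +kernel]; simp [m49, m5, m55])
  refine ⟨m77, ?_⟩
  have d2 : 2 ^ 7 ∣ Nat.card N := pc_tail ((pcG_map_iff psi psi_injective).mp c2_pc) (by show Nat.Prime 2; norm_num)
    (d := 7) (by decide) fun i h1 h2 => by
      have h : ∀ i < 7, 1 ≤ i → c2a i = 42 + i ∧ inD (dW (42 + i)) ∧ Lo (ev pl (dW (42 + i))) := by decide +kernel
      have h1 : 1 ≤ i := h1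
      rcases (Nat.le_of_lt_succ h2).eq_or_lt with rfl | h3
      · exact (em_eq (i := 23) (by norm_num)) ▸ ht
      · obtain ⟨h4, h5⟩ := h i h3 h1
        have h3 : i < 7 := h3
        show el (c2a i) ∈ N
        rw [h4, ← em_eq (by omega)]
        exact md _ (by omega) (by omega) h5
  have m57 : em 57 ∈ N := mem_of_def (by norm_num) (by norm_num) (by
    rw [show dW 57 = [52, 52, 55, 55, 52, 55] by decide +kernel]; simp [m52, m55])
  have m58 : em 58 ∈ N := mem_of_def (by norm_num) (by norm_num) (by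
    rw [show dW 58 = [52, 52, 56, 56, 52, 56] by decide +kernel]; simp [m52, m56])
  have d3 : 3 ^ 7 ∣ Nat.card N := pc_tail ((pcG_map_iff psi psi_injective).mp c3_pc) (by show Nat.Prime 3; norm_num)
    (d := 7) (by decide) fun i _ h2 => by
      have h : ∀ i < 7, c3a i ∈ [55, 56, 52, 57, 58, 49, 24] := by decide +kernel
      have h3 : ∀ j ∈ [55, 56, 52, 57, 58, 49, 24], el j ∈ N := by
        intro j hj
        rw [← em_eq (by simp at hj; omega)]
        revert j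
        simpa [m55, m56, m52, m57, m58, m49, xx] using hx
      exact h3 _ (h i h2)
  have d5 : 125 ∣ Nat.card N := by
    have h1 : Q5 ≤ N.comap phi := Q5_le_of (show phi tK ∈ N from phi_tK' ▸ ht) fun q hq => by
      rw [Subgroup.mem_comap, map_mul, map_mul, map_inv, phi_tK']
      exact hN _ (phi_mem_CX.mpr (Q5_le hq).2) _ ht
    rw [← card_Q5, ← Subgroup.card_map_of_injective phi_injective]
    exact Subgroup.card_dvd_of_le (Subgroup.map_le_iff_le_comap.mpr h1)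
  have d7 := N.orderOf_dvd_natCard (e8 _ _ (Pi_w (w := w7) (by decide)) (by decide +kernel))
  have d11 := N.orderOf_dvd_natCard m77
  rw [orderOf_w7] at d7
  rw [orderOf_u11] at d11
  have := Nat.lcm_dvd (Nat.lcm_dvd (Nat.lcm_dvd (Nat.lcm_dvd d2 d3) d5) d7) d11
  norm_num at this
  exact this

theorem tt_mem_CX : tt ∈ CX := Pi_tt.mem_CX (by decide)

theorem CX_big : em 77 ∈ CX ∧ 2694384000 ∣ Nat.card CX :=
  mem_big (fun _ hc _ hn => CX.mul_mem (CX.mul_mem hc hn) (CX.inv_mem hc)) (mem_CX.mpr rfl) tt_mem_CX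

theorem card_CX_W : Nat.card CX = 2694384000 ∧ Nat.card (Subgroup.centralizer {xK}) = 378000 := by
  have h1 := card_cent_x_le
  have h2 := card_cent_xK_le
  rw [← em_eq (by norm_num)] at h1
  obtain ⟨k, hk⟩ := CX_big.2
  have h3 : 0 < Nat.card CX := Nat.card_pos
  have h4 : Nat.card CX = 2694384000 := by
    have h1 : Nat.card CX ≤ _ := h1
    omega
  refine ⟨h4, ?_⟩
  have h5 := (card_centralizer_le phi phi_injective xK).1
  have h6 := Subgroup.card_subgroup_dvd_card (Subgroup.centralizer {xK})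
  rw [phi_xK'] at h5
  rw [card_K0] at h6
  have h7 : Nat.card (Subgroup.centralizer {xK}) ∣ 2694384000 := h4 ▸ Dvd.intro_left _ h5.symm
  have h8 := Nat.dvd_gcd h6 h7
  have h1 : Nat.card CX ≤ _ := h1
  norm_num at h8
  obtain ⟨c, hc⟩ := h8
  generalize Nat.card (Subgroup.centralizer {xK}) = a at *
  have h9 : c ≤ 4 := by nlinarith
  interval_cases c <;> omega

theorem card_W' : Nat.card ↥(CX ⊓ phi.range) = 378000 := by
  rw [← card_CX_W.2, ← Subgroup.card_map_of_injective phi_injective]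
  congr 2
  ext g
  constructor
  · rintro ⟨h, k, rfl⟩; exact ⟨k, phi_mem_CX.mp h, rfl⟩
  · rintro ⟨k, h, rfl⟩; exact ⟨phi_mem_CX.mpr h, k, rfl⟩

theorem card_stab_dvd {α : Type} {O : Op α} {K G : Type*} [Group K] [Group G] (S : Sem O K G)
    (hφ : Function.Injective S.φ) {W : Subgroup G} (hW : W ≤ S.φ.range) (i : ℕ) (g : K) :
    Nat.card ↥(W ⊓ stabilizer G (S.pt i g)) ∣ Nat.card (S.stab i) := by
  rw [← Subgroup.card_map_of_injective (f := S.φ.comp (MulAut.conj g).toMonoidHom)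
    (hφ.comp (MulAut.conj g).injective)]
  refine Subgroup.card_dvd_of_le ?_
  rintro w ⟨h1, h2⟩
  obtain ⟨k, rfl⟩ := hW h1
  have h3 : S.φ k • S.pt i g = S.pt i g := h2
  rw [S.smul_pt, eq_comm, S.pt_eq_iff] at h3
  exact ⟨_, h3, by simp [mul_assoc]⟩

theorem orbit_sizes (ω : Cfsg.Spor.Ly ⧸ SS.H) (h : ω ≠ ((1 : Cfsg.Spor.Ly) : Cfsg.Spor.Ly ⧸ SS.H)) :
    ∃ a b c, (orbit ↥(CX ⊓ phi.range) ω).ncard = 63 * a + 125 * b + 525 * c := by
  obtain ⟨i, hi, g, rfl⟩ := SS.exists_pt cover ω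
  have h1 := card_eq_orbit_mul (CX ⊓ phi.range) (SS.pt i g)
  obtain ⟨k, hk⟩ := card_stab_dvd SS (SS_φ ▸ phi_injective) (W := CX ⊓ phi.range) (SS_φ ▸ inf_le_right) i g
  rw [card_W'] at h1
  have h2 : (orbit ↥(CX ⊓ phi.range) (SS.pt i g)).ncard * Nat.card (SS.stab i) = 378000 * k := by
    rw [hk, ← mul_assoc]
    exact congrArg (· * k) h1.symm
  generalize (orbit ↥(CX ⊓ phi.range) (SS.pt i g)).ncard = s at h2 ⊢
  obtain ⟨c1, c2, c3, c4⟩ := card_stab
  obtain rfl | rfl | rfl | rfl | rfl : i = 0 ∨ i = 1 ∨ i = 2 ∨ i = 3 ∨ i = 4 := by omega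
  · refine absurd ?_ h
    rw [← SS.pt_zero_one, SS.pt_eq_iff, stab_zero]; exact Subgroup.mem_top _
  · rw [c1] at h2; exact ⟨s / 63, 0, 0, by omega⟩
  · rw [c2] at h2; exact ⟨0, s / 125, 0, by omega⟩
  · rw [c3] at h2; exact ⟨0, 0, s / 525, by omega⟩
  · rw [c4] at h2; exact ⟨0, s / 125, 0, by omega⟩

theorem arith {m a b c : ℕ} (h : m ∣ 648) (e : m = 63 * a + 125 * b + 525 * c + 1) : m = 1 := by
  have h1 : m ∈ Nat.divisors 648 := Nat.mem_divisors.mpr ⟨h, by norm_num⟩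
  have h2 : Nat.divisors 648 = {1, 2, 3, 4, 6, 8, 9, 12, 18, 24, 27, 36, 54, 72, 81, 108, 162, 216, 324, 648} := by
    decide +kernel
  rw [h2] at h1
  simp only [Finset.mem_insert, Finset.mem_singleton] at h1
  have hc : c ≤ 1 := by omega
  have hb : b ≤ 5 := by omega
  interval_cases c <;> interval_cases b <;> omega

theorem normal_cases {N : Subgroup Cfsg.Spor.Ly} (h0 : N ≤ CX) (hN : ∀ c ∈ CX, ∀ n ∈ N, c * n * c⁻¹ ∈ N)
    (hx : xx ∈ N) : N = Subgroup.zpowers xx ∨ N = CX := by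
  refine or_iff_not_imp_right.mpr fun hne => ?_
  have nt : tt ∉ N := fun ht => hne (Subgroup.eq_of_le_of_card_ge h0
    (card_CX_W.1 ▸ Nat.le_of_dvd Nat.card_pos (mem_big hN hx ht).2))
  have n5 : ¬ 5 ∣ Nat.card N := fun h => by
    haveI : _root_.Fact (Nat.Prime 5) := ⟨by norm_num⟩
    obtain ⟨_, z1, ⟨z, z2, rfl⟩, z3, z4⟩ := exists_center h0 hN (p := 5) (k := 3) (r := 21555072) (P := Q5.map phi)
      (by rintro _ ⟨q, hq, rfl⟩; exact phi_mem_CX.mpr (Q5_le hq).2)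
      (by rw [Subgroup.card_map_of_injective phi_injective, card_Q5]; norm_num) card_CX_W.1 (by norm_num) h
    obtain ⟨e, he⟩ := center_Q5 z2 (fun e => z3 (by rw [e, map_one])) fun y hy =>
      phi_injective (by rw [map_mul, map_mul]; exact z4 _ ⟨y, hy, rfl⟩)
    have : em 5 ∈ N := by
      rw [← phi_c5, ← he]
      show phi (z ^ e) ∈ N
      rw [map_zpow]; exact N.zpow_mem z1 e
    exact nt (e8_le hN this Pi_c5 (by decide +kernel) (by decide +kernel)).1
  have n7 : ¬ 7 ∣ Nat.card N := fun h => by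
    have h1 := Pi_w (w := w7) (by decide)
    exact nt (e8_le hN (mem_of_prime h0 hN (by norm_num) (by rw [card_CX_W.1]; norm_num) h
      (h1.mem_CX (by decide +kernel)) orderOf_w7) h1 (by decide +kernel) (by decide +kernel)).1
  have n11 : ¬ 11 ∣ Nat.card N := fun h => by
    have h1 := mem_of_prime h0 hN (by norm_num) (by rw [card_CX_W.1]; norm_num) h CX_big.1 orderOf_u11
    have h2 := N.mul_mem h1 (hN _ ((Pi_y.mul Pi_c5).mem_CX (by decide +kernel)) _ h1)
    have e : (em 49 * em 5)⁻¹ = em 6 * em 50 := inv_eq_of_mul_eq_one_right (by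
      simpa [H44.ev, mul_assoc] using eq_of_weq (u := [49, 5, 6, 50]) (v := []) (by decide +kernel))
    have h3 := orderOf_em (w := [77, 49, 5, 77, 6, 50]) (n := 30) (l := [2, 3, 5]) (by norm_num) (by norm_num)
      (by decide +kernel) (by decide +kernel)
    have h4 := N.orderOf_dvd_natCard h2
    rw [e] at h4
    simp only [H44.ev_cons, H44.ev_nil, mul_one] at h3
    simp only [mul_assoc, h3] at h4
    exact n5 ((by norm_num : 5 ∣ 30).trans h4)
  have hd : Nat.card (N.comap phi) ∣ Nat.card N := Subgroup.card_comap_dvd_of_injective N phi phi_injective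
  have hc : ∀ k ∈ Subgroup.centralizer {xK}, ∀ n ∈ N.comap phi, k * n * k⁻¹ ∈ N.comap phi := fun k hk n hn => by
    rw [Subgroup.mem_comap, map_mul, map_mul, map_inv]
    exact hN _ (phi_mem_CX.mpr hk) _ hn
  have h1 : N.comap phi ≤ Subgroup.centralizer {xK} := fun k hk => phi_mem_CX.mp (h0 hk)
  have h2 : N.comap phi ≤ Cp ⊓ Subgroup.centralizer {xK} := le_inf (le_Cp h1
    (hc _ (Subgroup.mem_centralizer_singleton_iff.mpr c5_comm_x)) fun h => n5 (h.trans hd)) h1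
  have n2 : ¬ 2 ∣ Nat.card (N.comap phi) := fun h => nt (phi_tK' ▸ (mem_of_prime h2 (fun k hk => hc k hk.2)
    (by norm_num) (by rw [card_B0]; norm_num) h tK_mem orderOf_tK : tK ∈ N.comap phi))
  have h3 : Nat.card (N.comap phi) = 3 := by
    have h4 := Subgroup.card_dvd_of_le h2
    have h5 := Subgroup.orderOf_dvd_natCard _ (show xK ∈ N.comap phi from (phi_xK' ▸ hx : phi xK ∈ N))
    rw [card_B0, show 750 = 3 * 2 * 5 ^ 3 by norm_num] at h4
    rw [orderOf_xK] at h5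
    exact Nat.dvd_antisymm (((Nat.Prime.coprime_iff_not_dvd (by norm_num)).mpr n2).symm.dvd_of_dvd_mul_right
      ((((Nat.Prime.coprime_iff_not_dvd (by norm_num)).mpr fun h => n5 (h.trans hd)).symm.pow_right 3).dvd_of_dvd_mul_right
        h4)) h5
  have h4 : Nat.card ↥(N ⊓ phi.range) = 3 := by
    rw [← h3, ← Subgroup.card_map_of_injective phi_injective, Subgroup.map_comap_eq, inf_comm]
  have h5 := card_mul_dvd h0 hN (W := CX ⊓ phi.range) inf_le_left
  rw [← inf_assoc, inf_eq_left.mpr h0, h4, card_W', card_CX_W.1, show 2694384000 * 3 = 1944 * 11 * 378000 by norm_num,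
    Nat.mul_dvd_mul_iff_right (by norm_num)] at h5
  have h6 := ((Nat.Prime.coprime_iff_not_dvd (by norm_num)).mpr n11).symm.dvd_of_dvd_mul_right h5
  have h7 := card_eq_orbit_mul N ((1 : Cfsg.Spor.Ly) : Cfsg.Spor.Ly ⧸ SS.H)
  rw [stabilizer_quotient, show N ⊓ SS.H = N ⊓ phi.range by rw [SS_H], h4] at h7
  haveI : Finite (Cfsg.Spor.Ly ⧸ SS.H) := inferInstance
  have h8 := ncard_induction (K := ↥(CX ⊓ phi.range)) (P := fun n => ∃ a b c, n = 63 * a + 125 * b + 525 * c)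
    ⟨0, 0, 0, rfl⟩ (fun _ _ ⟨a, b, c, e⟩ ⟨a', b', c', e'⟩ => ⟨a + a', b + b', c + c', by rw [e, e']; ring⟩) _
    (orbit N ((1 : Cfsg.Spor.Ly) : Cfsg.Spor.Ly ⧸ SS.H) \ {((1 : Cfsg.Spor.Ly) : Cfsg.Spor.Ly ⧸ SS.H)})
    (Set.toFinite _) rfl (fun w ω hω => by
      have hw : (w : Cfsg.Spor.Ly) • ((1 : Cfsg.Spor.Ly) : Cfsg.Spor.Ly ⧸ SS.H) = ((1 : Cfsg.Spor.Ly) : _ ⧸ SS.H) := by
        rw [← mem_stabilizer_iff, stabilizer_quotient, SS_H]; exact w.2.2
      obtain ⟨⟨n, rfl⟩, h2⟩ := hω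
      refine ⟨⟨⟨_, hN w w.2.1 n n.2⟩, ?_⟩, fun e => h2 ?_⟩
      · show ((w : Cfsg.Spor.Ly) * n * (w : Cfsg.Spor.Ly)⁻¹) • ((1 : Cfsg.Spor.Ly) : Cfsg.Spor.Ly ⧸ SS.H) =
          (w : Cfsg.Spor.Ly) • (n : Cfsg.Spor.Ly) • ((1 : Cfsg.Spor.Ly) : Cfsg.Spor.Ly ⧸ SS.H)
        rw [mul_smul, mul_smul, inv_smul_eq_iff.mpr hw.symm]
      · exact (smul_left_cancel_iff (w : Cfsg.Spor.Ly)).mp (e.trans hw.symm))
    fun ω hω => orbit_sizes ω hω.2
  obtain ⟨a, b, c, e⟩ := h8
  have h9 := Set.ncard_diff_singleton_add_one (mem_orbit_self (M := N) ((1 : Cfsg.Spor.Ly) : Cfsg.Spor.Ly ⧸ SS.H))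
    (Set.toFinite _)
  rw [e] at h9
  rw [h7, show 1944 = 648 * 3 by norm_num, Nat.mul_dvd_mul_iff_right (by norm_num)] at h6
  rw [arith h6 h9.symm, one_mul] at h7
  exact (Subgroup.eq_of_le_of_card_ge (Subgroup.zpowers_le_of_mem hx) (by rw [h7, Nat.card_zpowers, orderOf_xx])).symm

theorem normal_cases' (N : Subgroup CX) [hN : N.Normal] (hx : (⟨xx, mem_CX.mpr rfl⟩ : CX) ∈ N) :
    Nat.card N = 3 ∨ N = ⊤ := by
  refine (normal_cases (N := N.map CX.subtype) (Subgroup.map_subtype_le N) ?_ ⟨_, hx, rfl⟩).imp (fun e => ?_) fun e => ?_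
  · rintro c hc _ ⟨n, hn, rfl⟩
    exact ⟨_, hN.conj_mem n hn ⟨c, hc⟩, rfl⟩
  · rw [← Subgroup.card_map_of_injective CX.subtype_injective, e, Nat.card_zpowers, orderOf_xx]
  · exact Subgroup.map_injective CX.subtype_injective (by rw [e, ← MonoidHom.range_eq_map, Subgroup.range_subtype])

theorem xx_mem_center : (⟨xx, mem_CX.mpr rfl⟩ : CX) ∈ Subgroup.center CX :=
  Subgroup.mem_center_iff.mpr fun g => Subtype.ext (mem_CX.mp g.2)

theorem card_center_CX : Nat.card (Subgroup.center CX) = 3 := by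
  refine (normal_cases' _ xx_mem_center).resolve_right fun e => ?_
  have h1 : (⟨_, tt_mem_CX⟩ : CX) ∈ Subgroup.center CX := e ▸ Subgroup.mem_top _
  have h2 := congrArg Subtype.val (Subgroup.mem_center_iff.mp h1 ⟨_, em53_mem⟩)
  exact ne_of_weq (u := [53, 23]) (v := [23, 53]) (by decide +kernel) (by decide +kernel)
    (by simpa [H44.ev, tt] using h2)

theorem card_quot_CX : Nat.card (CX ⧸ Subgroup.center CX) = 898128000 := by
  have := Subgroup.card_eq_card_quotient_mul_card_subgroup (Subgroup.center CX)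
  rw [card_center_CX, card_CX_W.1] at this
  omega

theorem simple_quot_CX : IsSimpleGroup (CX ⧸ Subgroup.center CX) := by
  haveI : Nontrivial (CX ⧸ Subgroup.center CX) :=
    Finite.one_lt_card_iff_nontrivial.mp (by rw [card_quot_CX]; norm_num)
  refine ⟨fun M hM => ?_⟩
  have h1 : Subgroup.center CX ≤ M.comap (QuotientGroup.mk' _) := fun z hz => by
    rw [Subgroup.mem_comap, QuotientGroup.mk'_apply, (QuotientGroup.eq_one_iff z).mpr hz]; exact M.one_mem
  have h2 := Subgroup.map_comap_eq_self_of_surjective (QuotientGroup.mk'_surjective (Subgroup.center CX)) M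
  refine (normal_cases' (M.comap (QuotientGroup.mk' _)) (h1 xx_mem_center)).imp (fun e => ?_) fun e => ?_
  · rw [← h2, ← Subgroup.eq_of_le_of_card_ge h1 (by rw [e, card_center_CX]), Subgroup.map_eq_bot_iff,
      QuotientGroup.ker_mk']
  · rw [← h2, e, Subgroup.map_top_of_surjective _ (QuotientGroup.mk'_surjective _)]

end Cfsg.Agent.H81.Ly
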