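import Cfsg.Agent.H54.O84Defs

/-! Piece FINB of S3384: the overgroups of `X` in its normaliser of Sylow index. -/

set_option autoImplicit false

namespace Cfsg.Agent.H81.O84FinB

open Cfsg.Agent.H54.O84
open scoped Pointwise

theorem normal_case {N : Type} [Group N] [Finite N] (Y : Subgroup N) [Y.Normal] (p k e : ℕ)
    (hp : p.Prime) (he : ¬ p ∣ e) (hi : Y.index = p ^ k * e) :
    ∃ H : Subgroup N, Y ≤ H ∧ Y.relIndex H = p ^ k ∧
      ∀ H' : Subgroup N, Y ≤ H' → Y.relIndex H' = p ^ k →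
        ∃ g, H'.map (MulAut.conj g).toMonoidHom = H := by
  haveI : Fact p.Prime := ⟨hp⟩
  have hQ : Nat.card (N ⧸ Y) = p ^ k * e := hi
  have he0 : e ≠ 0 := by
    rintro rfl
    exact he (dvd_zero p)
  have hf : (Nat.card (N ⧸ Y)).factorization p = k := by
    rw [hQ, Nat.factorization_mul (pow_ne_zero _ hp.ne_zero) he0, Nat.factorization_pow]
    simp [hp.factorization_self, Nat.factorization_eq_zero_of_not_dvd he]
  have hker : (QuotientGroup.mk' Y).ker = Y := QuotientGroup.ker_mk' Y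
  have hrel : ∀ H : Subgroup N, Y.relIndex H = Nat.card (H.map (QuotientGroup.mk' Y)) := by
    intro H
    rw [← Subgroup.relIndex_ker, hker]
  obtain ⟨P⟩ : Nonempty (Sylow p (N ⧸ Y)) := inferInstance
  have hmap : ((P : Subgroup (N ⧸ Y)).comap (QuotientGroup.mk' Y)).map (QuotientGroup.mk' Y) = P :=
    Subgroup.map_comap_eq_self_of_surjective (QuotientGroup.mk'_surjective Y) _
  have hle : Y ≤ (P : Subgroup (N ⧸ Y)).comap (QuotientGroup.mk' Y) := by
    intro y hy
    rw [Subgroup.mem_comap]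
    have : QuotientGroup.mk' Y y = 1 := by
      rw [← MonoidHom.mem_ker, hker]; exact hy
    rw [this]; exact one_mem _
  refine ⟨(P : Subgroup (N ⧸ Y)).comap (QuotientGroup.mk' Y), hle, ?_, ?_⟩
  · rw [hrel, hmap, P.card_eq_multiplicity, hf]
  · intro H' hY hH'
    rw [hrel, ← hf] at hH'
    obtain ⟨q, hq⟩ := MulAction.exists_smul_eq (N ⧸ Y) (Sylow.ofCard _ hH') P
    obtain ⟨g, rfl⟩ := QuotientGroup.mk'_surjective Y q
    refine ⟨g, ?_⟩
    have hq' : (P : Subgroup (N ⧸ Y)) =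
        MulAut.conj (QuotientGroup.mk' Y g) • (H'.map (QuotientGroup.mk' Y)) := by
      rw [← hq, Sylow.coe_subgroup_smul, Sylow.coe_ofCard]
    ext x
    rw [Subgroup.mem_comap, hq', Subgroup.mem_pointwise_smul_iff_inv_smul_mem, Subgroup.mem_map,
      Subgroup.mem_map]
    constructor
    · rintro ⟨h, hh, rfl⟩
      refine ⟨h, hh, ?_⟩
      simp [MulAut.smul_def, mul_assoc]
    · rintro ⟨h, hh, hx⟩
      have h1 : QuotientGroup.mk' Y h = QuotientGroup.mk' Y (g⁻¹ * x * g) := by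
        rw [hx]
        simp [MulAut.smul_def]
      have h2 : h⁻¹ * (g⁻¹ * x * g) ∈ Y := QuotientGroup.eq.1 h1
      refine ⟨g⁻¹ * x * g, ?_, ?_⟩
      · have := H'.mul_mem hh (hY h2)
        rwa [mul_inv_cancel_left] at this
      · simp [mul_assoc]

theorem finB : FinBStmt := by
  intro Γ _ _ X p k e hp he hi
  set N := Subgroup.normalizer (X : Set Γ) with hN
  have hXN : X ≤ N := Subgroup.le_normalizer
  haveI : (X.subgroupOf N).Normal := Subgroup.normal_in_normalizer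
  obtain ⟨H, hYH, hH, hall⟩ := normal_case (X.subgroupOf N) p k e hp he hi
  refine ⟨H.map N.subtype, ?_, Subgroup.map_subtype_le _, ?_, ?_⟩
  · intro x hx
    exact ⟨⟨x, hXN hx⟩, hYH hx, rfl⟩
  · rw [← hH, Subgroup.subgroupOf, Subgroup.relIndex_comap]
  · intro H' hX hH'N hH'
    obtain ⟨g, hg⟩ := hall (H'.subgroupOf N) (fun x hx => hX hx)
      (by rw [Subgroup.relIndex_subgroupOf hH'N, hH'])
    refine ⟨(g : Γ), ?_⟩
    rw [← hg]
    ext x
    simp only [Subgroup.mem_map]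
    constructor
    · rintro ⟨h, hh, rfl⟩
      exact ⟨_, ⟨⟨h, hH'N hh⟩, hh, rfl⟩, rfl⟩
    · rintro ⟨_, ⟨h, hh, rfl⟩, rfl⟩
      exact ⟨h, hh, rfl⟩

end Cfsg.Agent.H81.O84FinB
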