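import Cfsg.Agent.H71.P3Defs
import Cfsg.Agent.H38.R3Cov

/-!
# Counting in projective planes; injectivity of the point-line incidence map
-/

set_option autoImplicit false

namespace Cfsg.Agent.H81.P3Div

open Module Cfsg.Agent.H71.P3 Cfsg.Agent.H38.R3Cov
open scoped Classical

variable {F V : Type} [Field F] [Finite F] [AddCommGroup V] [Module F V] [Finite V]

noncomputable local instance : Fintype (Submodule F V) := @Fintype.ofFinite _ finSub

/-- the points of a subspace -/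
noncomputable def pts (D : Submodule F V) : Finset (Submodule F V) :=
  Finset.univ.filter fun y => dm y = 1 ∧ y ≤ D

/-- the lines of a subspace through a point -/
noncomputable def lns (x E : Submodule F V) : Finset (Submodule F V) :=
  Finset.univ.filter fun L => x ≤ L ∧ L ≤ E ∧ dm L = 2

omit [Finite F] in
theorem mem_pts {D y : Submodule F V} : y ∈ pts D ↔ dm y = 1 ∧ y ≤ D := by simp [pts]

omit [Finite F] in
theorem mem_lns {x E L : Submodule F V} : L ∈ lns x E ↔ x ≤ L ∧ L ≤ E ∧ dm L = 2 := by simp [lns]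

theorem card_pts {L : Submodule F V} (h : dm L = 2) : (pts L).card = Nat.card F + 1 := by
  rw [← ncard_line (A := ⊥) (L := L) bot_le (by simpa using h), ← Set.ncard_coe_finset]
  congr 1
  ext y
  simp [mem_pts, H79.R3.Cov, and_comm]

theorem card_lns {x E : Submodule F V} (hx : dm x = 1) (h : x ≤ E) (hE : dm E = 3) :
    (lns x E).card = Nat.card F + 1 := by
  rw [← ncard_line (A := x) (L := E) h (by rw [show H79.R3.dm x = 1 from hx]; exact hE),
    ← Set.ncard_coe_finset]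
  congr 1
  ext y
  simp [mem_lns, H79.R3.Cov, show H79.R3.dm x = 1 from hx]

omit [Finite F] in
theorem pencil {M : Type*} [AddCommMonoid M] (f : Submodule F V → M) {x E : Submodule F V}
    (hx : dm x = 1) (h : x ≤ E) :
    ∑ L ∈ lns x E, ∑ y ∈ (pts L).erase x, f y = ∑ y ∈ (pts E).erase x, f y := by
  have b : H79.R3.dm (⊥ : Submodule F V) = 0 := by simp
  have two : ∀ y, dm y = 1 → y ≠ x → dm (x ⊔ y) = 2 := fun y hy e =>
    (dm_sup_of_ne (A := ⊥) bot_le (by rw [b]; exact hx) bot_le (by rw [b]; exact hy) e.symm).trans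
      (by rw [b])
  rw [← Finset.sum_fiberwise_of_maps_to (s := (pts E).erase x) (t := lns x E)
    (g := fun y => x ⊔ y) fun y hy => by
      rw [Finset.mem_erase, mem_pts] at hy
      exact mem_lns.2 ⟨le_sup_left, sup_le h hy.2.2, two y hy.2.1 hy.1⟩]
  refine Finset.sum_congr rfl fun L hL => Finset.sum_congr ?_ fun _ _ => rfl
  rw [mem_lns] at hL
  ext y
  simp only [Finset.mem_erase, mem_pts, Finset.mem_filter]
  refine ⟨fun ⟨a, c, d⟩ => ⟨⟨a, c, d.trans hL.2.1⟩, ?_⟩, fun ⟨⟨a, c, _⟩, e⟩ =>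
    ⟨a, c, e ▸ le_sup_right⟩⟩
  exact eq_of_dm (sup_le hL.1 d) (hL.2.2.trans (two y c a).symm).le

omit [Finite F] in
theorem pencil' {M : Type*} [AddCommMonoid M] (f : Submodule F V → M) {x E : Submodule F V}
    (hx : dm x = 1) (h : x ≤ E) :
    ∑ L ∈ lns x E, ∑ y ∈ pts L, f y + f x = (lns x E).card • f x + ∑ y ∈ pts E, f y := by
  rw [← Finset.add_sum_erase _ _ (mem_pts.2 ⟨hx, h⟩), ← pencil f hx h, ← Finset.sum_const,
    add_left_comm, add_comm, ← Finset.sum_add_distrib]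
  congr 1
  exact Finset.sum_congr rfl fun L hL =>
    (Finset.add_sum_erase _ _ (mem_pts.2 ⟨hx, (mem_lns.1 hL).1⟩)).symm

omit [Finite F] in
theorem cnt_eq (s : Submodule F V → Prop) (L : Submodule F V) :
    cnt s L = ∑ y ∈ pts L, if s y then 1 else 0 := by
  rw [← Finset.card_filter, ← Set.ncard_coe_finset, cnt]
  congr 1
  ext y
  simp [mem_pts, and_assoc]

theorem div1 {L : Submodule F V} (s : Submodule F V → Prop) (h : dm L = 2) :
    cnt s L + cnt (fun x => ¬ s x) L = Nat.card F + 1 := by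
  rw [cnt_eq, cnt_eq, ← Finset.sum_add_distrib, ← card_pts h, Finset.card_eq_sum_ones]
  exact Finset.sum_congr rfl fun y _ => by by_cases e : s y <;> simp [e]

omit [Finite F] in
theorem exists_of_cnt {s : Submodule F V → Prop} {L : Submodule F V} (h : cnt s L ≠ 0) :
    ∃ y, dm y = 1 ∧ y ≤ L ∧ s y := by
  rw [cnt_eq] at h
  obtain ⟨y, hy, e⟩ := Finset.exists_ne_zero_of_sum_ne_zero h
  exact ⟨y, (mem_pts.1 hy).1, (mem_pts.1 hy).2, by_contra fun k => e (if_neg k)⟩

theorem div2 {E : Submodule F V} (s : Submodule F V → Prop) {b : ℕ} (hE : dm E = 3) (h1 : 1 ≤ b)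
    (h2 : b ≤ Nat.card F) (h : ∀ L, L ≤ E → dm L = 2 → cnt s L = 0 ∨ cnt s L = b)
    (h0 : ∃ L, L ≤ E ∧ dm L = 2 ∧ cnt s L = b) :
    b ∣ Nat.card F ∧ ∃ L, L ≤ E ∧ dm L = 2 ∧ cnt s L = 0 := by
  obtain ⟨L0, a1, a2, a3⟩ := h0
  obtain ⟨x, x1, x2, x3⟩ := exists_of_cnt (s := s) (L := L0) (by omega)
  obtain ⟨y, y1, y2, y3⟩ := exists_of_cnt (s := fun x => ¬ s x) (L := L0) (by
    have := div1 s a2; omega)
  have ex := pencil' (fun y => if s y then 1 else 0) x1 (x2.trans a1)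
  have ey := pencil' (fun y => if s y then 1 else 0) y1 (y2.trans a1)
  simp only [← cnt_eq, if_pos x3, if_neg y3, smul_eq_mul, mul_one, mul_zero, add_zero,
    zero_add] at ex ey
  rw [Finset.sum_congr rfl (g := fun _ => b) fun L hL => (h L (mem_lns.1 hL).2.1
    (mem_lns.1 hL).2.2).resolve_left fun e => by
      rw [cnt_eq, Finset.sum_eq_zero_iff] at e
      simpa [x3] using e x (mem_pts.2 ⟨x1, (mem_lns.1 hL).1⟩), Finset.sum_const,
    card_lns x1 (x2.trans a1) hE, smul_eq_mul] at ex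
  constructor
  · have d : b ∣ cnt s E := ey ▸ Finset.dvd_sum fun L hL => by
      rcases h L (mem_lns.1 hL).2.1 (mem_lns.1 hL).2.2 with e | e <;> simp [e]
    have e : Nat.card F + cnt s E = (Nat.card F + 1) * b := by omega
    exact (Nat.dvd_add_left d).1 (e ▸ dvd_mul_left _ _)
  · by_contra k
    push Not at k
    rw [Finset.sum_congr rfl (g := fun _ => b) fun L hL => (h L (mem_lns.1 hL).2.1
      (mem_lns.1 hL).2.2).resolve_left (k L (mem_lns.1 hL).2.1 (mem_lns.1 hL).2.2),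
      Finset.sum_const, card_lns y1 (y2.trans a1) hE, smul_eq_mul] at ey
    omega

omit [Finite F] in
theorem exists_perp (S : Sp F V) {W A : Submodule F V} (h : dm W + dm A < 2 * S.k) :
    ∃ v, v ∉ A ∧ ∀ w ∈ W, S.B w v = 0 := by
  have e := LinearMap.BilinForm.finrank_orthogonal S.nd W
  rw [S.dim] at e
  obtain ⟨v, hv, hA⟩ := exists_vec (A := A) (D := S.B.orthogonal W) (by
    change finrank F A < finrank F (S.B.orthogonal W)
    change finrank F W + finrank F A < _ at h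
    omega)
  exact ⟨v, hA, hv⟩

omit [Finite F] [Finite V] in
theorem iso_sup (S : Sp F V) {W : Submodule F V} (hW : S.Iso W) {v : V} (hv : ∀ w ∈ W, S.B w v = 0) :
    S.Iso (W ⊔ F ∙ v) := fun a ha b hb => by
  obtain ⟨a, ha1, _, ha', rfl⟩ := Submodule.mem_sup.1 ha
  obtain ⟨b, hb1, _, hb', rfl⟩ := Submodule.mem_sup.1 hb
  obtain ⟨c, rfl⟩ := Submodule.mem_span_singleton.1 ha'
  obtain ⟨d, rfl⟩ := Submodule.mem_span_singleton.1 hb'
  have e : S.B v b = 0 := by rw [← S.alt.neg_eq, hv b hb1, neg_zero]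
  simp [hW a ha1 b hb1, hv a ha1, e, S.alt.self_eq_zero]

omit [Finite F] in
theorem extend (S : Sp F V) {W : Submodule F V} (hW : S.Iso W) (h : dm W < 3) :
    ∃ E, W ≤ E ∧ dm E = dm W + 1 ∧ S.Iso E := by
  obtain ⟨v, h1, h2⟩ := exists_perp S (W := W) (A := W) (by have := S.hk; omega)
  exact ⟨_, le_sup_left, dm_sup_span h1, iso_sup S hW h2⟩

theorem div : DivStmt :=
  ⟨fun _ _ _ _ _ _ _ _ s h => div1 s h, fun _ _ _ _ _ _ _ _ s _ => div2 s, fun S L hL => by
    obtain ⟨E, a, b, c⟩ := extend S hL.2 (by rw [hL.1]; omega)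
    exact ⟨E, a, by rw [b, hL.1], c⟩⟩

omit [Finite F] in
theorem iso_pt (S : Sp F V) {x : Submodule F V} (hx : dm x = 1) : S.Iso x := fun a ha b hb => by
  by_cases e : a = 0
  · simp [e]
  obtain ⟨c, hc⟩ := (finrank_eq_one_iff_of_nonzero' (⟨a, ha⟩ : x)
    fun k => e (congrArg Subtype.val k)).1 hx ⟨b, hb⟩
  rw [← show c • a = b from congrArg Subtype.val hc]
  simp [S.alt.self_eq_zero]

/-- extension by zero -/
noncomputable def ext0 (S : Sp F V) (f : S.Pt → ℂ) (y : Submodule F V) : ℂ :=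
  if h : dm y = 1 then f ⟨y, h⟩ else 0

omit [Finite F] [Finite V] in
theorem ext0_eq (S : Sp F V) (f : S.Pt → ℂ) (y : S.Pt) : ext0 S f y.1 = f y := dif_pos y.2

omit [Finite F] in
theorem fin_eq (S : Sp F V) (f : S.Pt → ℂ) (L : Submodule F V) :
    ∑ᶠ (y : S.Pt) (_ : y.1 ≤ L), f y = ∑ y ∈ pts L, ext0 S f y := by
  have := Fintype.ofFinite S.Pt
  rw [finsum_cond_eq_sum_of_cond_iff f (t := Finset.univ.filter fun y : S.Pt => y.1 ≤ L)
    fun _ => by simp]
  refine Finset.sum_bij (fun y _ => y.1) (fun y hy => mem_pts.2 ⟨y.2, by simpa using hy⟩)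
    (fun a _ b _ e => Subtype.ext e) (fun y hy => ⟨⟨y, (mem_pts.1 hy).1⟩, ?_, rfl⟩)
    fun y _ => (ext0_eq S f y).symm
  exact Finset.mem_filter.2 ⟨Finset.mem_univ _, (mem_pts.1 hy).2⟩

theorem inj1 (S : Sp F V) (f : S.Pt → ℂ)
    (h : ∀ L : S.Ln, ∑ᶠ (y : S.Pt) (_ : y.1 ≤ L.1), f y = 0) : f = 0 := by
  funext x
  obtain ⟨L, a1, a2, a3⟩ := extend S (iso_pt S x.2) (by rw [x.2]; omega)
  rw [x.2] at a2
  obtain ⟨E, b1, b2, b3⟩ := extend S a3 (by omega)
  rw [a2] at b2
  have h' : ∀ M, M ≤ E → dm M = 2 → ∑ y ∈ pts M, ext0 S f y = 0 := fun M m1 m2 =>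
    (fin_eq S f M).symm.trans (h ⟨M, m2, fun u hu v hv => b3 u (m1 hu) v (m1 hv)⟩)
  have q0 : (Nat.card F : ℂ) ≠ 0 := Nat.cast_ne_zero.2 Nat.card_pos.ne'
  have key : ∀ y ∈ pts E, (Nat.card F : ℂ) * ext0 S f y = -∑ y ∈ pts E, ext0 S f y := fun y hy => by
    have := pencil' (ext0 S f) (mem_pts.1 hy).1 (mem_pts.1 hy).2
    rw [Finset.sum_eq_zero fun M hM => h' M (mem_lns.1 hM).2.1 (mem_lns.1 hM).2.2,
      card_lns (mem_pts.1 hy).1 (mem_pts.1 hy).2 b2, nsmul_eq_mul] at this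
    push_cast at this
    linear_combination -this
  have e := h' L b1 a2
  rw [Finset.sum_congr rfl (g := fun _ => f x) fun y hy => mul_left_cancel₀ q0 (by
    rw [key y (mem_pts.2 ⟨(mem_pts.1 hy).1, (mem_pts.1 hy).2.trans b1⟩), ← ext0_eq S f x,
      key _ (mem_pts.2 ⟨x.2, a1.trans b1⟩)]), Finset.sum_const, card_pts a2, nsmul_eq_mul] at e
  exact (mul_eq_zero.1 e).resolve_left (Nat.cast_ne_zero.2 (Nat.succ_ne_zero _))

theorem inj : InjStmt := fun {F V} _ _ _ _ _ S => by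
  refine ⟨inj1 S, fun f g hs h => ?_⟩
  have c1 : ∀ (x : S.Pt) (v : V) (hv : v ≠ 0), (∀ w ∈ x.1, S.B w v = 0) →
      f x = f ⟨F ∙ v, finrank_span_singleton hv⟩ := fun x v hv hp => by
    by_cases e : v ∈ x.1
    · congr 1
      exact Subtype.ext (eq_of_dm ((Submodule.span_singleton_le_iff_mem _ _).2 e)
        (x.2.trans (finrank_span_singleton hv).symm).le).symm
    · let L : S.Ln := ⟨x.1 ⊔ F ∙ v, (dm_sup_span e).trans (by rw [show H79.R3.dm x.1 = 1 from x.2]),
        iso_sup S (iso_pt S x.2) hp⟩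
      linear_combination h x L le_sup_left - h ⟨F ∙ v, finrank_span_singleton hv⟩ L le_sup_right
  have c2 : ∀ x y : S.Pt, f x = f y := fun x y => by
    obtain ⟨v, h1, h2⟩ := exists_perp S (W := x.1 ⊔ y.1) (A := ⊥) (by
      have := dm_sup_inf x.1 y.1
      have hx : H79.R3.dm x.1 = 1 := x.2
      have hy : H79.R3.dm y.1 = 1 := y.2
      have := S.hk
      change H79.R3.dm (x.1 ⊔ y.1) + finrank F (⊥ : Submodule F V) < _
      rw [finrank_bot]
      omega)
    have hv : v ≠ 0 := fun e => h1 (e ▸ zero_mem _)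
    rw [c1 x v hv fun w hw => h2 w (Submodule.mem_sup_left hw),
      c1 y v hv fun w hw => h2 w (Submodule.mem_sup_right hw)]
  have f0 : f = 0 := by
    funext x
    have := Fintype.ofFinite S.Pt
    rw [finsum_eq_sum_of_fintype, Finset.sum_congr rfl (g := fun _ => f x) fun y _ => c2 y x,
      Finset.sum_const, nsmul_eq_mul] at hs
    exact (mul_eq_zero.1 hs).resolve_left
      (Nat.cast_ne_zero.2 (Finset.card_pos.2 ⟨x, Finset.mem_univ x⟩).ne')
  refine ⟨f0, inj1 S g fun L => ?_⟩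
  obtain ⟨x, -, x2, x3⟩ := exists_between (A := ⊥) (D := L.1) bot_le (k := 1) (by simp)
    (by rw [show H79.R3.dm L.1 = 2 from L.2.1]; omega)
  have e : f ⟨x, x3⟩ = 0 := congrFun f0 _
  linear_combination h ⟨x, x3⟩ L x2 - e

end Cfsg.Agent.H81.P3Div
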