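import Mathlib
import Cfsg.Agent.H86.Theta
import Cfsg.Agent.H54.Comm
import Cfsg.Agent.H51.Constraint
import Cfsg.Agent.H4.CoprimeAction
import Cfsg.Agent.H81.Four
import Cfsg.Agent.H81.ZCor
import Cfsg.Agent.H81.D8Cent

/-! `A ∈ SCN(S)`, `S` a Sylow 2-subgroup, 2-constrained involution centralizers: every
`A`-invariant subgroup of odd order of `C(a)`, `a ∈ A` an involution, lies in `O(C(a))`. -/

set_option autoImplicit false

namespace Cfsg.Agent.H81
open Subgroup Cfsg.Agent.H85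
open scoped commutatorElement

variable {G : Type*} [Group G]

theorem eq_one_of_two_of_odd [Finite G] {Q Y : Subgroup G} (hQ : IsPGroup 2 Q)
    (hY : Odd (Nat.card Y)) {x : G} (h1 : x ∈ Q) (h2 : x ∈ Y) : x = 1 := by
  haveI : Fact (Nat.Prime 2) := ⟨Nat.prime_two⟩
  exact eq_of_mem_pgroup_of_mem_coprime hQ (Nat.coprime_two_right.2 hY) h1 (one_mem _)
    (by simpa using h2)

theorem commute_of_mem_normal [Finite G] {Q Y : Subgroup G} [hn : Q.Normal] (hQ : IsPGroup 2 Q)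
    (hY : Odd (Nat.card Y)) {a y : G} (ha : a ∈ Q) (haY : a ∈ normalizer (Y : Set G))
    (hy : y ∈ Y) : Commute a y := by
  refine commutatorElement_eq_one_iff_commute.1 (eq_one_of_two_of_odd hQ hY ?_ ?_)
  · rw [commutatorElement_def, show a * y * a⁻¹ * y⁻¹ = a * (y * a⁻¹ * y⁻¹) by group]
    exact Q.mul_mem ha (hn.conj_mem _ (Q.inv_mem ha) y)
  · exact Y.mul_mem (nconj_mem haY hy) (Y.inv_mem hy)

theorem stab_commute [Finite G] {Q E Y : Subgroup G} [hn : Q.Normal] (hQ : IsPGroup 2 Q)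
    (hC : centralizer (Q : Set G) ≤ Q) (hEQ : E ≤ Q) (hY : Odd (Nat.card Y))
    (hEY : ∀ e ∈ E, ∀ y ∈ Y, Commute e y) {a : G} (ha : a ∈ normalizer (Y : Set G))
    (haE : ∀ e ∈ E, Commute a e) (hs : ∀ s ∈ Q, s⁻¹ * (a * s * a⁻¹) ∈ E) {y : G} (hy : y ∈ Y) :
    Commute y a := by
  haveI : Fact (Nat.Prime 2) := ⟨Nat.prime_two⟩
  let K : Subgroup G :=
    { carrier := {g | (∀ e ∈ E, Commute g e) ∧ ∀ s ∈ Q, s⁻¹ * (g * s * g⁻¹) ∈ E}
      one_mem' := ⟨fun e _ => Commute.one_left e, fun s _ => by simp⟩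
      mul_mem' := by
        rintro g h ⟨g1, g2⟩ ⟨h1, h2⟩
        refine ⟨fun e he => (g1 e he).mul_left (h1 e he), fun s hs => ?_⟩
        have e1 := (g1 _ (h2 s hs)).eq
        have : s⁻¹ * (g * h * s * (g * h)⁻¹) =
            (s⁻¹ * (g * s * g⁻¹)) * (s⁻¹ * (h * s * h⁻¹)) := by
          calc s⁻¹ * (g * h * s * (g * h)⁻¹)
              = (s⁻¹ * (g * s * g⁻¹)) * (g * (s⁻¹ * (h * s * h⁻¹))) * g⁻¹ := by group
            _ = _ := by rw [e1]; group
        rw [this]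
        exact E.mul_mem (g2 s hs) (h2 s hs)
      inv_mem' := by
        rintro g ⟨g1, g2⟩
        refine ⟨fun e he => (g1 e he).inv_left, fun s hs => ?_⟩
        have := E.inv_mem (g2 _ (hn.conj_mem _ hs g⁻¹))
        convert this using 1; group }
  have haK : a ∈ K := ⟨haE, hs⟩
  have hyK : y * a * y⁻¹ ∈ K := by
    refine ⟨fun e he => ((hEY e he y hy).symm.mul_left (haE e he)).mul_left
      (hEY e he y hy).symm.inv_left, fun s hs' => ?_⟩
    have h1 := hs _ (hn.conj_mem _ hs' y⁻¹)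
    have h2 := (hEY _ h1 y hy).eq
    have : s⁻¹ * (y * a * y⁻¹ * s * (y * a * y⁻¹)⁻¹) =
        y * ((y⁻¹ * s * y⁻¹⁻¹)⁻¹ * (a * (y⁻¹ * s * y⁻¹⁻¹) * a⁻¹)) * y⁻¹ := by group
    rw [this, ← h2, mul_inv_cancel_right]
    exact h1
  have hu : y * a * y⁻¹ * a⁻¹ ∈ K ⊓ Y := by
    refine ⟨K.mul_mem hyK (K.inv_mem haK), ?_⟩
    rw [show y * a * y⁻¹ * a⁻¹ = y * (a * y⁻¹ * a⁻¹) by group]
    exact Y.mul_mem hy (nconj_mem ha (Y.inv_mem hy))
  have h1 : Q ≤ centralizer ((K ⊓ Y : Subgroup G) : Set G) := by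
    refine H4.le_centralizer_of_stable (N := E) ?_ ?_ ?_
    · exact H4.coprime_card_of_isPGroup (p := 2)
        (H3.coprime_card_of_le inf_le_right (Nat.coprime_two_right.2 hY)) (hQ.to_le hEQ)
    · intro e he k hk
      exact (hk.1.1 e he).eq
    · rw [commutator_le]
      intro s hs k hk
      have := hk.1.2 _ (Q.inv_mem hs)
      rw [commutatorElement_def]
      convert this using 1; group
  have h2 : y * a * y⁻¹ * a⁻¹ ∈ Q := hC (fun s hs => (h1 hs _ hu).symm)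
  exact commutatorElement_eq_one_iff_commute.1 (eq_one_of_two_of_odd hQ hY h2 hu.2)

theorem scn_core_one [Finite G] {Q A Y : Subgroup G} [hn : Q.Normal] (hQ : IsPGroup 2 Q)
    (hC : centralizer (Q : Set G) ≤ Q) (hA : IsPGroup 2 A) (hQA : Q ≤ normalizer (A : Set G))
    (hab : A ≤ centralizer (A : Set G)) (hsc : Q ⊓ centralizer (A : Set G) ≤ A)
    (hY : Odd (Nat.card Y)) (hAY : A ≤ normalizer (Y : Set G)) : Y = ⊥ := by
  haveI : Fact (Nat.Prime 2) := ⟨Nat.prime_two⟩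
  have hEY : ∀ e ∈ A ⊓ Q, ∀ y ∈ Y, Commute e y := fun e he y hy =>
    commute_of_mem_normal hQ hY he.2 (hAY he.1) hy
  have h1 : A ≤ centralizer (Y : Set G) := by
    intro a ha y hy
    refine (stab_commute hQ hC (E := A ⊓ Q) inf_le_right hY hEY (hAY ha)
      (fun e he => hab he.1 a ha) (fun s hs => ⟨?_, ?_⟩) hy).eq
    · rw [show s⁻¹ * (a * s * a⁻¹) = (s⁻¹ * a * s) * a⁻¹ by group]
      exact A.mul_mem (nconj_mem' (hQA hs) ha) (A.inv_mem ha)
    · exact Q.mul_mem (Q.inv_mem hs) (hn.conj_mem _ hs a)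
  have h2 : Q ≤ centralizer (Y : Set G) :=
    H4.thompson_p_times_q hA (Nat.coprime_two_right.2 hY) hQ h1
      (by rw [normalizer_eq_top]; exact le_top) (by rw [normalizer_eq_top]; exact le_top)
      (hsc.trans h1)
  rw [eq_bot_iff]
  intro y hy
  exact eq_one_of_two_of_odd hQ hY (hC (fun s hs => (h2 hs y hy).symm)) hy

theorem scn_core_two [Finite G] {Q P A Y : Subgroup G} [hn : Q.Normal] (hQ : IsPGroup 2 Q)
    (hC : centralizer (Q : Set G) ≤ Q)
    (hidx : ∀ q ∈ Q, ∀ q' ∈ Q, q ∉ P → q' ∉ P → q⁻¹ * q' ∈ P) (hAP : A ≤ P)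
    (hsc : P ⊓ centralizer (A : Set G) ≤ A) {z : G} (hzA : z ∈ A)
    (hz : z ∈ centralizer (P : Set G)) (hzz : z * z = 1)
    (hY : Odd (Nat.card Y)) (hAY : A ≤ normalizer (Y : Set G)) {y : G} (hy : y ∈ Y) :
    Commute y z := by
  by_cases hzQ : ∀ q ∈ Q, q * z = z * q
  · exact (commute_of_mem_normal hQ hY (hC hzQ) (hAY hzA) hy).symm
  push Not at hzQ
  obtain ⟨q, hq, hqz⟩ := hzQ
  have hqP : q ∉ P := fun e => hqz (hz q e)
  set w := q * z * q⁻¹ * z⁻¹ with hw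
  have hw1 : w ≠ 1 := fun e => hqz (by
    calc q * z = w * (z * q) := by rw [hw]; group
      _ = z * q := by rw [e, one_mul])
  have hwQ : w ∈ Q := by
    rw [hw, show q * z * q⁻¹ * z⁻¹ = q * (z * q⁻¹ * z⁻¹) by group]
    exact Q.mul_mem hq (hn.conj_mem _ (Q.inv_mem hq) z)
  have hall : ∀ s ∈ Q, (s ∈ P ∧ s * z * s⁻¹ * z⁻¹ = 1) ∨ (s ∉ P ∧ s * z * s⁻¹ * z⁻¹ = w) := by
    intro s hs
    by_cases e : s ∈ P
    · left; refine ⟨e, ?_⟩; rw [hz s e]; group
    · right; refine ⟨e, ?_⟩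
      have h1 := hz _ (hidx q hq s hs hqP e)
      calc s * z * s⁻¹ * z⁻¹ = q * (q⁻¹ * s * z) * s⁻¹ * z⁻¹ := by group
        _ = w := by rw [h1, hw]; group
  have hwA : w ∈ centralizer (A : Set G) := by
    intro a ha
    have h1 := hz a (hAP ha)
    have h2 : a * w * a⁻¹ = (a * q * a⁻¹) * z * (a * q * a⁻¹)⁻¹ * z⁻¹ := by
      have e : a * z * a⁻¹ = z := by rw [h1]; group
      calc a * w * a⁻¹ = (a * q * a⁻¹) * (a * z * a⁻¹) * (a * q * a⁻¹)⁻¹ * (a * z * a⁻¹)⁻¹ := by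
            rw [hw]; group
        _ = _ := by rw [e]
    rcases hall _ (hn.conj_mem _ hq a) with ⟨_, e⟩ | ⟨_, e⟩
    · exact absurd (by calc w = a⁻¹ * (a * w * a⁻¹) * a := by group
        _ = 1 := by rw [h2, e]; group) hw1
    · rw [← h2] at e
      exact mul_inv_eq_iff_eq_mul.1 e
  have hwz : z * w = w * z := hwA z hzA
  have hwP : w ∈ P := by
    rcases hall w hwQ with ⟨e, _⟩ | ⟨_, e⟩
    · exact e
    · exact absurd (by rw [← e, ← hwz]; group) hw1
  have hwA' : w ∈ A := hsc ⟨hwP, hwA⟩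
  refine stab_commute hQ hC (E := zpowers w) (zpowers_le.2 hwQ) hY ?_ (hAY hzA) ?_ ?_ hy
  · rintro _ ⟨k, rfl⟩ y hy
    exact (commute_of_mem_normal hQ hY hwQ (hAY hwA') hy).zpow_left k
  · rintro _ ⟨k, rfl⟩
    exact (show Commute z w from hwz).zpow_right k
  · intro s hs
    have : s⁻¹ * (z * s * z⁻¹) = s⁻¹ * z * s⁻¹⁻¹ * z⁻¹ := by group
    rw [this]
    rcases hall _ (Q.inv_mem hs) with ⟨_, e⟩ | ⟨_, e⟩ <;> rw [e]
    · exact one_mem _
    · exact mem_zpowers w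

section Quot
variable {X : Subgroup G} {H : Type*} [Group H]

/-- Image of `K ⊓ X` under a homomorphism on `X`. -/
abbrev im (f : X →* H) (K : Subgroup G) : Subgroup H := (K.subgroupOf X).map f

theorem mem_im {f : X →* H} {K : Subgroup G} {y : H} :
    y ∈ im f K ↔ ∃ x : X, (x : G) ∈ K ∧ f x = y := Iff.rfl

theorem im_mono (f : X →* H) {K L : Subgroup G} (h : K ≤ L) : im f K ≤ im f L :=
  map_mono (comap_mono h)

theorem isPGroup_im {p : ℕ} (f : X →* H) {K : Subgroup G} (h : IsPGroup p K) :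
    IsPGroup p (im f K) := (h.comap_subtype).map f

theorem odd_card_im [Finite G] (f : X →* H) {K : Subgroup G} (h : Odd (Nat.card K)) :
    Odd (Nat.card (im f K)) := by
  refine h.of_dvd_nat ((card_map_dvd _ f).trans ?_)
  rw [← Nat.card_congr ((K.subgroupOf X).equivMapOfInjective X.subtype
    X.subtype_injective).symm.toEquiv]
  exact card_dvd_of_le (by rw [subgroupOf_map_subtype]; exact inf_le_left)

theorem im_le_normalizer [Finite H] (f : X →* H) {K L : Subgroup G}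
    (h : K ≤ normalizer (L : Set G)) : im f K ≤ normalizer ((im f L : Subgroup H) : Set H) := by
  rintro _ ⟨x, hx, rfl⟩
  apply mem_normalizer_of_cj_le
  rintro _ ⟨_, ⟨y, hy, rfl⟩, rfl⟩
  exact ⟨x * y * x⁻¹, (nconj_mem (h hx) hy : (x : G) * y * (x : G)⁻¹ ∈ L), by simp⟩

theorem im_le_centralizer (f : X →* H) {K L : Subgroup G}
    (h : K ≤ centralizer (L : Set G)) : im f K ≤ centralizer ((im f L : Subgroup H) : Set H) := by
  rintro _ ⟨x, hx, rfl⟩ _ ⟨y, hy, rfl⟩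
  rw [← map_mul, ← map_mul]
  exact congrArg f (Subtype.ext (h hx y hy))

theorem im_scn [Finite G] (f : X →* H) (hf : Odd (Nat.card f.ker)) {P A : Subgroup G}
    (hP : IsPGroup 2 P) (hAP : A ≤ P) (hAX : A ≤ X) (h : P ⊓ centralizer (A : Set G) ≤ A) :
    im f P ⊓ centralizer ((im f A : Subgroup H) : Set H) ≤ im f A := by
  rintro _ ⟨⟨x, hx, rfl⟩, hc⟩
  refine ⟨x, h ⟨hx, fun a ha => ?_⟩, rfl⟩
  have h1 := hc _ ⟨⟨a, hAX ha⟩, ha, rfl⟩
  have h2 : ⁅(⟨a, hAX ha⟩ : X), x⁆ = 1 := by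
    refine eq_one_of_two_of_odd (Q := P.subgroupOf X) hP.comap_subtype hf ?_ ?_
    · exact P.mul_mem (P.mul_mem (P.mul_mem (hAP ha) hx) (P.inv_mem (hAP ha))) (P.inv_mem hx)
    · rw [MonoidHom.mem_ker, map_commutatorElement]
      exact commutatorElement_eq_one_iff_mul_comm.2 h1
  exact congrArg Subtype.val (commutatorElement_eq_one_iff_mul_comm.1 h2)

theorem le_im_of_isSyl [Finite G] {f : X →* H} (hf : Function.Surjective f) {P : Subgroup G}
    (hP : IsSyl 2 P X) {Q : Subgroup H} [Q.Normal] (hQ : IsPGroup 2 Q) : Q ≤ im f P := by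
  haveI : Fact (Nat.Prime 2) := ⟨Nat.prime_two⟩
  have h1 := (isSyl_top hP.toSylow).map f
  rw [hP.coe_toSylow, ← MonoidHom.range_eq_map, MonoidHom.range_eq_top.2 hf] at h1
  exact h1.ge_of_le_normalizer hQ le_top (by rw [normalizer_eq_top]; exact le_top)

end Quot

theorem odd_card_Opp [Finite G] (X : Subgroup G) : Odd (Nat.card (H52.Opp 2 X)) := by
  rw [Nat.card_congr ((pPrimeCore 2 X).equivMapOfInjective X.subtype
    X.subtype_injective).symm.toEquiv]
  exact Nat.coprime_two_right.1 (H3.pPrimeCore_coprime 2 X)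

theorem odd_ker_mk [Finite G] :
    Odd (Nat.card (QuotientGroup.mk' (pPrimeCore 2 G)).ker) := by
  rw [QuotientGroup.ker_mk']
  exact Nat.coprime_two_right.1 (H3.pPrimeCore_coprime 2 G)

theorem le_Opp_of_scn [Finite G] {X P A Y : Subgroup G} (hX : IsPConstrained 2 X)
    (hP : IsSyl 2 P X) (hA : IsSCN P A) (hY : Odd (Nat.card Y)) (hYX : Y ≤ X)
    (hAY : A ≤ normalizer (Y : Set G)) : Y ≤ H52.Opp 2 X := by
  haveI : Fact (Nat.Prime 2) := ⟨Nat.prime_two⟩
  set f := QuotientGroup.mk' (pPrimeCore 2 X) with hf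
  have hQ := H3.pCore_isPGroup 2 (X ⧸ pPrimeCore 2 X)
  have hle := le_im_of_isSyl (QuotientGroup.mk'_surjective _) hP hQ
  have h1 : im f Y = ⊥ := by
    refine scn_core_one hQ (H51.isPConstrained_iff.1 hX) (A := im f A)
      (isPGroup_im f (hP.isPGroup.to_le hA.1)) (hle.trans (im_le_normalizer f hA.2.1))
      (im_le_centralizer f (hA.2.2.ge.trans inf_le_right)) ?_ (odd_card_im f hY)
      (im_le_normalizer f hAY)
    exact (inf_le_inf_right _ hle).trans
      (im_scn f odd_ker_mk hP.isPGroup hA.1 (hA.1.trans hP.le) hA.2.2.le)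
  intro y hy
  have : f ⟨y, hYX hy⟩ ∈ im f Y := ⟨_, hy, rfl⟩
  rw [h1, mem_bot] at this
  exact ⟨_, (QuotientGroup.eq_one_iff _).1 this, rfl⟩

theorem le_Opp_of_index_two [Finite G] {X P₂ P A Y : Subgroup G} (hX : IsPConstrained 2 X)
    (hP : IsSyl 2 P₂ X) (h12 : P ≤ P₂)
    (hidx : ∀ q ∈ P₂, ∀ q' ∈ P₂, q ∉ P → q' ∉ P → q⁻¹ * q' ∈ P) (hAP : A ≤ P)
    (hsc : P ⊓ centralizer (A : Set G) ≤ A) {z : G} (hzA : z ∈ A)
    (hz : z ∈ centralizer (P : Set G)) (hzz : z * z = 1)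
    (hY : Odd (Nat.card Y)) (hYX : Y ≤ X) (hAY : A ≤ normalizer (Y : Set G))
    (hYz : Y ⊓ centralizer {z} ≤ H52.Opp 2 X) : Y ≤ H52.Opp 2 X := by
  haveI : Fact (Nat.Prime 2) := ⟨Nat.prime_two⟩
  set f := QuotientGroup.mk' (pPrimeCore 2 X) with hf
  have hQ := H3.pCore_isPGroup 2 (X ⧸ pPrimeCore 2 X)
  have hle := le_im_of_isSyl (QuotientGroup.mk'_surjective _) hP hQ
  have hAX : A ≤ X := hAP.trans (h12.trans hP.le)
  have hzX : z ∈ X := hAX hzA
  intro y hy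
  have h1 : Commute (f ⟨y, hYX hy⟩) (f ⟨z, hzX⟩) := by
    refine scn_core_two hQ (H51.isPConstrained_iff.1 hX) (P := im f P) (A := im f A) ?_
      (im_mono f hAP) (im_scn f odd_ker_mk (hP.isPGroup.to_le h12) hAP hAX hsc) ⟨_, hzA, rfl⟩
      (im_le_centralizer f (K := zpowers z) (zpowers_le.2 hz) ⟨_, mem_zpowers z, rfl⟩)
      (by rw [← map_mul, ← map_one f]; exact congrArg f (Subtype.ext hzz))
      (odd_card_im f hY) (im_le_normalizer f hAY) ⟨_, hy, rfl⟩
    intro q hq q' hq' h1 h2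
    obtain ⟨x, hx, rfl⟩ := hle hq
    obtain ⟨x', hx', rfl⟩ := hle hq'
    exact ⟨x⁻¹ * x', hidx x hx x' hx' (fun e => h1 ⟨x, e, rfl⟩) (fun e => h2 ⟨x', e, rfl⟩),
      by rw [map_mul, map_inv]⟩
  have h2 : y * z * y⁻¹ * z ∈ H52.Opp 2 X ⊓ Y := by
    have hzi : z⁻¹ = z := inv_eq_of_mul_eq_one_right hzz
    constructor
    · refine ⟨⁅(⟨y, hYX hy⟩ : X), ⟨z, hzX⟩⁆, ?_, by simp [commutatorElement_def, hzi]⟩
      refine (QuotientGroup.eq_one_iff _).1 ?_
      change f _ = 1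
      rw [map_commutatorElement]
      exact commutatorElement_eq_one_iff_commute.2 h1
    · have := Y.mul_mem hy (nconj_mem (hAY hzA) (Y.inv_mem hy))
      rw [hzi, ← mul_assoc, ← mul_assoc] at this
      exact this
  obtain ⟨c, hc, hcz, -⟩ := exists_conj_of_mul_mem (Y := H52.Opp 2 X ⊓ Y)
    (hY.of_dvd_nat (card_dvd_of_le inf_le_right)) hzz (t := y * z * y⁻¹)
    (by calc y * z * y⁻¹ * (y * z * y⁻¹) = y * (z * z) * y⁻¹ := by group
      _ = 1 := by rw [hzz]; group) h2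
  have h3 : c⁻¹ * y ∈ Y ⊓ centralizer {z} := by
    refine ⟨Y.mul_mem (Y.inv_mem hc.2) hy, conj_eq_iff_mem_cent.1 ?_⟩
    calc c⁻¹ * y * z * (c⁻¹ * y)⁻¹ = c⁻¹ * (y * z * y⁻¹) * c := by group
      _ = z := by rw [← hcz]; group
  have := (H52.Opp 2 X).mul_mem hc.1 (hYz h3)
  rwa [mul_inv_cancel_left] at this

/-- `⟨z, b⟩` is a four-subgroup of `A` normal in `S`, with `z` central in `S`. -/
structure NF (S A : Subgroup G) (z b : G) : Prop where
  zA : z ∈ A
  bA : b ∈ A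
  oz : orderOf z = 2
  ob : orderOf b = 2
  ne : b ≠ z
  zc : z ∈ centralizer (S : Set G)
  conj : ∀ s ∈ S, s * b * s⁻¹ = b ∨ s * b * s⁻¹ = z * b

/-- The elements of order at most two of an abelian subgroup. -/
def omegaTwo (A : Subgroup G) (hA : A ≤ centralizer (A : Set G)) : Subgroup G where
  carrier := {a | a ∈ A ∧ a * a = 1}
  one_mem' := ⟨one_mem _, mul_one _⟩
  mul_mem' := by
    rintro a b ⟨ha, ha'⟩ ⟨hb, hb'⟩
    refine ⟨A.mul_mem ha hb, ?_⟩
    calc a * b * (a * b) = a * (b * a) * b := by group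
      _ = a * (a * b) * b := by rw [hA ha b hb]
      _ = (a * a) * (b * b) := by group
      _ = 1 := by rw [ha', hb', one_mul]
  inv_mem' := by
    rintro a ⟨ha, ha'⟩
    exact ⟨A.inv_mem ha, by rw [← mul_inv_rev, ha', inv_one]⟩

theorem omegaTwo_le {A : Subgroup G} (hA : A ≤ centralizer (A : Set G)) : omegaTwo A hA ≤ A :=
  fun _ h => h.1

theorem isEA_omegaTwo {A : Subgroup G} (hA : A ≤ centralizer (A : Set G)) :
    IsElementaryAbelian 2 (omegaTwo A hA) :=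
  ⟨⟨⟨fun a b => Subtype.ext (hA b.2.1 a a.2.1)⟩⟩, fun a ha => by rw [pow_two]; exact ha.2⟩

theorem normalizer_le_omegaTwo [Finite G] {A : Subgroup G} (hA : A ≤ centralizer (A : Set G)) :
    normalizer (A : Set G) ≤ normalizer ((omegaTwo A hA : Subgroup G) : Set G) := by
  intro n hn
  apply mem_normalizer_of_cj_le
  rintro _ ⟨x, hx, rfl⟩
  refine ⟨nconj_mem hn hx.1, ?_⟩
  change n * x * n⁻¹ * (n * x * n⁻¹) = 1
  calc n * x * n⁻¹ * (n * x * n⁻¹) = n * (x * x) * n⁻¹ := by group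
    _ = 1 := by rw [hx.2]; group

theorem le_card_omegaTwo [Finite G] {A : Subgroup G} (hA : A ≤ centralizer (A : Set G)) {k : ℕ}
    (h : ¬ PRankLE 2 k A) : 2 ^ (k + 1) ≤ Nat.card (omegaTwo A hA) := by
  haveI : Fact (Nat.Prime 2) := ⟨Nat.prime_two⟩
  obtain ⟨V, hV, hE, hc⟩ := not_pRankLE_iff.1 h
  rw [← hc]
  exact card_le_of_le (fun v hv => ⟨hV hv, by rw [← pow_two]; exact hE.2 v hv⟩)

theorem isPGroup_of_sq {E : Subgroup G} (h : ∀ e ∈ E, e * e = 1) : IsPGroup 2 E :=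
  fun e => ⟨1, Subtype.ext (by simpa [pow_two] using h e e.2)⟩

theorem mem_zpowers_two {z x : G} (hz : z * z = 1) (hx : x ∈ zpowers z) : x = 1 ∨ x = z := by
  obtain ⟨k, rfl⟩ := hx
  have h2 : z ^ (2 : ℤ) = 1 := by rw [zpow_two, hz]
  rcases Int.even_or_odd' k with ⟨m, rfl | rfl⟩
  · left; simp only; rw [zpow_mul, h2, one_zpow]
  · right; simp only; rw [zpow_add, zpow_mul, h2, one_zpow, one_mul, zpow_one]

theorem exists_NF [Finite G] {S A : Subgroup G} (hS : IsPGroup 2 S) (hA : IsSCN S A)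
    (h : ¬ PRankLE 2 1 A) : ∃ z b, NF S A z b := by
  haveI : Fact (Nat.Prime 2) := ⟨Nat.prime_two⟩
  have hab : A ≤ centralizer (A : Set G) := hA.2.2.ge.trans inf_le_right
  set E := omegaTwo A hab
  have h4 := le_card_omegaTwo hab h
  have hE : IsPGroup 2 E := isPGroup_of_sq (fun e he => he.2)
  have hn : S ≤ normalizer (E : Set G) := hA.2.1.trans (normalizer_le_omegaTwo hab)
  obtain ⟨z, hzE, hzc, hz1, -⟩ := exists_fixed_of_normalized hS hE hn (by
    intro e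
    change 2 ^ (1 + 1) ≤ Nat.card E at h4
    rw [e, card_bot] at h4; norm_num at h4)
  have hz : orderOf z = 2 := H9.orderOf_eq_two_iff.2 ⟨hz1, hzE.2⟩
  obtain ⟨b, hb, hbz, hc⟩ := H54.exists_not_mem_commutator_mem_of_isPGroup hE hS hn
    (N := zpowers z) (fun e => by
      have := card_le_of_le e
      rw [Nat.card_zpowers, hz] at this
      change 2 ^ (1 + 1) ≤ Nat.card E at h4
      omega)
  refine ⟨z, b, hzE.1, hb.1, hz, H9.orderOf_eq_two_iff.2 ⟨fun e => hbz (e ▸ one_mem _), hb.2⟩,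
    fun e => hbz (e ▸ mem_zpowers _), hzc, fun s hs => ?_⟩
  have h1 := (zpowers z).inv_mem (hc s (mem_sup_left hs))
  have h2 : s * b * s⁻¹ = ⁅b, s⁆⁻¹ * b := by rw [commutatorElement_def]; group
  rw [h2]
  rcases mem_zpowers_two hzE.2 h1 with e | e <;> rw [e]
  · left; exact one_mul b
  · right; rfl

namespace NF
variable {S A : Subgroup G} {z b : G}

theorem zz (h : NF S A z b) : z * z = 1 := H9.mul_self_of_orderOf_two h.oz
theorem bb (h : NF S A z b) : b * b = 1 := H9.mul_self_of_orderOf_two h.ob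

theorem mul (h : NF S A z b) (hAS : A ≤ S) : NF S A z (z * b) := by
  have hc : b * z = z * b := h.zc b (hAS h.bA)
  refine ⟨h.zA, A.mul_mem h.zA h.bA, h.oz, H9.orderOf_eq_two_iff.2 ⟨fun e => h.ne ?_, ?_⟩,
    fun e => H9.ne_one_of_orderOf_two h.ob (by simpa using e), h.zc, fun s hs => ?_⟩
  · rw [eq_inv_of_mul_eq_one_right e, inv_eq_of_mul_eq_one_right h.zz]
  · calc z * b * (z * b) = z * (b * z) * b := by group
      _ = (z * z) * (b * b) := by rw [hc]; group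
      _ = 1 := by rw [h.zz, h.bb, one_mul]
  · have e : s * (z * b) * s⁻¹ = z * (s * b * s⁻¹) := by
      rw [← mul_assoc, h.zc s hs]; group
    rw [e]
    rcases h.conj s hs with e1 | e1 <;> rw [e1]
    · left; rfl
    · right; rfl

theorem card_le [Finite G] (h : NF S A z b) :
    Nat.card S ≤ 2 * Nat.card ↥(S ⊓ centralizer {b}) := by
  have h0 : Nat.card ((centralizer {b}).subgroupOf S) = Nat.card ↥(S ⊓ centralizer {b}) := by
    rw [← inf_subgroupOf_left, Nat.card_congr (subgroupOfEquivOfLe inf_le_left).toEquiv]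
  rw [← h0, ← ((centralizer {b}).subgroupOf S).index_mul_card]
  refine Nat.mul_le_mul_right _ ?_
  by_cases e : ∀ s ∈ S, s * b * s⁻¹ = b
  · have : (centralizer {b}).subgroupOf S = ⊤ :=
      subgroupOf_eq_top.2 (fun s hs => conj_eq_iff_mem_cent.1 (e s hs))
    rw [this, index_top]; norm_num
  · push Not at e
    obtain ⟨a, ha, hab⟩ := e
    have hab' := (h.conj a ha).resolve_left hab
    refine (index_eq_two_iff.2 ⟨⟨a, ha⟩, fun s => ?_⟩).le
    have e1 : (s : G) * a * b * ((s : G) * a)⁻¹ = z * (s * b * (s : G)⁻¹) := by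
      calc (s : G) * a * b * ((s : G) * a)⁻¹ = s * (a * b * a⁻¹) * (s : G)⁻¹ := by group
        _ = z * (s * b * (s : G)⁻¹) := by rw [hab', ← mul_assoc, h.zc s s.2]; group
    have hne : z * b ≠ b := fun e => H9.ne_one_of_orderOf_two h.oz (by simpa using e)
    simp only [mem_subgroupOf, ← conj_eq_iff_mem_cent, coe_mul, e1]
    rcases h.conj s s.2 with e | e <;> rw [e]
    · right; exact ⟨rfl, hne⟩
    · left; exact ⟨by rw [← mul_assoc, h.zz, one_mul], hne⟩

variable [Finite G]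

theorem le_theta_z (S : Sylow 2 G) (h : NF (S : Subgroup G) A z b) (hA : IsSCN (S : Subgroup G) A)
    (hcon : ∀ t : G, orderOf t = 2 → IsPConstrained 2 (centralizer ({t} : Set G)))
    {Y : Subgroup G} (hY : Odd (Nat.card Y)) (hAY : A ≤ normalizer (Y : Set G))
    (hc : Y ≤ centralizer {z}) : Y ≤ centralizerPPrimeCore 2 z :=
  le_Opp_of_scn (hcon z h.oz)
    (isSyl_of_sylow_le S (le_centralizer_singleton_iff.2 h.zc)) hA hY hc hAY

theorem le_theta_b (S : Sylow 2 G) (h : NF (S : Subgroup G) A z b) (hA : IsSCN (S : Subgroup G) A)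
    (hcon : ∀ t : G, orderOf t = 2 → IsPConstrained 2 (centralizer ({t} : Set G)))
    {Y : Subgroup G} (hY : Odd (Nat.card Y)) (hAY : A ≤ normalizer (Y : Set G))
    (hc : Y ≤ centralizer {b}) : Y ≤ centralizerPPrimeCore 2 b := by
  haveI : Fact (Nat.Prime 2) := ⟨Nat.prime_two⟩
  have hab : A ≤ centralizer (A : Set G) := hA.2.2.ge.trans inf_le_right
  obtain ⟨P₂, hP₂, h12⟩ := exists_isSyl_ge (p := 2) (Q := (S : Subgroup G) ⊓ centralizer {b})
    (S.isPGroup'.to_le inf_le_left) inf_le_right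
  have hAb : A ≤ centralizer {b} := le_centralizer_singleton_iff.2 (hab h.bA)
  have hAz : A ≤ centralizer {z} := le_centralizer_singleton_iff.2 (hab h.zA)
  refine le_Opp_of_index_two (hcon b h.ob) hP₂ h12 ?_ (le_inf hA.1 hAb)
    ((inf_le_inf_right _ inf_le_left).trans hA.2.2.le) h.zA
    (fun s hs => h.zc s hs.1) h.zz hY hc hAY ?_
  · have h1 := ((isSyl_top S).card_le hP₂.isPGroup le_top).trans h.card_le
    set P := (S : Subgroup G) ⊓ centralizer {b}
    have h2 := (P.subgroupOf P₂).index_mul_card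
    rw [Nat.card_congr (subgroupOfEquivOfLe h12).toEquiv] at h2
    have h3 : (P.subgroupOf P₂).index ≤ 2 := by
      rw [← h2] at h1
      exact Nat.le_of_mul_le_mul_right h1 Nat.card_pos
    have h4 : (P.subgroupOf P₂).index ≠ 0 := index_ne_zero_of_finite
    intro q hq q' hq' e e'
    rcases (by omega : (P.subgroupOf P₂).index = 1 ∨ (P.subgroupOf P₂).index = 2) with h5 | h5
    · exact absurd (subgroupOf_eq_top.1 (index_eq_one.1 h5) hq) e
    · exact (mul_mem_iff_of_index_two h5 (a := ⟨q⁻¹, inv_mem hq⟩) (b := ⟨q', hq'⟩)).2 (by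
        simp only [mem_subgroupOf, inv_mem_iff]
        exact ⟨fun h => absurd h e, fun h => absurd h e'⟩)
  · refine le_trans ?_ (H86.theta_inf_le_Opp (hcon b h.ob) (hAb h.zA)
      (S.isPGroup'.to_le (zpowers_le.2 (hA.1 h.zA))))
    refine le_inf (h.le_theta_z S hA hcon (hY.of_dvd_nat (card_dvd_of_le inf_le_left)) ?_
      inf_le_right) (inf_le_left.trans hc)
    exact le_normalizer_inf hAY (hAz.trans le_normalizer)

end NF

/-- Every `A`-invariant subgroup of odd order of a 2-constrained `X ≥ A` lies in `O(X)`. -/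
theorem le_Opp_of_scn_two [Finite G] (S : Sylow 2 G) {A : Subgroup G}
    (hA : IsSCN (S : Subgroup G) A) (h2 : ¬ PRankLE 2 1 A)
    (hcon : ∀ t : G, orderOf t = 2 → IsPConstrained 2 (centralizer ({t} : Set G)))
    {X : Subgroup G} (hX : IsPConstrained 2 X) (hAX : A ≤ X)
    {Y : Subgroup G} (hY : Odd (Nat.card Y)) (hAY : A ≤ normalizer (Y : Set G))
    (hc : Y ≤ X) : Y ≤ H52.Opp 2 X := by
  haveI : Fact (Nat.Prime 2) := ⟨Nat.prime_two⟩
  obtain ⟨z, b, h⟩ := exists_NF S.isPGroup' hA h2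
  have hab : A ≤ centralizer (A : Set G) := hA.2.2.ge.trans inf_le_right
  have key : ∀ d ∈ A, Y ⊓ centralizer {d} ≤ centralizerPPrimeCore 2 d → ∀ c ∈ Y, Commute d c →
      c ∈ H52.Opp 2 X := fun d hd hle c hcY hdc =>
    H86.theta_inf_le_Opp hX (hAX hd) (S.isPGroup'.to_le (zpowers_le.2 (hA.1 hd)))
      ⟨hle ⟨hcY, mem_cent_iff_comm.2 hdc⟩, hc hcY⟩
  have k1 : ∀ d, Odd (Nat.card ↥(Y ⊓ centralizer {d})) := fun d =>
    hY.of_dvd_nat (card_dvd_of_le inf_le_left)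
  have k2 : ∀ d ∈ A, A ≤ normalizer ((Y ⊓ centralizer {d} : Subgroup G) : Set G) := fun d hd =>
    le_normalizer_inf hAY ((le_centralizer_singleton_iff.2 (hab hd)).trans le_normalizer)
  intro y hy
  obtain ⟨c₁, h₁, c₃, h₃, c₂, h₂, e₁, e₃, e₂, rfl⟩ :=
    four_factorization hY (hAY h.zA) (hAY h.bA) h.zz h.bb (hab h.bA z h.zA) hy
  refine mul_mem (mul_mem ?_ ?_) ?_
  · exact key z h.zA (h.le_theta_z S hA hcon (k1 z) (k2 z h.zA) inf_le_right) _ h₁ e₁
  · exact key _ (h.mul hA.1).bA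
      ((h.mul hA.1).le_theta_b S hA hcon (k1 _) (k2 _ (h.mul hA.1).bA) inf_le_right) _ h₃ e₃
  · exact key b h.bA (h.le_theta_b S hA hcon (k1 b) (k2 b h.bA) inf_le_right) _ h₂ e₂

end Cfsg.Agent.H81
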