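import Cfsg.Agent.H45.TiL6
import Cfsg.Agent.H83.Cores

/-! Project TI, piece HQ1: `A V` is strongly closed when `h = q`. -/

set_option autoImplicit false

namespace Cfsg.Agent.H81.TI

open Cfsg Subgroup Cfsg.Agent.H6.TI
open Cfsg.Agent.H83 (cj)
open scoped Cfsg.Agent.H63 commutatorElement

universe u

variable {G : Type u} [Group G] [Finite G] {Ω : Set (Subgroup G)} {A B P Q : Subgroup G}

theorem fix_pt {I : Subgroup G} (hI : IsPGroup 2 I) (h0 : I ≠ ⊥) {g : G} (hg : Is2 g)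
    (hn : g ∈ N[I]) : ∃ i ∈ I, i ≠ 1 ∧ i * g = g * i := by
  obtain ⟨k, hk⟩ := hg
  obtain ⟨i, hi, h1⟩ := (bot_or_exists_ne_one _).resolve_left
    (H83.inf_centralizer_ne_bot hI (H83.isPGroup_zpowers hk) (zpowers_le.2 hn) h0)
  exact ⟨i, hi.1, h1, (hi.2 g (mem_zpowers g)).symm⟩

section

variable (c : C0 Ω) (hq : ∀ A B, Mn Ω A B → hh A B = qq A B)
include c hq

theorem mn_of_ed (e : Ed Ω P Q) : Mn Ω P Q := by
  obtain ⟨B, f⟩ := c.ba.exMn ⟨P, Q, e⟩ P e.l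
  obtain ⟨h1, -, h2, -⟩ := c.ba.hq e
  have h3 := (c.ba.hq f.toEd).1
  have h4 := f.max P Q e
  rw [← hq P B f, ← h1] at h3
  refine ⟨e, fun P' Q' e' => (f.max P' Q' e').trans ?_⟩
  by_contra h5
  push Not at h5
  nlinarith

theorem ax_eq_of (sp : Sp Ω) (e : Mn Ω A P) (f : Mn Ω A Q) {i : G} (h1 : i ∈ ax A P)
    (h2 : i ∈ ax A Q) (h3 : i ≠ 1) : ax A P = ax A Q := by
  by_contra h
  have h4 := (c.yy.ycard sp e f h).2.1
  have h5 := (c.ba.hq e.toEd).2.1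
  rw [hq A P e, mul_eq_right₀ (by omega), card_eq_one] at h4
  exact h3 (mem_bot.1 (h4 ▸ (⟨h1, h2⟩ : i ∈ ax A P ⊓ ax A Q)))

theorem pt_of (sp : Sp Ω) (e : Mn Ω A B) {S : Subgroup G} (hS : IsPGroup 2 S)
    (le : A ⊔ ax B A ≤ S) (hP : P ∈ Ω) {d : G} (hd : d ∈ P) (d1 : d ≠ 1) (dS : d ∈ S) :
    P = A ∨ Orb A B P := by
  refine or_iff_not_imp_left.2 fun ne => ?_
  have hN : S ≤ N[A] := c.ba.syl A e.l S hS (le_sup_left.trans le)
  have hJ : ax B A ≤ S := le_sup_right.trans le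
  have f : Mn Ω A P := mn_of_ed c hq (H45.TI.ed_of c.ba e.l hP (Ne.symm ne) hd (hN dS) d1)
  obtain ⟨i, hi, i1, h1⟩ := fix_pt ((c.ba.two A e.l).to_le ax_le) e.nb (H83.isPGroup_iff.1 hS d dS)
    (c.ba.l4n e.toEd S hS hN hJ dS)
  have hI := ax_eq_of c hq sp e f hi ((H45.TI.cA' c.ba f.toEd hi.1 ⟨hd, hN dS⟩ d1).1 h1) i1
  rcases c.l6.l6a e f hI d ⟨hd, hN dS⟩ d1 (c.l6.l6 e (e.cjN c.toTI (hN dS)) S hS hN hJ (by
    rw [(ax_cjN (hN dS) B).2]; exact H83.cj_le_of_mem hJ dS)).2 with rfl | h2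
  · exact ⟨1, one_mem _, (H83.cj_one _).symm⟩
  · exact c.l6.gh e f hI h2 (hq A B e)

theorem mem_of (sp : Sp Ω) (e : Mn Ω A B) {S : Subgroup G} (hS : IsPGroup 2 S)
    (le : A ⊔ ax B A ≤ S) (hP : P ∈ Ω) {d : G} (hd : d ∈ P) (dS : d ∈ S) : d ∈ A ⊔ ax B A := by
  by_cases d1 : d = 1
  · rw [d1]; exact one_mem _
  rcases pt_of c hq sp e hS le hP hd d1 dS with rfl | ⟨a, ha, rfl⟩
  · exact mem_sup_left hd
  · have : d ∈ ax (cj a B) A := ⟨hd, c.ba.syl A e.l S hS (le_sup_left.trans le) dS⟩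
    rw [(ax_cjN (le_normalizer ha) B).2] at this
    exact H83.cj_le_of_mem le_sup_right (mem_sup_left ha) this

theorem vv_pt (e : Mn Ω A B) {v : G} (hv : v ∈ vv A B) : ∃ P ∈ Ω, v ∈ P := by
  rcases (c.bb.part e.toEd _ _ le_rfl le_rfl (hq A B e) ((c.ba.card e.toEd).1.symm.trans (hq A B e))
    fun a ha z hz => H45.TI.brk' c.ba e.toEd ha hz).1 v hv with h | ⟨a, -, h⟩
  · exact ⟨A, e.l, h⟩
  · exact ⟨_, c.conj B e.r a, h⟩

theorem sc (sp : Sp Ω) (e : Mn Ω A B) {S : Subgroup G} (hS : IsPGroup 2 S) (le : A ⊔ ax B A ≤ S)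
    {A' B' : Subgroup G} (f : Mn Ω A' B') {a j : G} (ha : a ∈ A') (hj : j ∈ ax B' A')
    (hx : a * j ∈ S) : a * j ∈ A ⊔ ax B A := by
  by_cases j1 : j = 1
  · exact mem_of c hq sp e hS le f.l (by rwa [j1, mul_one]) hx
  by_cases a1 : a ∈ ax A' B'
  · obtain ⟨P, hP, h⟩ := vv_pt c hq f (mul_mem_sup a1 hj)
    exact mem_of c hq sp e hS le hP h hx
  have h1 : a * j * (a * j) = ⁅a, j⁆ := by
    rw [commutatorElement_def, inv_eq_of_mul_eq_one_right (c.sq _ f.l a ha),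
      inv_eq_of_mul_eq_one_right (c.sq _ f.r j hj.1), ← mul_assoc]
  have h2 := H45.TI.brk' c.ba f.toEd ha hj
  have h3 : ⁅a, j⁆ ≠ 1 := fun h => a1 ((H45.TI.cA' c.ba f.toEd ha hj j1).1
    (commutatorElement_eq_one_iff_mul_comm.1 h))
  have hN : S ≤ N[A] := c.ba.syl A e.l S hS (le_sup_left.trans le)
  rcases pt_of c hq sp e hS le f.l h2.1 h3 (h1 ▸ mul_mem hx hx) with rfl | ⟨b, hb, rfl⟩
  · exact mul_mem (mem_sup_left ha) (mem_of c hq sp e hS le f.r hj.1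
      ((mul_mem_cancel_left (le (mem_sup_left ha))).1 hx))
  exfalso
  have e1 := e.cjN c.toTI (le_normalizer hb)
  have e2 := c.ba.msymm e1
  have g2 : Is2 (a * j) := H83.isPGroup_iff.1 hS _ hx
  have n1 : a * j ∈ N[cj b B] := mul_mem (le_normalizer ha) hj.2
  obtain ⟨i, hi, i1, h4⟩ := fix_pt ((c.ba.two _ f.l).to_le ax_le) e2.nb g2
    (H45.TI.norm_ax n1 (hN hx))
  rw [← mul_assoc, c.ba.mul_comm _ f.l i hi.1 a ha, mul_assoc, mul_assoc, mul_right_inj] at h4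
  have hI := ax_eq_of c hq sp e2 f hi ((H45.TI.cA' c.ba f.toEd hi.1 hj j1).1 h4) i1
  rcases c.bb.wg e2.toEd _ n1 (hN hx) g2 (fun x hx => by
    have h5 := H45.TI.brk' c.ba f.toEd hx hj
    rw [hI, show ⁅x, a * j⁆ = ⁅x, a⁆ * (a * ⁅x, j⁆ * a⁻¹) by
      simp only [commutatorElement_def]; group,
      commutatorElement_eq_one_iff_mul_comm.2 (c.ba.mul_comm _ f.l x hx a ha),
      c.ba.mul_comm _ f.l a ha _ h5.1, one_mul, mul_inv_cancel_right]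
    exact h5) with h5 | h5
  · rw [vv_comm] at h5
    have h6 := (c.bb.der e1.toEd _ (hN hx) n1 h5).2
    rw [h1] at h6
    exact h3 (H45.TI.eq_one_of_cent c.toTI c.ba e1.toEd (hI ▸ h2) h6)
  · rw [hI, relIndex_eq_one.2 fun x hx => mem_centralizer_singleton_iff.2 (by
      rw [← mul_assoc, c.ba.mul_comm _ f.l x hx.1 a ha, mul_assoc, mul_assoc,
        c.ba.comm _ f.l _ f.r f.ne x hx j hj])] at h5
    have := (c.ba.hq e2.toEd).2.1
    omega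

end

theorem hq1 : HQ1Stmt.{u} := by
  intro G _ _ Ω c sp hq A B e S le
  have dec : ∀ x ∈ A ⊔ ax B A, ∃ a ∈ A, ∃ j ∈ ax B A, a * j = x := fun x hx =>
    (H83.mem_sup_left_norm ax_le_norm).1 hx
  refine ⟨⟨le, fun x hx g hg => ?_⟩, ?_, fun x hx y hy z hz => ?_⟩
  · obtain ⟨a, ha, j, hj, rfl⟩ := dec x hx
    rw [← conj_mul] at hg ⊢
    exact sc c hq sp e S.2 le (e.cj c.toTI g) (H83.conj_mem_cj ha)
      (by rw [ax_cj]; exact H83.conj_mem_cj hj) hg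
  · obtain ⟨a, ha, a1⟩ := H45.TI.exists_not_mem c.toTI c.ba e.toEd
    obtain ⟨j, hj, j1⟩ := (bot_or_exists_ne_one _).resolve_left (c.ba.symm e.toEd).nb
    exact ⟨a, mem_sup_left ha, j, mem_sup_right hj,
      fun h => a1 ((H45.TI.cA' c.ba e.toEd ha hj j1).1 h)⟩
  · obtain ⟨a, ha, j, hj, rfl⟩ := dec x hx
    obtain ⟨a', ha', j', hj', rfl⟩ := dec y hy
    obtain ⟨b, hb, k, hk, rfl⟩ := dec z hz
    have h1 := H45.TI.brk' c.ba e.toEd ha' hj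
    have h2 := H45.TI.brk' c.ba e.toEd ha hj'
    have h3 : ⁅a * j, a' * j'⁆ = ⁅a', j⁆⁻¹ * ⁅a, j'⁆ := by
      calc _ = a * ⁅a', j⁆⁻¹ * a' * (j * j') * (j' * j)⁻¹ * (a' * (⁅a, j'⁆⁻¹ * a))⁻¹ := by
            simp only [commutatorElement_def]; group
        _ = _ := by
            rw [c.ba.mul_comm _ e.r j hj.1 j' hj'.1, mul_inv_cancel_right,
              c.ba.mul_comm _ e.l a ha _ (inv_mem h1.1), mul_assoc _ a a',
              c.ba.mul_comm _ e.l a ha a' ha', c.ba.mul_comm _ e.l _ (inv_mem h2.1) a ha,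
              ← mul_assoc a', c.ba.mul_comm _ e.l _ (mul_mem ha' ha) _ (inv_mem h2.1)]
            group
    have h4 := mul_mem (inv_mem h1) h2
    rw [h3, ← mul_assoc, c.ba.mul_comm _ e.l _ h4.1 b hb, mul_assoc,
      c.ba.comm _ e.l _ e.r e.ne _ h4 k hk, mul_assoc b]

end Cfsg.Agent.H81.TI
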